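import Mathlib
import Cfsg.Prelude.Def_Solvable
import Cfsg.Prelude.Def_Transfer
import Cfsg.Prelude.Def_CaseTheorems
import Cfsg.Agent.H1.Fit
import Cfsg.Agent.H1.PLength
import Cfsg.Agent.H1.Coprime
import Cfsg.Agent.H9.PAct
import Cfsg.Agent.H1.Glauberman

/-!
# Solvable groups with `O(H) = 1` and 2-nilpotent involution centralizers, part 1 (helper4)
-/

set_option autoImplicit false

namespace Cfsg.Agent.H4.ChzSolv

open Subgroup

lemma eq_one_of_odd_of_two {G : Type*} [Group G] {x : G} (h1 : Odd (orderOf x)) {k : ℕ}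
    (h2 : x ^ (2 ^ k) = 1) : x = 1 := by
  have h3 : orderOf x ∣ 2 ^ k := orderOf_dvd_of_pow_eq_one h2
  have h4 : (orderOf x).Coprime (2 ^ k) := Nat.Coprime.pow_right k (Nat.coprime_two_right.2 h1)
  exact orderOf_eq_one_iff.1 (Nat.Coprime.eq_one_of_dvd h4 h3)

lemma mem_of_odd_of_pow_mem {G : Type*} [Group G] {x : G} (h1 : Odd (orderOf x)) {k : ℕ}
    (N : Subgroup G) (h2 : x ^ (2 ^ k) ∈ N) : x ∈ N := by
  have h4 : (2 ^ k).Coprime (orderOf x) :=
    (Nat.Coprime.pow_right k (Nat.coprime_two_right.2 h1)).symm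
  obtain ⟨m, hm⟩ := exists_pow_eq_self_of_coprime h4
  rw [← hm]
  exact N.pow_mem h2 m

/-- the odd part of an element -/
lemma exists_odd_part {G : Type*} [Group G] [Finite G] (g : G) :
    ∃ a : ℕ, Odd (orderOf (g ^ (2 ^ a))) := by
  obtain ⟨a, m, hm, h⟩ := Nat.exists_eq_two_pow_mul_odd (orderOf_pos g).ne'
  refine ⟨a, ?_⟩
  have h1 : (g ^ (2 ^ a)) ^ m = 1 := by rw [← pow_mul, ← h, pow_orderOf_eq_one]
  exact Odd.of_dvd_nat hm (orderOf_dvd_of_pow_eq_one h1)

variable {H : Type*} [Group H] [Finite H]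

lemma comm_of_inv
    (hI : ∀ t : H, orderOf t = 2 →
      Cfsg.HasNormalPComplement 2 ↥(Subgroup.centralizer ({t} : Set H)))
    {t x y : H} (ht : orderOf t = 2) (hx : Odd (orderOf x)) (hxt : x * t = t * x)
    (hy : y ∈ Cfsg.pCore 2 H) (hyt : y * t = t * y) : x * y = y * x := by
  obtain ⟨P, N, hN, hc⟩ := hI t ht
  have hxC : x ∈ centralizer ({t} : Set H) := mem_centralizer_singleton_iff.2 hxt
  have hyC : y ∈ centralizer ({t} : Set H) := mem_centralizer_singleton_iff.2 hyt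
  have hidx : N.index = Nat.card P := hc.symm.index_eq_card
  obtain ⟨k, hk⟩ := IsPGroup.iff_card.1 P.2
  have hx' : (⟨x, hxC⟩ : centralizer ({t} : Set H)) ∈ N := by
    apply mem_of_odd_of_pow_mem (k := k)
    · rw [Subgroup.orderOf_mk]; exact hx
    · rw [← hk, ← hidx]
      exact Subgroup.pow_index_mem N _
  have hNodd : Odd (Nat.card N) := by
    rw [← hc.index_eq_card]
    have := P.not_dvd_index
    exact Nat.not_even_iff_odd.1 (fun h => this (even_iff_two_dvd.1 h))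
  set x' : centralizer ({t} : Set H) := ⟨x, hxC⟩
  set y' : centralizer ({t} : Set H) := ⟨y, hyC⟩
  have hcN : x' * y' * x'⁻¹ * y'⁻¹ ∈ N := by
    have : x' * y' * x'⁻¹ * y'⁻¹ = x' * (y' * x'⁻¹ * y'⁻¹) := by group
    rw [this]
    exact N.mul_mem hx' (hN.conj_mem _ (N.inv_mem hx') _)
  have hco : Odd (orderOf (x * y * x⁻¹ * y⁻¹)) := by
    have h1 : orderOf (x' * y' * x'⁻¹ * y'⁻¹) ∣ Nat.card N := by
      have := orderOf_dvd_natCard (⟨_, hcN⟩ : N)
      rwa [Subgroup.orderOf_mk] at this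
    have h2 : orderOf (x' * y' * x'⁻¹ * y'⁻¹) = orderOf (x * y * x⁻¹ * y⁻¹) := by
      rw [← Subgroup.orderOf_coe]
      rfl
    rw [← h2]
    exact Odd.of_dvd_nat hNodd h1
  have hYn := Cfsg.H1.pCore_normal (G := H) 2
  have hcY : x * y * x⁻¹ * y⁻¹ ∈ Cfsg.pCore 2 H :=
    (Cfsg.pCore 2 H).mul_mem (hYn.conj_mem _ hy _) ((Cfsg.pCore 2 H).inv_mem hy)
  obtain ⟨j, hj⟩ := Cfsg.H1.pCore_isPGroup (G := H) 2 ⟨_, hcY⟩
  have hj' : (x * y * x⁻¹ * y⁻¹) ^ (2 ^ j) = 1 := by
    have := congrArg Subtype.val hj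
    simpa using this
  have h1 := eq_one_of_odd_of_two hco hj'
  calc x * y = (x * y * x⁻¹ * y⁻¹) * (y * x) := by group
    _ = y * x := by rw [h1, one_mul]

lemma exists_involution_pow {G : Type*} [Group G] {y : G} {j : ℕ} (h : y ^ (2 ^ j) = 1)
    (hy : y ≠ 1) : ∃ n : ℕ, orderOf (y ^ n) = 2 := by
  obtain ⟨k, -, hk⟩ := (Nat.dvd_prime_pow Nat.prime_two).1 (orderOf_dvd_of_pow_eq_one h)
  have hk0 : k ≠ 0 := by
    rintro rfl
    rw [pow_zero, orderOf_eq_one_iff] at hk
    exact hy hk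
  obtain ⟨m, rfl⟩ := Nat.exists_eq_succ_of_ne_zero hk0
  refine ⟨2 ^ m, ?_⟩
  rw [orderOf_pow_of_dvd (by positivity) (by rw [hk]; exact pow_dvd_pow 2 (Nat.le_succ m)), hk,
    Nat.succ_eq_add_one, pow_succ, Nat.mul_div_cancel_left _ (by positivity)]

/-- elements of odd order act fixed-point-freely on `O₂(H)` -/
lemma fpf (hsol : Group.IsSolvable H) (hO : Cfsg.oddCore H = ⊥)
    (hI : ∀ t : H, orderOf t = 2 →
      Cfsg.HasNormalPComplement 2 ↥(Subgroup.centralizer ({t} : Set H)))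
    {x y : H} (hx : Odd (orderOf x)) (hy : y ∈ Cfsg.pCore 2 H) (hy1 : y ≠ 1)
    (hxy : x * y = y * x) : x = 1 := by
  have hYn := Cfsg.H1.pCore_normal (G := H) 2
  have hYp := Cfsg.H1.pCore_isPGroup (G := H) 2
  obtain ⟨j, hj⟩ := hYp ⟨y, hy⟩
  have hj' : y ^ (2 ^ j) = 1 := by
    have := congrArg Subtype.val hj
    simpa using this
  obtain ⟨n, hn⟩ := exists_involution_pow hj' hy1
  set t := y ^ n with ht
  have hxt : x * t = t * x := (Commute.pow_right (show Commute x y from hxy) n).eq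
  have hall : ∀ r ∈ Cfsg.pCore 2 H, x * r = r * x := by
    apply Cfsg.H9.thompson_AxB (p := 2) (R := Cfsg.pCore 2 H) (P := zpowers t) hYp
    · apply IsPGroup.of_card (n := 1)
      rw [Nat.card_zpowers, hn, pow_one]
    · exact Cfsg.H1.le_normalizer_of_normal' _ _
    · exact Cfsg.H1.le_normalizer_of_normal' ⊤ _ (mem_top x)
    · exact Nat.coprime_two_right.2 hx
    · intro g hg
      obtain ⟨i, rfl⟩ := mem_zpowers_iff.1 hg
      exact (Commute.zpow_left (show Commute t x from hxt.symm) i).eq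
    · intro r hr hr2
      exact comm_of_inv hI hn hx hxt hr (hr2 t (mem_zpowers t)).symm
  have hxC : x ∈ centralizer (Cfsg.pCore 2 H : Set H) := by
    rw [mem_centralizer_iff]
    intro r hr
    exact (hall r hr).symm
  have hxY := Cfsg.H1.centralizer_pCore_le 2 hO hxC
  obtain ⟨i, hi⟩ := hYp ⟨x, hxY⟩
  have hi' : x ^ (2 ^ i) = 1 := by
    have := congrArg Subtype.val hi
    simpa using this
  exact eq_one_of_odd_of_two hx hi'

/-- the key step for the quotient `H / O₂(H)` -/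
lemma key3 (hsol : Group.IsSolvable H) (hO : Cfsg.oddCore H = ⊥)
    (hI : ∀ t : H, orderOf t = 2 →
      Cfsg.HasNormalPComplement 2 ↥(Subgroup.centralizer ({t} : Set H)))
    {f r : H} (hf : Odd (orderOf f)) (hr : r ∉ Cfsg.pCore 2 H) (hr2 : r ^ 2 ∈ Cfsg.pCore 2 H)
    (hfr : f * r * f⁻¹ * r⁻¹ ∈ Cfsg.pCore 2 H) : f = 1 := by
  have hYn := Cfsg.H1.pCore_normal (G := H) 2
  have hYp := Cfsg.H1.pCore_isPGroup (G := H) 2
  by_contra hf1
  set Y := Cfsg.pCore 2 H with hY
  have hcomm : Commute (QuotientGroup.mk' Y f) (QuotientGroup.mk' Y r) := by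
    have h1 : QuotientGroup.mk' Y (f * r * f⁻¹ * r⁻¹) = 1 := (QuotientGroup.eq_one_iff _).2 hfr
    rw [map_mul, map_mul, map_mul, map_inv, map_inv] at h1
    show _ * _ = _ * _
    have h2 := mul_inv_eq_one.1 h1
    exact mul_inv_eq_iff_eq_mul.1 h2
  obtain ⟨kY, hkY⟩ := IsPGroup.iff_card.1 hYp
  have hcop : (Nat.card (zpowers f)).Coprime (Nat.card Y) := by
    rw [Nat.card_zpowers, hkY]
    exact Nat.Coprime.pow_right _ (Nat.coprime_two_right.2 hf)
  obtain ⟨d, hd, hn⟩ := Cfsg.H1.exists_mul_mem_centralizer (A := zpowers f) (D := Y)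
    (Cfsg.H1.le_normalizer_of_normal' _ _) hcop (Or.inl inferInstance) r (by
      intro a ha
      obtain ⟨i, rfl⟩ := mem_zpowers_iff.1 ha
      rw [← QuotientGroup.eq_one_iff, ← QuotientGroup.mk'_apply]
      rw [map_mul, map_mul, map_mul, map_inv, map_inv, map_zpow]
      have h3 : Commute ((QuotientGroup.mk' Y f) ^ i) (QuotientGroup.mk' Y r) :=
        hcomm.zpow_left i
      rw [mul_assoc _⁻¹, h3.eq]
      group)
  set n := r * d with hnd
  have hnf : n * f = f * n := by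
    have := mem_centralizer_iff.1 hn f (mem_zpowers f)
    exact this.symm
  have hnY : n ∉ Y := fun h => hr (by
    have := Y.mul_mem h (Y.inv_mem hd)
    rwa [hnd, mul_inv_cancel_right] at this)
  have hn2Y : n ^ 2 ∈ Y := by
    have : n ^ 2 = r ^ 2 * ((r⁻¹ * d * r) * d) := by rw [hnd, sq, sq]; group
    rw [this]
    refine Y.mul_mem hr2 (Y.mul_mem ?_ hd)
    have := hYn.conj_mem d hd r⁻¹
    rwa [inv_inv] at this
  have hn2 : n ^ 2 = 1 := by
    by_contra h
    apply hf1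
    apply fpf hsol hO hI hf hn2Y h
    exact (Commute.pow_right (show Commute f n from hnf.symm) 2).eq
  have hn1 : n ≠ 1 := fun h => hnY (h ▸ Y.one_mem)
  have hno : orderOf n = 2 := orderOf_eq_prime hn2 hn1
  have hYbot : Y ≠ ⊥ := by
    intro h
    have h1 := Cfsg.H1.centralizer_pCore_le 2 hO (G := H)
    rw [← hY, h] at h1
    apply hf1
    have : f ∈ centralizer ((⊥ : Subgroup H) : Set H) := by
      rw [mem_centralizer_iff]
      intro z hz
      rw [SetLike.mem_coe, mem_bot] at hz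
      rw [hz, one_mul, mul_one]
    exact mem_bot.1 (h1 this)
  obtain ⟨y, hyY, hy1, hyn⟩ := Cfsg.H9.exists_fixed_coset (p := 2) (P := zpowers n) (R := Y)
    (C := ⊥) (by
      apply IsPGroup.of_card (n := 1)
      rw [Nat.card_zpowers, hno, pow_one])
    (Cfsg.H1.le_normalizer_of_normal' _ _) (Cfsg.H1.le_normalizer_of_normal' _ _) (by
      rw [Subgroup.relIndex_bot_left, hkY]
      apply dvd_pow_self
      rintro rfl
      rw [pow_zero] at hkY
      exact hYbot (card_eq_one.1 hkY))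
  have hy1' : y ≠ 1 := fun h => hy1 (mem_bot.2 h)
  have hyn' : y * n = n * y := by
    have := mem_bot.1 (hyn n (mem_zpowers n))
    have h2 : n * y * n⁻¹ = y := by
      have := inv_mul_eq_one.1 this
      exact this.symm
    exact (mul_inv_eq_iff_eq_mul.1 h2).symm
  apply hf1
  exact fpf hsol hO hI hf hyY hy1' (comm_of_inv hI hno hf hnf.symm hyY hyn')

end Cfsg.Agent.H4.ChzSolv
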