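import Mathlib
import Cfsg.Agent.H4.ChzSolv
import Cfsg.Agent.H1.Small5
import Cfsg.Agent.Tr.MC11

/-!
# Solvable groups with `O(H) = 1` and 2-nilpotent involution centralizers, part 2 (helper4)

Abstract analysis of the quotient `K = H / O₂(H)`.
-/

set_option autoImplicit false

namespace Cfsg.Agent.H4.ChzSolv

open Subgroup

variable {K : Type*} [Group K] [Finite K]

lemma odd_orderOf_of_mem_oddCore {f : K} (hf : f ∈ Cfsg.oddCore K) : Odd (orderOf f) := by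
  have h1 : (Nat.card (Cfsg.pPrimeCore 2 K)).Coprime 2 := Cfsg.H1.pPrimeCore_coprime 2
  have h2 : orderOf f ∣ Nat.card (Cfsg.pPrimeCore 2 K) := by
    have := orderOf_dvd_natCard (⟨f, hf⟩ : Cfsg.pPrimeCore 2 K)
    rwa [Subgroup.orderOf_mk] at this
  exact Odd.of_dvd_nat (Nat.coprime_two_right.1 h1) h2

lemma cent_oddCore_le (hsol : Group.IsSolvable K) (h2 : Cfsg.pCore 2 K = ⊥) :
    centralizer (Cfsg.oddCore K : Set K) ≤ Cfsg.oddCore K := by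
  have hF : Cfsg.fittingSubgroup K ≤ Cfsg.oddCore K := by
    rw [Cfsg.H1.fitting_eq_iSup_pCore]
    apply iSup_le
    intro q
    by_cases hq : (q : ℕ) = 2
    · rw [hq, h2]; exact bot_le
    · apply Cfsg.H1.le_pPrimeCore (Cfsg.H1.pCore_normal _)
      have : Fact (q : ℕ).Prime := ⟨q.2⟩
      obtain ⟨k, hk⟩ := IsPGroup.iff_card.1 (Cfsg.H1.pCore_isPGroup (G := K) q)
      rw [hk]
      exact Nat.Coprime.pow_left _ ((Nat.coprime_primes q.2 Nat.prime_two).2 hq)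
  exact (centralizer_le hF).trans (Cfsg.H1.centralizer_fitting_le.trans hF)

lemma inverts (h3 : ∀ r f : K, orderOf r = 2 → Odd (orderOf f) → f * r = r * f → f = 1)
    {r : K} (hr : orderOf r = 2) :
    (∀ k ∈ Cfsg.oddCore K, r * k * r⁻¹ = k⁻¹) ∧ IsMulCommutative (Cfsg.oddCore K) := by
  haveI := Cfsg.H1.pPrimeCore_normal (G := K) 2
  apply Cfsg.H1.frob_involution_inverts (Cfsg.oddCore K) r hr
  rw [eq_bot_iff]
  intro f hf
  obtain ⟨hf1, hf2⟩ := mem_inf.1 hf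
  rw [mem_bot]
  exact h3 r f hr (odd_orderOf_of_mem_oddCore hf1) (mem_centralizer_singleton_iff.1 hf2)

lemma mul_mem_of_inv (hsol : Group.IsSolvable K) (h2 : Cfsg.pCore 2 K = ⊥)
    (h3 : ∀ r f : K, orderOf r = 2 → Odd (orderOf f) → f * r = r * f → f = 1)
    {r s : K} (hr : orderOf r = 2) (hs : orderOf s = 2) : s * r ∈ Cfsg.oddCore K := by
  apply cent_oddCore_le hsol h2
  rw [mem_centralizer_iff]
  intro f hf
  have h1 := (inverts h3 hr).1 f hf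
  have h2' := (inverts h3 hs).1 f⁻¹ (inv_mem hf)
  rw [inv_inv, ← h1] at h2'
  calc f * (s * r) = (s * (r * f * r⁻¹) * s⁻¹) * (s * r) := by rw [h2']
    _ = s * r * f := by group

lemma inv_eq_self_of_orderOf_two {G : Type*} [Group G] {r : G} (hr : orderOf r = 2) :
    r⁻¹ = r := by
  have : r * r = 1 := by rw [← sq, ← hr, pow_orderOf_eq_one]
  exact inv_eq_of_mul_eq_one_left this

lemma decomp (hsol : Group.IsSolvable K) (h2 : Cfsg.pCore 2 K = ⊥)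
    (h3 : ∀ r f : K, orderOf r = 2 → Odd (orderOf f) → f * r = r * f → f = 1)
    {r : K} (hr : orderOf r = 2) (g : K) :
    ∃ h ∈ Cfsg.oddCore K, ∃ c, c * r = r * c ∧ g = h * c := by
  have hs : orderOf (g * r * g⁻¹) = 2 := by
    rw [← MulAut.conj_apply, (MulAut.conj g).orderOf_eq, hr]
  have hf := mul_mem_of_inv hsol h2 h3 hr hs
  set f := g * r * g⁻¹ * r with hfdef
  obtain ⟨j, hj⟩ := odd_orderOf_of_mem_oddCore hf
  set h := f ^ (j + 1) with hh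
  have hhF : h ∈ Cfsg.oddCore K := pow_mem hf _
  have hh2 : h * h = f := by
    rw [hh, ← pow_add]
    have : j + 1 + (j + 1) = orderOf f + 1 := by omega
    rw [this, pow_succ, pow_orderOf_eq_one, one_mul]
  have e3 := inv_eq_self_of_orderOf_two hr
  have e1 : g * r = h * h * r⁻¹ * g := by
    calc g * r = (g * r * g⁻¹ * r) * r⁻¹ * g := by group
      _ = _ := by rw [← hfdef, hh2]
  have e2 : r * h⁻¹ = h * r := by
    have := (inverts h3 hr).1 h⁻¹ (inv_mem hhF)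
    rw [inv_inv] at this
    exact mul_inv_eq_iff_eq_mul.1 this
  refine ⟨h, hhF, h⁻¹ * g, ?_, by group⟩
  calc h⁻¹ * g * r = h⁻¹ * (g * r) := mul_assoc _ _ _
    _ = h⁻¹ * (h * h * r⁻¹ * g) := by rw [e1]
    _ = h * r * g := by rw [e3]; group
    _ = r * h⁻¹ * g := by rw [e2]
    _ = r * (h⁻¹ * g) := mul_assoc _ _ _

lemma two_elt_of_comm
    (h3 : ∀ r f : K, orderOf r = 2 → Odd (orderOf f) → f * r = r * f → f = 1)
    {r c : K} (hr : orderOf r = 2) (hc : c * r = r * c) : ∃ a : ℕ, c ^ (2 ^ a) = 1 := by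
  obtain ⟨a, ha⟩ := exists_odd_part c
  exact ⟨a, h3 r _ hr ha (Commute.pow_left (show Commute c r from hc) _).eq⟩

lemma oddCore_eq_top_of_no_inv (hno : ∀ r : K, orderOf r ≠ 2) : Cfsg.oddCore K = ⊤ := by
  rw [eq_top_iff]
  apply Cfsg.H1.le_pPrimeCore inferInstance
  rw [Subgroup.card_top, Nat.coprime_two_right]
  by_contra h
  rw [Nat.not_odd_iff_even, even_iff_two_dvd] at h
  obtain ⟨x, hx⟩ := exists_prime_orderOf_dvd_card' 2 h
  exact hno x hx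

lemma pow_mem_oddCore (hsol : Group.IsSolvable K) (h2 : Cfsg.pCore 2 K = ⊥)
    (h3 : ∀ r f : K, orderOf r = 2 → Odd (orderOf f) → f * r = r * f → f = 1) (g : K) :
    ∃ a : ℕ, g ^ (2 ^ a) ∈ Cfsg.oddCore K := by
  by_cases hno : ∀ r : K, orderOf r ≠ 2
  · exact ⟨0, by rw [oddCore_eq_top_of_no_inv hno]; exact mem_top _⟩
  · push_neg at hno
    obtain ⟨r, hr⟩ := hno
    obtain ⟨h, hh, c, hc, rfl⟩ := decomp hsol h2 h3 hr g
    obtain ⟨a, ha⟩ := two_elt_of_comm h3 hr hc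
    haveI := Cfsg.H1.pPrimeCore_normal (G := K) 2
    refine ⟨a, ?_⟩
    rw [← QuotientGroup.eq_one_iff, QuotientGroup.mk_pow, QuotientGroup.mk_mul,
      (QuotientGroup.eq_one_iff h).2 hh, one_mul, ← QuotientGroup.mk_pow, ha]
    rfl

lemma comm_mem (hsol : Group.IsSolvable K) (h2 : Cfsg.pCore 2 K = ⊥)
    (hcyc : IsCyclic (Cfsg.oddCore K)) (g₁ g₂ : K) :
    (g₂ * g₁)⁻¹ * (g₁ * g₂) ∈ Cfsg.oddCore K := by
  apply cent_oddCore_le hsol h2
  obtain ⟨⟨f₀, hf₀⟩, hgen⟩ := hcyc.exists_generator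
  have hn := Cfsg.H1.pPrimeCore_normal (G := K) 2
  have key : ∀ g : K, ∃ k : ℤ, g * f₀ * g⁻¹ = f₀ ^ k := by
    intro g
    have := hgen ⟨g * f₀ * g⁻¹, hn.conj_mem _ hf₀ g⟩
    obtain ⟨k, hk⟩ := mem_zpowers_iff.1 this
    exact ⟨k, by have := congrArg Subtype.val hk; simpa using this.symm⟩
  obtain ⟨k₁, hk₁⟩ := key g₁
  obtain ⟨k₂, hk₂⟩ := key g₂
  have e1 : (g₁ * g₂) * f₀ * (g₁ * g₂)⁻¹ = f₀ ^ (k₁ * k₂) := by
    calc (g₁ * g₂) * f₀ * (g₁ * g₂)⁻¹ = g₁ * (g₂ * f₀ * g₂⁻¹) * g₁⁻¹ := by group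
      _ = g₁ * f₀ ^ k₂ * g₁⁻¹ := by rw [hk₂]
      _ = (g₁ * f₀ * g₁⁻¹) ^ k₂ := (conj_zpow).symm
      _ = _ := by rw [hk₁, ← zpow_mul]
  have e2 : (g₂ * g₁) * f₀ * (g₂ * g₁)⁻¹ = f₀ ^ (k₁ * k₂) := by
    calc (g₂ * g₁) * f₀ * (g₂ * g₁)⁻¹ = g₂ * (g₁ * f₀ * g₁⁻¹) * g₂⁻¹ := by group
      _ = g₂ * f₀ ^ k₁ * g₂⁻¹ := by rw [hk₁]
      _ = (g₂ * f₀ * g₂⁻¹) ^ k₁ := (conj_zpow).symm
      _ = _ := by rw [hk₂, ← zpow_mul, mul_comm]
  have e3 : Commute ((g₂ * g₁)⁻¹ * (g₁ * g₂)) f₀ := by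
    show _ * _ = _ * _
    calc (g₂ * g₁)⁻¹ * (g₁ * g₂) * f₀
        = (g₂ * g₁)⁻¹ * ((g₁ * g₂) * f₀ * (g₁ * g₂)⁻¹) * (g₁ * g₂) := by group
      _ = (g₂ * g₁)⁻¹ * ((g₂ * g₁) * f₀ * (g₂ * g₁)⁻¹) * (g₁ * g₂) := by rw [e1, e2]
      _ = f₀ * ((g₂ * g₁)⁻¹ * (g₁ * g₂)) := by group
  rw [mem_centralizer_iff]
  intro f hf
  obtain ⟨k, hk⟩ := mem_zpowers_iff.1 (hgen ⟨f, hf⟩)
  have hk' : f = f₀ ^ k := by have := congrArg Subtype.val hk; simpa using this.symm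
  rw [hk']
  exact (e3.zpow_right k).eq.symm

lemma quot_cyclic (hsol : Group.IsSolvable K) (h2 : Cfsg.pCore 2 K = ⊥)
    (h3 : ∀ r f : K, orderOf r = 2 → Odd (orderOf f) → f * r = r * f → f = 1)
    (hcyc : IsCyclic (Cfsg.oddCore K)) {r : K} (hr : orderOf r = 2)
    [hn : (Cfsg.oddCore K).Normal] : IsCyclic (K ⧸ Cfsg.oddCore K) := by
  have hQ2 : IsPGroup 2 (K ⧸ Cfsg.oddCore K) := by
    intro x
    obtain ⟨g, rfl⟩ := QuotientGroup.mk_surjective x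
    obtain ⟨a, ha⟩ := pow_mem_oddCore hsol h2 h3 g
    exact ⟨a, by rw [← QuotientGroup.mk_pow]; exact (QuotientGroup.eq_one_iff _).2 ha⟩
  have hcomm : ∀ a b : K ⧸ Cfsg.oddCore K, a * b = b * a := by
    intro a b
    obtain ⟨g₁, rfl⟩ := QuotientGroup.mk_surjective a
    obtain ⟨g₂, rfl⟩ := QuotientGroup.mk_surjective b
    rw [← QuotientGroup.mk_mul, ← QuotientGroup.mk_mul]
    exact (QuotientGroup.eq.2 (comm_mem hsol h2 hcyc g₁ g₂)).symm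
  have huniq' : ∀ x : K ⧸ Cfsg.oddCore K, orderOf x = 2 → x = QuotientGroup.mk r := by
    intro x hx
    obtain ⟨g, rfl⟩ := QuotientGroup.mk_surjective x
    obtain ⟨h, hh, c, hc, rfl⟩ := decomp hsol h2 h3 hr g
    obtain ⟨a, ha⟩ := two_elt_of_comm h3 hr hc
    have e1 : (QuotientGroup.mk (h * c) : K ⧸ Cfsg.oddCore K) = QuotientGroup.mk c := by
      rw [QuotientGroup.mk_mul, (QuotientGroup.eq_one_iff h).2 hh, one_mul]
    rw [e1] at hx ⊢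
    have hc2F : c ^ 2 ∈ Cfsg.oddCore K := by
      rw [← QuotientGroup.eq_one_iff, QuotientGroup.mk_pow, ← hx, pow_orderOf_eq_one]
    have hc2 : c ^ 2 = 1 := by
      apply eq_one_of_odd_of_two (odd_orderOf_of_mem_oddCore hc2F) (k := a)
      rw [← pow_mul, mul_comm, pow_mul, ha, one_pow]
    have hc1 : c ≠ 1 := by
      rintro rfl
      rw [QuotientGroup.mk_one, orderOf_one] at hx
      omega
    have hco : orderOf c = 2 := orderOf_eq_prime hc2 hc1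
    rw [QuotientGroup.eq, inv_eq_self_of_orderOf_two hco]
    exact mul_mem_of_inv hsol h2 h3 hr hco
  have huniq : ∀ x y : K ⧸ Cfsg.oddCore K, orderOf x = 2 → orderOf y = 2 → x = y :=
    fun x y hx hy => (huniq' x hx).trans (huniq' y hy).symm
  haveI : IsMulCommutative (⊤ : Subgroup (K ⧸ Cfsg.oddCore K)) :=
    ⟨⟨fun a b => Subtype.ext (hcomm a b)⟩⟩
  have := Cfsg.Agent.Tr.MC.isCyclic_of_unique_involution hQ2 huniq ⊤
  exact isCyclic_of_surjective (⊤ : Subgroup (K ⧸ Cfsg.oddCore K)).subtype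
    (fun x => ⟨⟨x, mem_top x⟩, rfl⟩)

end Cfsg.Agent.H4.ChzSolv
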