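import Mathlib
import Cfsg.Agent.H4.Basic2
import Cfsg.Agent.H1.Coprime

set_option autoImplicit false

namespace Cfsg.Agent.H4.EqOrdA

open Subgroup
open scoped Pointwise

variable {G : Type*} [Group G]

theorem map_mk_smul (N : Subgroup G) [N.Normal] (g : G) (X : Subgroup G) :
    (MulAut.conj g • X).map (QuotientGroup.mk' N)
      = MulAut.conj (QuotientGroup.mk' N g) • X.map (QuotientGroup.mk' N) := by
  show (X.map (MulAut.conj g).toMonoidHom).map (QuotientGroup.mk' N)
    = (X.map (QuotientGroup.mk' N)).map (MulAut.conj (QuotientGroup.mk' N g)).toMonoidHom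
  rw [Subgroup.map_map, Subgroup.map_map]
  congr 1

theorem lift_p [Finite G] (N : Subgroup G) [N.Normal] (p : ℕ) [Fact p.Prime]
    (Xb : Subgroup (G ⧸ N)) (hX : IsPGroup p Xb) :
    ∃ Xp : Subgroup G, IsPGroup p Xp ∧ Xp.map (QuotientGroup.mk' N) = Xb ∧
      Nat.card Xp = p ^ (Nat.card N * Nat.card Xb).factorization p := by
  set X := Xb.comap (QuotientGroup.mk' N) with hXdef
  have hcard : Nat.card X = Nat.card N * Nat.card Xb := Cfsg.Agent.H4.card_comap_mk' N Xb
  let P : Sylow p X := default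
  let f : X →* Xb := (QuotientGroup.mk' N).subgroupComap Xb
  have hf : Function.Surjective f :=
    MonoidHom.subgroupComap_surjective_of_surjective _ _ (QuotientGroup.mk'_surjective N)
  have htop : (P : Subgroup X).map f = ⊤ := by
    have h1 : ((P.mapSurjective hf : Sylow p Xb) : Subgroup Xb) = (P : Subgroup X).map f := rfl
    rw [← h1]
    apply Subgroup.eq_top_of_card_eq
    rw [Sylow.card_eq_multiplicity]
    obtain ⟨k, hk⟩ := IsPGroup.iff_card.1 hX
    rw [hk, Nat.factorization_pow, Nat.Prime.factorization (Fact.out : p.Prime)]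
    simp
  refine ⟨(P : Subgroup X).map X.subtype, P.2.map _, ?_, ?_⟩
  · have h2 : ((P : Subgroup X).map X.subtype).map (QuotientGroup.mk' N)
        = ((P : Subgroup X).map f).map Xb.subtype := by
      rw [Subgroup.map_map, Subgroup.map_map]
      rfl
    rw [h2, htop, ← MonoidHom.range_eq_map, Subgroup.range_subtype]
  · rw [Subgroup.card_map_of_injective X.subtype_injective, Sylow.card_eq_multiplicity, hcard]

/-- `r`-subgroups of equal order are conjugate. -/
def Hr (r : ℕ) (G : Type*) [Group G] : Prop :=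
  ∀ H K : Subgroup G, IsPGroup r H → IsPGroup r K → Nat.card H = Nat.card K →
    ∃ g : G, K = MulAut.conj g • H

theorem Hr.quot [Finite G] {r : ℕ} [Fact r.Prime] (h : Hr r G) (N : Subgroup G) [N.Normal] :
    Hr r (G ⧸ N) := by
  intro Xb Yb hX hY hc
  obtain ⟨X, hX1, hX2, hX3⟩ := lift_p N r Xb hX
  obtain ⟨Y, hY1, hY2, hY3⟩ := lift_p N r Yb hY
  obtain ⟨g, hg⟩ := h X Y hX1 hY1 (by rw [hX3, hY3, hc])
  refine ⟨QuotientGroup.mk' N g, ?_⟩
  rw [← hY2, hg, map_mk_smul, hX2]

/-- Sylow `p`-subgroups are cyclic for primes `p ≠ r`. -/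
def Cy (r : ℕ) (G : Type*) [Group G] : Prop :=
  ∀ p : ℕ, p.Prime → p ≠ r → ∀ P : Sylow p G, IsCyclic P

theorem Cy.quot [Finite G] {r : ℕ} (h : Cy r G) (N : Subgroup G) [N.Normal] : Cy r (G ⧸ N) := by
  intro p hp hpr Pb
  haveI : Fact p.Prime := ⟨hp⟩
  obtain ⟨P, rfl⟩ := Sylow.mapSurjective_surjective (QuotientGroup.mk'_surjective N) p Pb
  haveI := h p hp hpr P
  show IsCyclic ((P : Subgroup G).map (QuotientGroup.mk' N))
  exact isCyclic_of_surjective ((QuotientGroup.mk' N).subgroupMap (P : Subgroup G))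
    ((QuotientGroup.mk' N).subgroupMap_surjective (P : Subgroup G))

theorem Cy.sub [Finite G] {r : ℕ} (h : Cy r G) (T : Subgroup G) : Cy r T := by
  intro p hp hpr P
  haveI : Fact p.Prime := ⟨hp⟩
  obtain ⟨Q, hQ⟩ := (P.2.map T.subtype).exists_le_sylow
  haveI := h p hp hpr Q
  haveI : IsCyclic ((P : Subgroup T).map T.subtype) := Subgroup.isCyclic_of_le hQ
  exact isCyclic_of_injective ((P : Subgroup T).equivMapOfInjective T.subtype T.subtype_injective).toMonoidHom
    ((P : Subgroup T).equivMapOfInjective T.subtype T.subtype_injective).injective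

/-- conjugacy in the quotient lifts to overgroups of `N`. -/
theorem conj_of_quot (N : Subgroup G) [N.Normal] (X Y : Subgroup G) (hX : N ≤ X) (hY : N ≤ Y)
    (h : ∃ g : G ⧸ N, Y.map (QuotientGroup.mk' N) = MulAut.conj g • X.map (QuotientGroup.mk' N)) :
    ∃ g : G, Y = MulAut.conj g • X := by
  obtain ⟨gb, hg⟩ := h
  obtain ⟨g, rfl⟩ := QuotientGroup.mk'_surjective N gb
  refine ⟨g, ?_⟩
  rw [← map_mk_smul] at hg
  have hX' : N ≤ MulAut.conj g • X := by
    have : MulAut.conj g • N ≤ MulAut.conj g • X := Subgroup.pointwise_smul_le_pointwise_smul_iff.2 hX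
    rwa [Subgroup.Normal.conj_smul_eq_self] at this
  have h1 := congrArg (Subgroup.comap (QuotientGroup.mk' N)) hg
  rwa [Subgroup.comap_map_eq_self (by rwa [QuotientGroup.ker_mk']),
    Subgroup.comap_map_eq_self (by rwa [QuotientGroup.ker_mk'])] at h1

theorem card_map_mk [Finite G] (N : Subgroup G) [N.Normal] (X : Subgroup G) (hX : N ≤ X) :
    Nat.card X = Nat.card N * Nat.card (X.map (QuotientGroup.mk' N)) := by
  rw [← Cfsg.Agent.H4.card_comap_mk', Subgroup.comap_map_eq_self (by rwa [QuotientGroup.ker_mk'])]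

end Cfsg.Agent.H4.EqOrdA
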