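import Mathlib
import Cfsg.Agent.H4.EqOrdA
import Cfsg.Agent.H24.Cyclic

set_option autoImplicit false

namespace Cfsg.Agent.H4.EqOrdA

open Subgroup
open scoped Pointwise

variable {G : Type*} [Group G]

theorem map_smul_hom {G' : Type*} [Group G'] (f : G →* G') (g : G) (X : Subgroup G) :
    (MulAut.conj g • X).map f = MulAut.conj (f g) • X.map f := by
  show (X.map (MulAut.conj g).toMonoidHom).map f = (X.map f).map (MulAut.conj (f g)).toMonoidHom
  rw [Subgroup.map_map, Subgroup.map_map]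
  congr 1
  ext x
  simp

theorem cu [Finite G] (Q : Subgroup G) [IsCyclic Q] (H K : Subgroup G) (hH : H ≤ Q) (hK : K ≤ Q)
    (h : Nat.card H = Nat.card K) : H = K := by
  have h1 := Cfsg.Agent.H24.cyclic_subgroup_eq_of_card_eq (H.subgroupOf Q) (K.subgroupOf Q)
    (by rw [Cfsg.H1.card_subgroupOf_of_le hH, Cfsg.H1.card_subgroupOf_of_le hK, h])
  have h2 := congrArg (Subgroup.map Q.subtype) h1
  rwa [Subgroup.map_subgroupOf_eq_of_le hH, Subgroup.map_subgroupOf_eq_of_le hK] at h2

theorem zd [Finite G] {q : ℕ} [Fact q.Prime] (h : ∀ P : Sylow q G, IsCyclic P) : Hr q G := by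
  intro H K hH hK hc
  obtain ⟨P, hP⟩ := hH.exists_le_sylow
  obtain ⟨P', hP'⟩ := hK.exists_le_sylow
  obtain ⟨g, hg⟩ := MulAction.exists_smul_eq G P P'
  refine ⟨g, ?_⟩
  haveI := h P'
  apply cu (P' : Subgroup G) _ _ hP'
  · have h1 : MulAut.conj g • H ≤ MulAut.conj g • (P : Subgroup G) :=
      Subgroup.pointwise_smul_le_pointwise_smul_iff.2 hP
    have h2 : ((g • P : Sylow q G) : Subgroup G) = MulAut.conj g • (P : Subgroup G) := rfl
    rw [← h2, hg] at h1
    exact h1
  · rw [Cfsg.H1.card_conj_smul, hc]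

theorem dich [Finite G] {q : ℕ} [Fact q.Prime] (h : Hr q G) (N : Subgroup G) [N.Normal]
    (hN : IsPGroup q N) (T : Subgroup G) (hT : IsPGroup q T) :
    (Nat.card T ≤ Nat.card N → T ≤ N) ∧ (Nat.card N ≤ Nat.card T → N ≤ T) := by
  have hq : q.Prime := Fact.out
  obtain ⟨a, ha⟩ := IsPGroup.iff_card.1 hT
  obtain ⟨b, hb⟩ := IsPGroup.iff_card.1 hN
  constructor
  · intro hle
    rw [ha, hb] at hle
    have hab : a ≤ b := (Nat.pow_le_pow_iff_right hq.one_lt).1 hle
    obtain ⟨K, hK⟩ := Sylow.exists_subgroup_card_pow_prime (G := N) q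
      (n := a) (by rw [hb]; exact pow_dvd_pow q hab)
    have hK' : Nat.card (K.map N.subtype) = q ^ a := by
      rw [Subgroup.card_map_of_injective N.subtype_injective, hK]
    obtain ⟨g, hg⟩ := h (K.map N.subtype) T (IsPGroup.of_card hK') hT (by rw [hK', ha])
    rw [hg]
    have h1 : MulAut.conj g • K.map N.subtype ≤ MulAut.conj g • N :=
      Subgroup.pointwise_smul_le_pointwise_smul_iff.2 (Subgroup.map_subtype_le K)
    rwa [Subgroup.Normal.conj_smul_eq_self g N] at h1
  · intro hle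
    rw [ha, hb] at hle
    have hab : b ≤ a := (Nat.pow_le_pow_iff_right hq.one_lt).1 hle
    obtain ⟨K, hK⟩ := Sylow.exists_subgroup_card_pow_prime (G := T) q
      (n := b) (by rw [ha]; exact pow_dvd_pow q hab)
    have hK' : Nat.card (K.map T.subtype) = q ^ b := by
      rw [Subgroup.card_map_of_injective T.subtype_injective, hK]
    obtain ⟨g, hg⟩ := h N (K.map T.subtype) hN (IsPGroup.of_card hK') (by rw [hK', hb])
    rw [Subgroup.Normal.conj_smul_eq_self] at hg
    rw [← hg]
    exact Subgroup.map_subtype_le K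

/-- transfer of conjugacy from a subgroup. -/
theorem conj_of_sub (T X Y : Subgroup G) (hX : X ≤ T) (hY : Y ≤ T)
    (h : ∃ t : T, Y.subgroupOf T = MulAut.conj t • X.subgroupOf T) :
    ∃ t ∈ T, Y = MulAut.conj t • X := by
  obtain ⟨t, ht⟩ := h
  refine ⟨t, t.2, ?_⟩
  have h2 := congrArg (Subgroup.map T.subtype) ht
  rwa [map_smul_hom, Subgroup.map_subgroupOf_eq_of_le hX, Subgroup.map_subgroupOf_eq_of_le hY] at h2

/-- the order of `A ⊔ N` in terms of `A ⊓ N`. -/
theorem card_sup_mul [Finite G] (N : Subgroup G) [N.Normal] (A : Subgroup G) :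
    Nat.card (A ⊔ N : Subgroup G) * Nat.card (A ⊓ N : Subgroup G) = Nat.card A * Nat.card N := by
  have e1 : Nat.card N * N.relIndex (A ⊔ N) = Nat.card (A ⊔ N : Subgroup G) := by
    have := Subgroup.relIndex_mul_relIndex ⊥ N (A ⊔ N) bot_le le_sup_right
    rwa [Subgroup.relIndex_bot_left, Subgroup.relIndex_bot_left] at this
  have e2 : N.relIndex (A ⊔ N) = N.relIndex A := Subgroup.relIndex_sup_right A N
  have e3 : Nat.card (A ⊓ N : Subgroup G) * (A ⊓ N).relIndex A = Nat.card A := by
    have := Subgroup.relIndex_mul_relIndex ⊥ (A ⊓ N) A bot_le inf_le_left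
    rwa [Subgroup.relIndex_bot_left, Subgroup.relIndex_bot_left] at this
  have e4 : (A ⊓ N).relIndex A = N.relIndex A := Subgroup.inf_relIndex_left A N
  rw [← e1, ← e3, e2, e4]
  ring

/-- the Sylow `q`-subgroup of `A`, in `G`. -/
theorem exists_syl [Finite G] (q : ℕ) [Fact q.Prime] (A : Subgroup G) :
    ∃ Aq : Subgroup G, Aq ≤ A ∧ IsPGroup q Aq ∧ Nat.card Aq = q ^ (Nat.card A).factorization q := by
  let P : Sylow q A := default
  refine ⟨(P : Subgroup A).map A.subtype, Subgroup.map_subtype_le _, P.2.map _, ?_⟩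
  rw [Subgroup.card_map_of_injective A.subtype_injective, Sylow.card_eq_multiplicity]

/-- a complement to a normal Hall subgroup `D` of `A`. -/
theorem exists_compl [Finite G] (A D : Subgroup G) (hDA : D ≤ A) (hn : A ≤ normalizer (D : Set G))
    (hcop : (Nat.card D).Coprime (D.relIndex A)) :
    ∃ C : Subgroup G, C ≤ A ∧ D ⊔ C = A ∧ Nat.card D * Nat.card C = Nat.card A := by
  haveI : (D.subgroupOf A).Normal := Subgroup.normal_subgroupOf_of_le_normalizer hn
  obtain ⟨C0, hC0⟩ := Subgroup.exists_right_complement'_of_coprime (N := D.subgroupOf A)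
    (by rw [Cfsg.H1.card_subgroupOf_of_le hDA]; exact hcop)
  refine ⟨C0.map A.subtype, Subgroup.map_subtype_le _, ?_, ?_⟩
  · have h1 := hC0.sup_eq_top
    have h2 := congrArg (Subgroup.map A.subtype) h1
    rwa [Subgroup.map_sup, Subgroup.map_subgroupOf_eq_of_le hDA, ← MonoidHom.range_eq_map,
      Subgroup.range_subtype] at h2
  · have h1 := hC0.card_mul_card
    rw [Subgroup.card_map_of_injective A.subtype_injective]
    rwa [Cfsg.H1.card_subgroupOf_of_le hDA] at h1

end Cfsg.Agent.H4.EqOrdA
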