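import Mathlib
import Cfsg.Agent.H4.EqOrdB
import Cfsg.Agent.H4.MinNormal
import Cfsg.Agent.H4.SolvMin

set_option autoImplicit false

namespace Cfsg.Agent.H4.EqOrdA

open Subgroup
open scoped Pointwise

universe u

theorem smul_le_normalizer {G : Type*} [Group G] (g : G) (X Y : Subgroup G)
    (h : X ≤ normalizer (Y : Set G)) :
    MulAut.conj g • X ≤ normalizer ((MulAut.conj g • Y : Subgroup G) : Set G) := by
  have h1 := Subgroup.map_equiv_normalizer_eq Y (MulAut.conj g)
  have h2 : X.map (MulAut.conj g).toMonoidHom ≤ (normalizer (Y : Set G)).map (MulAut.conj g).toMonoidHom :=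
    Subgroup.map_mono h
  rw [h1] at h2
  exact h2

theorem smul_eq_of_mem_normalizer {G : Type*} [Group G] (t : G) (E : Subgroup G)
    (h : t ∈ normalizer (E : Set G)) : MulAut.conj t • E = E :=
  Subgroup.mem_normalizer_iff_map_conj_eq.1 h

set_option maxHeartbeats 1000000 in
theorem main (r : ℕ) [Fact r.Prime] : ∀ (n : ℕ) (G : Type u) [Group G] [Finite G]
    [Group.IsSolvable G], Nat.card G = n → Cy r G → ∀ A B : Subgroup G, Nat.card A = Nat.card B →
      (¬ r ∣ Nat.card A ∨ Hr r G) → ∃ g : G, B = MulAut.conj g • A := by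
  intro n
  induction n using Nat.strong_induction_on with
  | _ n ih =>
  intro G _ _ _ hn hcy A B hAB hor
  by_cases htriv : (⊤ : Subgroup G) = ⊥
  · refine ⟨1, ?_⟩
    have : ∀ X : Subgroup G, X = ⊥ := fun X => eq_bot_iff.2 (htriv ▸ le_top)
    rw [this B, this (MulAut.conj 1 • A)]
  obtain ⟨N, hNn, hN0, -, hmin⟩ :=
    Cfsg.Agent.H4.exists_minimal_normal_le (D := (⊤ : Subgroup G)) inferInstance htriv
  haveI := hNn
  obtain ⟨hNab, q, hq, hNq⟩ := Cfsg.Agent.H4.minimal_normal_of_solvable N hN0 hmin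
  haveI : Fact q.Prime := ⟨hq⟩
  have hN1 : 1 < Nat.card N := (Subgroup.one_lt_card_iff_ne_bot N).2 hN0
  have hcardQ : Nat.card (G ⧸ N) < n := by
    have := Subgroup.card_eq_card_quotient_mul_card_subgroup N
    rw [hn] at this
    have hpos : 0 < Nat.card (G ⧸ N) := Nat.card_pos
    nlinarith
  have hQ : ∀ X Y : Subgroup G, N ≤ X → N ≤ Y → Nat.card X = Nat.card Y →
      (¬ r ∣ Nat.card (X.map (QuotientGroup.mk' N)) ∨ Hr r G) →
      ∃ g : G, Y = MulAut.conj g • X := by
    intro X Y hX hY hc hor'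
    apply conj_of_quot N X Y hX hY
    apply ih _ hcardQ (G ⧸ N) rfl (hcy.quot N)
    · have h1 := card_map_mk N X hX
      have h2 := card_map_mk N Y hY
      rw [hc, h2] at h1
      exact (Nat.eq_of_mul_eq_mul_left (by omega) h1).symm
    · exact hor'.imp id (fun h => h.quot N)
  have hnorm : ∀ X : Subgroup G, X ≤ normalizer (N : Set G) := fun X x _ => by
    rw [Subgroup.normalizer_eq_top_iff.2 hNn]; exact Subgroup.mem_top x
  have hmapsup : ∀ X : Subgroup G, (X ⊔ N).map (QuotientGroup.mk' N) = X.map (QuotientGroup.mk' N) := by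
    intro X
    rw [Subgroup.map_sup, QuotientGroup.map_mk'_self, sup_bot_eq]
  have hor2 : ∀ X : Subgroup G, Nat.card X = Nat.card A →
      (¬ r ∣ Nat.card (X.map (QuotientGroup.mk' N)) ∨ Hr r G) := by
    intro X hX
    refine hor.imp (fun h h' => h ?_) id
    rw [← hX]
    exact h'.trans (Subgroup.card_map_dvd _ _)
  have hcase : (q = r ∧ ¬ r ∣ Nat.card A) ∨ Hr q G := by
    by_cases hqr : q = r
    · subst hqr
      exact hor.imp (fun h => ⟨rfl, h⟩) id
    · exact Or.inr (zd (hcy q hq hqr))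
  rcases hcase with ⟨hqr, hrA⟩ | hHq
  · -- coprime case
    have hcopA : ∀ X : Subgroup G, Nat.card X = Nat.card A →
        (Nat.card X).Coprime (Nat.card N) := by
      intro X hX
      obtain ⟨b, hb⟩ := IsPGroup.iff_card.1 hNq
      rw [hb, hX]
      apply Nat.Coprime.pow_right
      rw [Nat.coprime_comm, Nat.Prime.coprime_iff_not_dvd hq, hqr]
      exact hrA
    have hsup : ∀ X : Subgroup G, Nat.card X = Nat.card A →
        Nat.card (X ⊔ N : Subgroup G) = Nat.card N * Nat.card A := by
      intro X hX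
      rw [sup_comm, Cfsg.H1.card_sup_of_disjoint (hnorm X)
        (Subgroup.disjoint_of_coprime_natCard (hcopA X hX).symm), hX]
    obtain ⟨g, hg⟩ := hQ (A ⊔ N) (B ⊔ N) le_sup_right le_sup_right
      (by rw [hsup A rfl, hsup B hAB.symm]) (by rw [hmapsup]; exact hor2 A rfl)
    rw [Subgroup.smul_sup, Subgroup.Normal.conj_smul_eq_self g N] at hg
    obtain ⟨k, -, hk⟩ := Cfsg.H1.sz_conj_internal (A := MulAut.conj g • A) (B := B) (K := N)
      (hnorm _) (hcopA _ (Cfsg.H1.card_conj_smul g A)) (Or.inr inferInstance)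
      (by rw [sup_comm, ← hg]; exact le_sup_left) (by rw [Cfsg.H1.card_conj_smul, hAB])
    exact ⟨k * g, by rw [map_mul, mul_smul, hk]⟩
  · set f := (Nat.card A).factorization q with hf
    have hfacts : ∀ X : Subgroup G, Nat.card X = Nat.card A →
        (Nat.card N ≤ q ^ f → N ≤ X) ∧
        (¬ Nat.card N ≤ q ^ f → Nat.card (X ⊓ N : Subgroup G) = q ^ f) := by
      intro X hX
      obtain ⟨Xq, hXq1, hXq2, hXq3⟩ := exists_syl q X
      rw [hX] at hXq3
      obtain ⟨d1, d2⟩ := dich hHq N hNq Xq hXq2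
      constructor
      · intro h
        exact (d2 (by rw [hXq3]; exact h)).trans hXq1
      · intro h
        have h1 : Xq ≤ X ⊓ N := le_inf hXq1 (d1 (by rw [hXq3]; exact (not_le.1 h).le))
        have h2 : Nat.card (X ⊓ N : Subgroup G) ∣ q ^ f := by
          obtain ⟨c, hc⟩ := IsPGroup.iff_card.1 (hNq.to_le (inf_le_right : X ⊓ N ≤ N))
          rw [hc]
          apply pow_dvd_pow
          have h3 : q ^ c ∣ Nat.card A := by
            rw [← hc, ← hX]; exact Subgroup.card_dvd_of_le inf_le_left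
          exact (hq.pow_dvd_iff_le_factorization Nat.card_pos.ne').1 h3
        have h4 := Subgroup.card_dvd_of_le h1
        rw [hXq3] at h4
        exact Nat.dvd_antisymm h2 h4
    by_cases hle : Nat.card N ≤ q ^ f
    · exact hQ A B ((hfacts A rfl).1 hle) ((hfacts B hAB.symm).1 hle) hAB (hor2 A rfl)
    have hDc : ∀ X : Subgroup G, Nat.card X = Nat.card A → Nat.card (X ⊓ N : Subgroup G) = q ^ f :=
      fun X hX => (hfacts X hX).2 hle
    have hsup : ∀ X : Subgroup G, Nat.card X = Nat.card A →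
        Nat.card (X ⊔ N : Subgroup G) * q ^ f = Nat.card A * Nat.card N := by
      intro X hX
      rw [← hDc X hX, card_sup_mul, hX]
    have hsupeq : Nat.card (A ⊔ N : Subgroup G) = Nat.card (B ⊔ N : Subgroup G) :=
      Nat.eq_of_mul_eq_mul_right (pow_pos hq.pos _) ((hsup A rfl).trans (hsup B hAB.symm).symm)
    obtain ⟨g0, hg0⟩ := hQ (A ⊔ N) (B ⊔ N) le_sup_right le_sup_right hsupeq
      (by rw [hmapsup]; exact hor2 A rfl)
    rw [Subgroup.smul_sup, Subgroup.Normal.conj_smul_eq_self g0 N] at hg0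
    obtain ⟨A', hA'def⟩ : ∃ A' : Subgroup G, A' = MulAut.conj g0 • A := ⟨_, rfl⟩
    rw [← hA'def] at hg0
    have hA' : Nat.card A' = Nat.card A := by rw [hA'def, Cfsg.H1.card_conj_smul]
    suffices hs : ∃ g : G, B = MulAut.conj g • A' by
      obtain ⟨g, hg⟩ := hs
      exact ⟨g * g0, by rw [map_mul, mul_smul, ← hA'def, hg]⟩
    have hninf : ∀ X : Subgroup G, X ≤ normalizer ((X ⊓ N : Subgroup G) : Set G) := fun X =>
      (Subgroup.normal_subgroupOf_iff_le_normalizer inf_le_left).1
        (by rw [Subgroup.inf_subgroupOf_left]; infer_instance)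
    have hord : ∀ c : ℕ, q ^ f * c = Nat.card A → Nat.Coprime q c := by
      intro c hc
      have h5 : c = Nat.card A / q ^ f :=
        (Nat.div_eq_of_eq_mul_right (pow_pos hq.pos _) hc.symm).symm
      rw [h5]
      exact Nat.coprime_ordCompl hq Nat.card_pos.ne'
    have hrel : ∀ X : Subgroup G, Nat.card X = Nat.card A →
        (Nat.card (X ⊓ N : Subgroup G)).Coprime ((X ⊓ N).relIndex X) := by
      intro X hX
      have e3 : Nat.card (X ⊓ N : Subgroup G) * (X ⊓ N).relIndex X = Nat.card X := by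
        have := Subgroup.relIndex_mul_relIndex ⊥ (X ⊓ N) X bot_le inf_le_left
        rwa [Subgroup.relIndex_bot_left, Subgroup.relIndex_bot_left] at this
      rw [hDc X hX, hX] at e3
      rw [hDc X hX]
      exact Nat.Coprime.pow_left _ (hord _ e3)
    obtain ⟨D, hDdef⟩ : ∃ D : Subgroup G, D = A' ⊓ N := ⟨_, rfl⟩
    obtain ⟨E, hEdef⟩ : ∃ E : Subgroup G, E = B ⊓ N := ⟨_, rfl⟩
    have hDN : D ≤ N := hDdef ▸ inf_le_right
    have hEN : E ≤ N := hEdef ▸ inf_le_right
    have hDcard : Nat.card D = q ^ f := by rw [hDdef]; exact hDc A' hA'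
    have hEcard : Nat.card E = q ^ f := by rw [hEdef]; exact hDc B hAB.symm
    obtain ⟨C, hCA, hDC, hcC⟩ := exists_compl A' D (hDdef ▸ inf_le_left) (hDdef ▸ hninf A')
      (hDdef ▸ hrel A' hA')
    obtain ⟨C', hCB, hEC, hcC'⟩ := exists_compl B E (hEdef ▸ inf_le_left) (hEdef ▸ hninf B)
      (hEdef ▸ hrel B hAB.symm)
    rw [hDcard, hA'] at hcC
    rw [hEcard, ← hAB] at hcC'
    have hCC' : Nat.card C' = Nat.card C :=
      Nat.eq_of_mul_eq_mul_left (pow_pos hq.pos f) (hcC'.trans hcC.symm)
    have hcopC : (Nat.card C).Coprime (Nat.card N) := by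
      obtain ⟨b, hb⟩ := IsPGroup.iff_card.1 hNq
      rw [hb]
      exact Nat.Coprime.pow_right _ (hord _ hcC).symm
    have hC'le : C' ≤ N ⊔ C := by
      have h1 : C' ≤ B ⊔ N := hCB.trans le_sup_left
      rw [hg0, ← hDC] at h1
      refine h1.trans (sup_le (sup_le (hDN.trans le_sup_left) le_sup_right) le_sup_left)
    obtain ⟨k, hkN, hk⟩ := Cfsg.H1.sz_conj_internal (A := C) (B := C') (K := N) (hnorm C) hcopC
      (Or.inr inferInstance) hC'le hCC'
    have hkD : MulAut.conj k • D = D := by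
      have h1 : MulAut.conj k • D ≤ D := by
        rintro _ ⟨d, hd, rfl⟩
        have hcomm : k * d = d * k :=
          congrArg Subtype.val (hNab.is_comm.comm ⟨k, hkN⟩ ⟨d, hDN hd⟩)
        show k * d * k⁻¹ ∈ D
        rw [hcomm, mul_inv_cancel_right]
        exact hd
      exact Subgroup.eq_of_le_of_card_ge h1 (by rw [Cfsg.H1.card_conj_smul])
    obtain ⟨g, hg⟩ := hHq D E (hNq.to_le hDN) (hNq.to_le hEN) (by rw [hDcard, hEcard])
    by_cases hD0 : D = ⊥
    · have hE0 : E = ⊥ := by
        rw [hg, hD0]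
        exact Subgroup.smul_bot _
      refine ⟨k, ?_⟩
      rw [← hDC, Subgroup.smul_sup, hkD, hk, hD0, ← hEC, hE0]
    have hTne : normalizer (E : Set G) ≠ ⊤ := by
      intro h
      have hEn : E.Normal := Subgroup.normalizer_eq_top_iff.1 h
      rcases hmin E hEn hEN with h0 | h0
      · apply hD0
        apply Subgroup.eq_bot_of_card_eq
        rw [hDcard, ← hEcard, h0]
        exact Subgroup.card_bot
      · apply hle
        rw [← hEcard, h0]
    by_cases hqr : q = r
    · have hC'T : C' ≤ normalizer (E : Set G) := hCB.trans (hEdef ▸ hninf B)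
      have hCD : C ≤ normalizer (D : Set G) := hCA.trans (hDdef ▸ hninf A')
      have hC'D : C' ≤ normalizer (D : Set G) := by
        have := smul_le_normalizer k C D hCD
        rwa [hk, hkD] at this
      have hC1T : MulAut.conj g • C' ≤ normalizer (E : Set G) := by
        have := smul_le_normalizer g C' D hC'D
        rwa [← hg] at this
      have hTlt : Nat.card (normalizer (E : Set G)) < n := by
        by_contra hcon
        exact hTne (Subgroup.eq_top_of_le_card _ (by rw [hn]; omega))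
      obtain ⟨t, htT, ht⟩ := conj_of_sub (normalizer (E : Set G)) (MulAut.conj g • C') C' hC1T hC'T
        (ih _ hTlt (normalizer (E : Set G)) rfl (hcy.sub _) _ _
          (by rw [Cfsg.H1.card_subgroupOf_of_le hC1T, Cfsg.H1.card_subgroupOf_of_le hC'T,
            Cfsg.H1.card_conj_smul])
          (Or.inl (by
            rw [Cfsg.H1.card_subgroupOf_of_le hC1T, Cfsg.H1.card_conj_smul, hCC', ← hqr]
            exact (Nat.Prime.coprime_iff_not_dvd hq).1 (hord _ hcC))))
      have htE := smul_eq_of_mem_normalizer t E htT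
      refine ⟨t * g * k, ?_⟩
      rw [map_mul, map_mul, mul_smul, mul_smul, ← hDC, Subgroup.smul_sup, hkD, hk,
        Subgroup.smul_sup, ← hg, Subgroup.smul_sup, htE, ← ht, hEC]
    · exfalso
      obtain ⟨Q, hQ'⟩ := hNq.exists_le_sylow
      haveI := hcy q hq hqr Q
      haveI : IsCyclic N := Subgroup.isCyclic_of_le hQ'
      apply hTne
      rw [eq_top_iff]
      intro x _
      apply Subgroup.mem_normalizer_iff_map_conj_eq.2
      show MulAut.conj x • E = E
      apply cu N _ _ _ hEN (Cfsg.H1.card_conj_smul x E)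
      have h1 : MulAut.conj x • E ≤ MulAut.conj x • N :=
        Subgroup.pointwise_smul_le_pointwise_smul_iff.2 hEN
      rwa [Subgroup.Normal.conj_smul_eq_self x N] at h1

end Cfsg.Agent.H4.EqOrdA
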