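import Mathlib
import Cfsg.Agent.Tr.MC11
import Cfsg.Agent.Lib.Helper2.GenQuat

/-! # Lifting generalized quaternion generators through a quotient (helper4) -/

set_option autoImplicit false

namespace Cfsg.Agent.H4.GQLift

open Cfsg.Agent.Lib.Helper2

universe u

theorem exists_gq {X : Type u} [Group X] [Finite X] (hX : IsPGroup 2 X)
    (hna : ¬ IsMulCommutative X) (hu : ∃! x : X, orderOf x = 2) :
    ∃ (n : ℕ) (α β : X), 1 ≤ n ∧ GQ (⊤ : Subgroup X) (2 ^ n) α β := by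
  obtain ⟨t, ht, htu⟩ := hu
  rcases Cfsg.Agent.Tr.MC.cyclic_or_quat hX
    (fun x y hx hy => (htu x hx).trans (htu y hy).symm) with h | ⟨n, ⟨e⟩⟩
  · exfalso; apply hna
    letI := h.commGroup
    exact ⟨⟨fun a b => mul_comm a b⟩⟩
  · have : NeZero (2 ^ n) := ⟨by positivity⟩
    obtain ⟨α, β, h⟩ := exists_GQ (⊤ : Subgroup X) (2 ^ n) (Subgroup.topEquiv.trans e)
    refine ⟨n, α, β, ?_, h⟩
    by_contra hn
    have hn0 : n = 0 := by omega
    subst hn0
    apply hna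
    have hc : Nat.card X = 2 ^ 2 := by
      rw [Nat.card_congr e.toEquiv, Nat.card_eq_fintype_card, QuaternionGroup.card]
      norm_num
    have : Fact (Nat.Prime 2) := ⟨Nat.prime_two⟩
    exact ⟨⟨fun a b => IsPGroup.commutative_of_card_eq_prime_sq hc a b⟩⟩

theorem form {S : Type u} [Group S] (N : Subgroup S) [N.Normal] {m : ℕ} {a b : S}
    (h : GQ (⊤ : Subgroup (S ⧸ N)) m (QuotientGroup.mk a) (QuotientGroup.mk b)) (y : S) :
    ∃ k : ℤ, ∃ c ∈ N, y = a ^ k * c ∨ y = a ^ k * b * c := by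
  rcases h.cover (QuotientGroup.mk y) trivial with ⟨k, hk⟩ | ⟨x, ⟨k, hk⟩, hy⟩
  · refine ⟨k, (a ^ k)⁻¹ * y, ?_, Or.inl (by group)⟩
    rw [← QuotientGroup.eq]
    simpa using hk
  · refine ⟨k, (a ^ k * b)⁻¹ * y, ?_, Or.inr (by group)⟩
    rw [← QuotientGroup.eq]
    rw [hy, ← hk]
    simp

end Cfsg.Agent.H4.GQLift
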