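import Mathlib

/-!
# Trace over cosets and splitting of fixed points (helper4)
-/

set_option autoImplicit false
set_option linter.style.haveILetI false

namespace Cfsg.Agent.H4

open Subgroup

/-- Let `L` act on the abelian `p`-group `M`, `T ≤ L` of index prime to `p`.  Then `C_M(L)` is a direct
factor of `C_M(T)` (via the kernel of the trace map). -/
theorem trace_split {L M : Type*} [Group L] [Finite L] [Group M] [Finite M]
    [MulDistribMulAction L M] (hcomm : ∀ a b : M, a * b = b * a)
    {p : ℕ} [Fact p.Prime] (hM : IsPGroup p M) (T : Subgroup L) (hT : ¬ p ∣ T.index) :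
    ∃ K : Subgroup M, (∀ x ∈ K, (∀ l : L, l • x = x) → x = 1) ∧
      ∀ z : M, (∀ t ∈ T, t • z = z) →
        ∃ w k : M, (∀ l : L, l • w = w) ∧ k ∈ K ∧ (∀ t ∈ T, t • k = k) ∧ z = w * k := by
  classical
  letI : CommGroup M := { ‹Group M› with mul_comm := hcomm }
  haveI : Fintype (L ⧸ T) := Fintype.ofFinite _
  have hp : p.Prime := Fact.out
  -- the trace
  let τ : M →* M := ∏ q : L ⧸ T, MulDistribMulAction.toMonoidHom M (q.out : L)
  have hτ : ∀ z : M, τ z = ∏ q : L ⧸ T, (q.out : L) • z := by
    intro z
    simp only [τ, MonoidHom.finsetProd_apply, MulDistribMulAction.toMonoidHom_apply]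
  have hcop : (Nat.card M).Coprime T.index := by
    obtain ⟨n, hn⟩ := IsPGroup.iff_card.mp hM
    rw [hn]
    exact Nat.Coprime.pow_left n ((Nat.Prime.coprime_iff_not_dvd hp).mpr hT)
  have hinj : ∀ a b : M, a ^ T.index = b ^ T.index → a = b := by
    intro a b hab
    exact (powCoprime hcop).injective (by simpa [powCoprime] using hab)
  have h1 : ∀ w : M, (∀ l : L, l • w = w) → τ w = w ^ T.index := by
    intro w hw
    rw [hτ]
    simp only [hw, Finset.prod_const, Finset.card_univ]
    rw [Subgroup.index_eq_card, Nat.card_eq_fintype_card]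
  have h2 : ∀ z : M, (∀ t ∈ T, t • z = z) → ∀ l : L, l • τ z = τ z := by
    intro z hz l
    rw [hτ, Finset.smul_prod']
    have key : ∀ q : L ⧸ T, l • ((q.out : L) • z) = ((l • q).out : L) • z := by
      intro q
      have hmem : ((l • q).out : L)⁻¹ * (l * q.out) ∈ T := by
        rw [← QuotientGroup.eq]
        rw [QuotientGroup.out_eq']
        conv_lhs => rw [← QuotientGroup.out_eq' q]
        rfl
      have := hz _ hmem
      rw [← mul_smul]
      calc (l * q.out) • z = (((l • q).out : L) * (((l • q).out : L)⁻¹ * (l * q.out))) • z := by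
            rw [mul_inv_cancel_left]
        _ = ((l • q).out : L) • z := by rw [mul_smul, this]
    simp only [key]
    exact Equiv.prod_comp (MulAction.toPerm l : Equiv.Perm (L ⧸ T)) (fun q => (q.out : L) • z)
  refine ⟨τ.ker, ?_, ?_⟩
  · intro x hx hfix
    have := h1 x hfix
    rw [MonoidHom.mem_ker.mp hx] at this
    exact hinj x 1 (by rw [← this, one_pow])
  · intro z hz
    set w₀ := τ z with hw₀
    set w : M := (powCoprime hcop).symm w₀ with hw
    have hwpow : w ^ T.index = w₀ := by
      have := (powCoprime hcop).apply_symm_apply w₀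
      rw [powCoprime_apply] at this
      exact this
    have hwfix : ∀ l : L, l • w = w := by
      intro l
      apply hinj
      rw [← smul_pow', hwpow, hw₀, h2 z hz l]
    refine ⟨w, w⁻¹ * z, hwfix, ?_, ?_, by rw [mul_inv_cancel_left]⟩
    · rw [MonoidHom.mem_ker, map_mul, map_inv, h1 w hwfix, hwpow, hw₀, inv_mul_cancel]
    · intro t ht
      rw [smul_mul', smul_inv', hwfix t, hz t ht]

end Cfsg.Agent.H4
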