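import Mathlib
import Cfsg.Agent.H4.TraceSplit

/-!
# Weakly closed elements form a direct factor of the centre of a Sylow subgroup (helper4)
-/

set_option autoImplicit false

namespace Cfsg.Agent.H4

open Subgroup

variable {G : Type*} [Group G]

/-- the conclusion of S1945 for a subgroup `T`. -/
def IsoSplitConcl (T : Subgroup G) : Prop :=
  ∃ W K : Subgroup G, (∀ x : G, x ∈ W ↔ (x ∈ T ∧ ∀ g : G, g * x * g⁻¹ ∈ T → g * x * g⁻¹ = x)) ∧
      K ≤ (T ⊓ Subgroup.centralizer (T : Set G)) ∧ W ⊓ K = ⊥ ∧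
      W ⊔ K = (T ⊓ Subgroup.centralizer (T : Set G))

theorem normalizer_le_normalizer_center (H : Subgroup G) :
    normalizer (H : Set G) ≤ normalizer ((H ⊓ centralizer (H : Set G) : Subgroup G) : Set G) := by
  have key : ∀ n ∈ normalizer (H : Set G), ∀ a ∈ H ⊓ centralizer (H : Set G),
      n * a * n⁻¹ ∈ H ⊓ centralizer (H : Set G) := by
    intro n hn a ha
    refine mem_inf.mpr ⟨(mem_normalizer_iff.mp hn a).mp ha.1, ?_⟩
    rw [mem_centralizer_iff]
    intro h hh
    have h1 : n⁻¹ * h * n ∈ H := by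
      have := (mem_normalizer_iff.mp (inv_mem hn) h).mp hh
      simpa using this
    have h2 := (mem_centralizer_iff.mp ha.2) _ h1
    calc h * (n * a * n⁻¹) = n * ((n⁻¹ * h * n) * a) * n⁻¹ := by group
      _ = n * (a * (n⁻¹ * h * n)) * n⁻¹ := by rw [h2]
      _ = n * a * n⁻¹ * h := by group
  intro n hn
  rw [mem_normalizer_iff]
  intro a
  refine ⟨key n hn a, fun h => ?_⟩
  have := key n⁻¹ (inv_mem hn) _ h
  have e : n⁻¹ * (n * a * n⁻¹) * n⁻¹⁻¹ = a := by group
  rwa [e] at this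

theorem isolated_split [Finite G] {p : ℕ} [Fact p.Prime] (T A : Subgroup G)
    (hTp : IsPGroup p T) (hTi : ¬ p ∣ T.index) (hAT : A ≤ T)
    (hAc : ∀ a ∈ A, ∀ b ∈ A, a * b = b * a)
    (hZ : T ⊓ centralizer (T : Set G) ≤ A) (hTN : T ≤ normalizer (A : Set G))
    (hiso : ∀ x ∈ T ⊓ centralizer ((normalizer (A : Set G) : Subgroup G) : Set G),
      ∀ g : G, g * x * g⁻¹ ∈ T → g * x * g⁻¹ = x) : IsoSplitConcl T := by
  classical
  set N := normalizer (A : Set G) with hN
  have hidx : ¬ p ∣ (T.subgroupOf N).index := by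
    intro h
    exact hTi (h.trans (Dvd.intro _ (relIndex_mul_index hTN)))
  obtain ⟨K₀, hK1, hK2⟩ := trace_split (L := N) (M := A)
    (fun a b => Subtype.ext (hAc a a.2 b b.2)) (hTp.to_le hAT) (T.subgroupOf N) hidx
  have hsm : ∀ (l : N) (a : A), ((l • a : A) : G) = (l : G) * a * (l : G)⁻¹ := fun l a => rfl
  have hWchar : ∀ x : G, x ∈ T ⊓ centralizer (N : Set G) ↔
      (x ∈ T ∧ ∀ g : G, g * x * g⁻¹ ∈ T → g * x * g⁻¹ = x) := by
    intro x
    constructor
    · intro hx
      exact ⟨hx.1, hiso x hx⟩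
    · rintro ⟨hxT, hx⟩
      have hxZ : x ∈ T ⊓ centralizer (T : Set G) := by
        refine mem_inf.mpr ⟨hxT, ?_⟩
        rw [mem_centralizer_iff]
        intro t ht
        have := hx t (T.mul_mem (T.mul_mem ht hxT) (T.inv_mem ht))
        exact mul_inv_eq_iff_eq_mul.mp this
      have hxA := hZ hxZ
      refine mem_inf.mpr ⟨hxT, ?_⟩
      rw [mem_centralizer_iff]
      intro n hn
      have h1 : n * x * n⁻¹ ∈ A := (mem_normalizer_iff.mp hn x).mp hxA
      exact mul_inv_eq_iff_eq_mul.mp (hx n (hAT h1))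
  have hWZ : T ⊓ centralizer (N : Set G) ≤ T ⊓ centralizer (T : Set G) :=
    inf_le_inf_left _ (centralizer_le hTN)
  have hKZ : (K₀.map A.subtype) ⊓ centralizer (T : Set G) ≤ T ⊓ centralizer (T : Set G) := by
    refine inf_le_inf_right _ ?_
    rintro _ ⟨k, -, rfl⟩
    exact hAT k.2
  refine ⟨T ⊓ centralizer (N : Set G), (K₀.map A.subtype) ⊓ centralizer (T : Set G), hWchar,
    hKZ, ?_, ?_⟩
  · rw [eq_bot_iff]
    rintro x ⟨hxW, ⟨k, hk, rfl⟩, -⟩
    have : k = 1 := by
      apply hK1 k hk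
      intro l
      apply Subtype.ext
      rw [hsm]
      have := (mem_centralizer_iff.mp hxW.2) l l.2
      exact mul_inv_eq_iff_eq_mul.mpr this
    rw [this]
    exact Subgroup.one_mem _
  · apply le_antisymm (sup_le hWZ hKZ)
    intro z hz
    have hzA := hZ hz
    obtain ⟨w, k, hw, hk, hkT, hzwk⟩ := hK2 ⟨z, hzA⟩ (by
      intro t ht
      apply Subtype.ext
      rw [hsm]
      have := (mem_centralizer_iff.mp hz.2) t (mem_subgroupOf.mp ht)
      exact mul_inv_eq_iff_eq_mul.mpr this)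
    have hz' : z = (w : G) * (k : G) := congrArg Subtype.val hzwk
    rw [hz']
    apply mul_mem_sup
    · refine mem_inf.mpr ⟨hAT w.2, ?_⟩
      rw [mem_centralizer_iff]
      intro n hn
      have := congrArg Subtype.val (hw ⟨n, hn⟩)
      rw [hsm] at this
      exact mul_inv_eq_iff_eq_mul.mp this
    · refine mem_inf.mpr ⟨⟨k, hk, rfl⟩, ?_⟩
      rw [mem_centralizer_iff]
      intro t ht
      have := congrArg Subtype.val (hkT ⟨t, hTN ht⟩ (mem_subgroupOf.mpr ht))
      rw [hsm] at this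
      exact mul_inv_eq_iff_eq_mul.mp this

theorem isolated_split' [Finite G] {p : ℕ} [Fact p.Prime] (T H : Subgroup G)
    (hTp : IsPGroup p T) (hTi : ¬ p ∣ T.index) (hHT : H ≤ T)
    (hZ : T ⊓ centralizer (T : Set G) ≤ H) (hTN : T ≤ normalizer (H : Set G))
    (hiso : ∀ x ∈ T ⊓ centralizer ((normalizer (H : Set G) : Subgroup G) : Set G),
      ∀ g : G, g * x * g⁻¹ ∈ T → g * x * g⁻¹ = x) : IsoSplitConcl T := by
  refine isolated_split (p := p) T (H ⊓ centralizer (H : Set G)) hTp hTi (inf_le_left.trans hHT)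
    ?_ ?_ (hTN.trans (normalizer_le_normalizer_center H)) ?_
  · intro a ha b hb
    exact (mem_centralizer_iff.mp hb.2) a ha.1
  · intro x hx
    exact ⟨hZ hx, centralizer_le hHT hx.2⟩
  · intro x hx
    exact hiso x ⟨hx.1, centralizer_le (normalizer_le_normalizer_center H) hx.2⟩

/-- transport along conjugation -/
theorem IsoSplitConcl.conj {T : Subgroup G} (h : IsoSplitConcl T) (g : G) :
    IsoSplitConcl (T.map (MulAut.conj g).toMonoidHom) := by
  obtain ⟨W, K, hW, hK, hWK, hsup⟩ := h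
  have hmem : ∀ (X : Subgroup G) (x : G), x ∈ X.map (MulAut.conj g).toMonoidHom ↔ g⁻¹ * x * g ∈ X := by
    intro X x
    rw [Subgroup.mem_map_equiv, MulAut.conj_symm_apply]
  have hZ : (T ⊓ centralizer (T : Set G)).map (MulAut.conj g).toMonoidHom =
      T.map (MulAut.conj g).toMonoidHom ⊓
        centralizer ((T.map (MulAut.conj g).toMonoidHom : Subgroup G) : Set G) := by
    ext x
    rw [hmem, mem_inf, mem_inf, hmem, mem_centralizer_iff, mem_centralizer_iff]
    refine and_congr_right fun _ => ?_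
    constructor
    · intro h y hy
      have hy' : g⁻¹ * y * g ∈ T := (hmem T y).mp hy
      have := h _ hy'
      calc y * x = g * ((g⁻¹ * y * g) * (g⁻¹ * x * g)) * g⁻¹ := by group
        _ = g * ((g⁻¹ * x * g) * (g⁻¹ * y * g)) * g⁻¹ := by rw [this]
        _ = x * y := by group
    · intro h y hy
      have hy' : g * y * g⁻¹ ∈ T.map (MulAut.conj g).toMonoidHom := by
        rw [hmem]
        have e : g⁻¹ * (g * y * g⁻¹) * g = y := by group
        rwa [e]
      have := h _ hy'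
      calc y * (g⁻¹ * x * g) = g⁻¹ * ((g * y * g⁻¹) * x) * g := by group
        _ = g⁻¹ * (x * (g * y * g⁻¹)) * g := by rw [this]
        _ = g⁻¹ * x * g * y := by group
  refine ⟨W.map (MulAut.conj g).toMonoidHom, K.map (MulAut.conj g).toMonoidHom, ?_, ?_, ?_, ?_⟩
  · intro x
    rw [hmem, hW, hmem]
    refine and_congr_right fun _ => ?_
    constructor
    · intro h y hy
      rw [hmem] at hy
      have e : (g⁻¹ * y * g) * (g⁻¹ * x * g) * (g⁻¹ * y * g)⁻¹ = g⁻¹ * (y * x * y⁻¹) * g := by group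
      have := h (g⁻¹ * y * g) (by rw [e]; exact hy)
      rw [e] at this
      calc y * x * y⁻¹ = g * (g⁻¹ * (y * x * y⁻¹) * g) * g⁻¹ := by group
        _ = g * (g⁻¹ * x * g) * g⁻¹ := by rw [this]
        _ = x := by group
    · intro h y hy
      have e : g⁻¹ * ((g * y * g⁻¹) * x * (g * y * g⁻¹)⁻¹) * g = y * (g⁻¹ * x * g) * y⁻¹ := by group
      have := h (g * y * g⁻¹) (by rw [hmem, e]; exact hy)
      rw [← e, this]
  · rw [← hZ]
    exact Subgroup.map_mono hK
  · rw [← Subgroup.map_inf _ _ _ (MulAut.conj g).injective, hWK, Subgroup.map_bot]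
  · rw [← Subgroup.map_sup, hsup, hZ]

end Cfsg.Agent.H4
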