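import Mathlib
import Cfsg.Prelude.Def_SolvableStructure
import Cfsg.Agent.H4.Schmidt2

/-! Schmidt's theorem, part 3: structure of minimal non-nilpotent groups. -/

namespace Cfsg.Agent.H4

open Subgroup
open scoped Pointwise

universe u

theorem sylow_normal_of_isNilpotent {G : Type*} [Group G] [Finite G] (h : Group.IsNilpotent G)
    (p : ℕ) [hp : Fact p.Prime] (P : Sylow p G) : (P : Subgroup G).Normal := by
  have hall : ∀ (p : ℕ) (_ : Fact p.Prime) (P : Sylow p G), (P : Subgroup G).Normal :=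
    ((Group.isNilpotent_of_finite_tfae (G := G)).out 0 3).1 h
  exact hall p hp P

theorem isNilpotent_of_sylow_normal {G : Type*} [Group G] [Finite G]
    (h : ∀ (p : ℕ) (_ : Fact p.Prime) (P : Sylow p G), (P : Subgroup G).Normal) :
    Group.IsNilpotent G :=
  ((Group.isNilpotent_of_finite_tfae (G := G)).out 0 3).2 h

/-- A subgroup containing a Sylow `r`-subgroup for every prime `r` is everything. -/
theorem eq_top_of_sylow_le {G : Type*} [Group G] [Finite G] (L : Subgroup G)
    (h : ∀ (r : ℕ) [Fact r.Prime], ∃ R : Sylow r G, (R : Subgroup G) ≤ L) : L = ⊤ := by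
  rw [← index_eq_one]
  by_contra hne
  obtain ⟨r, hr, hdvd⟩ := Nat.exists_prime_and_dvd hne
  have := Fact.mk hr
  obtain ⟨R, hR⟩ := h r
  exact R.not_dvd_index (hdvd.trans (index_dvd_of_le hR))

theorem schmidt_structure {G : Type u} [Group G] [Finite G]
    (hG : Cfsg.IsMinimalNonNilpotent G) :
    ∃ p q : ℕ, p.Prime ∧ q.Prime ∧ p ≠ q ∧ ∃ (P : Sylow p G) (Q : Sylow q G),
      IsCyclic P ∧ (Q : Subgroup G).Normal ∧ (P : Subgroup G) ⊔ Q = ⊤ ∧
      ¬ (P : Subgroup G).Normal := by
  have hsolv : Group.IsSolvable G := solvable_of_proper_nilpotent hG.2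
  have hnt : Nontrivial G := by
    by_contra h
    rw [not_nontrivial_iff_subsingleton] at h
    exact hG.1 Group.isNilpotent_of_subsingleton
  obtain ⟨M, hMn, hMp⟩ := exists_normal_prime_index (G := G)
  obtain ⟨p, hpe⟩ : ∃ p, p = M.index := ⟨_, rfl⟩
  rw [← hpe] at hMp
  have := Fact.mk hMp
  have hMt : M ≠ ⊤ := by
    intro e
    rw [e, index_top] at hpe
    exact hMp.one_lt.ne' hpe
  have hMnil := hG.2 M hMt
  have hnorm : ∀ (q : ℕ) [Fact q.Prime], q ≠ p → ∀ Q : Sylow q G, (Q : Subgroup G).Normal := by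
    intro q hq hqp Q
    have hQM : (Q : Subgroup G) ≤ M := by
      apply le_normal_of_coprime_index Q.2
      rw [← hpe]
      exact (Nat.coprime_primes hMp hq.out).2 (Ne.symm hqp)
    have h1 := sylow_normal_of_isNilpotent hMnil q (Q.subtype hQM)
    have h2 := Sylow.characteristic_of_normal _ h1
    have h3 : (((Q.subtype hQM : Sylow q M) : Subgroup M).map M.subtype).Normal :=
      ConjAct.normal_of_characteristic_of_normal
    rwa [Sylow.coe_subtype, subgroupOf_map_subtype, inf_eq_left.2 hQM] at h3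
  have hexP : ∃ P : Sylow p G, ¬ (P : Subgroup G).Normal := by
    by_contra hcon
    push Not at hcon
    apply hG.1
    apply isNilpotent_of_sylow_normal
    intro r hr R
    by_cases hrp : r = p
    · subst hrp
      exact hcon R
    · exact hnorm r hrp R
  obtain ⟨P, hP⟩ := hexP
  have hexQ : ∃ (q : ℕ) (hq : Fact q.Prime), q ≠ p ∧ ∃ Q : Sylow q G,
      ¬ (Q : Subgroup G) ≤ normalizer ((P : Subgroup G) : Set G) := by
    by_contra hcon
    push Not at hcon
    apply hP
    rw [← normalizer_eq_top_iff]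
    apply eq_top_of_sylow_le
    intro r hr
    by_cases hrp : r = p
    · subst hrp
      exact ⟨P, le_normalizer⟩
    · obtain ⟨R⟩ : Nonempty (Sylow r G) := inferInstance
      exact ⟨R, hcon r hr hrp R⟩
  obtain ⟨q, hq, hqp, Q, hQ⟩ := hexQ
  have hQn := hnorm q hqp Q
  have htop : (P : Subgroup G) ⊔ Q = ⊤ := by
    by_contra hne
    apply hQ
    exact (le_centralizer_of_nilpotent (hG.2 _ hne) le_sup_left le_sup_right (Ne.symm hqp)
      P.2 Q.2).trans (centralizer_le_normalizer _)
  have hexx : ∃ x ∈ (P : Subgroup G), zpowers x ⊔ (Q : Subgroup G) = ⊤ := by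
    by_contra hcon
    push Not at hcon
    apply hQ
    refine le_trans ?_ (centralizer_le_normalizer _)
    intro y hy
    rw [mem_centralizer_iff]
    intro x hx
    have h1 := le_centralizer_of_nilpotent (hG.2 _ (hcon x hx)) le_sup_left le_sup_right
      (Ne.symm hqp) (P.2.to_le (zpowers_le.2 hx)) Q.2
    exact (mem_centralizer_iff.1 (h1 hy)) x (mem_zpowers x)
  obtain ⟨x, hx, hxtop⟩ := hexx
  have hcycq : IsCyclic (G ⧸ (Q : Subgroup G)) := by
    apply isCyclic_of_surjective ((QuotientGroup.mk' (Q : Subgroup G)).comp (zpowers x).subtype)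
    intro c
    obtain ⟨g, rfl⟩ := QuotientGroup.mk'_surjective _ c
    have hg : g ∈ zpowers x ⊔ (Q : Subgroup G) := hxtop ▸ mem_top g
    obtain ⟨z, hz, y, hy, rfl⟩ := mem_sup_of_normal_right.1 hg
    refine ⟨⟨z, hz⟩, ?_⟩
    change QuotientGroup.mk' (Q : Subgroup G) z = QuotientGroup.mk' (Q : Subgroup G) (z * y)
    have hy1 : QuotientGroup.mk' (Q : Subgroup G) y = 1 := (QuotientGroup.eq_one_iff y).2 hy
    rw [map_mul, hy1, mul_one]
  have hcyc : IsCyclic P := by
    apply isCyclic_of_injective ((QuotientGroup.mk' (Q : Subgroup G)).comp (P : Subgroup G).subtype)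
    rw [← MonoidHom.ker_eq_bot_iff, eq_bot_iff]
    intro y hy
    have h1 : (y : G) ∈ (Q : Subgroup G) := (QuotientGroup.eq_one_iff (y : G)).1 hy
    have hd : Disjoint (P : Subgroup G) Q :=
      IsPGroup.disjoint_of_ne p q (Ne.symm hqp) _ _ P.2 Q.2
    have h2 : (y : G) ∈ (P : Subgroup G) ⊓ Q := ⟨y.2, h1⟩
    rw [disjoint_iff.1 hd, mem_bot] at h2
    rw [mem_bot]
    exact Subtype.ext h2
  exact ⟨p, q, hMp, hq.out, Ne.symm hqp, P, Q, hcyc, hQn, htop, hP⟩

end Cfsg.Agent.H4
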