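import Mathlib
import Cfsg.Prelude.Def_SolvableStructure
import Cfsg.Agent.Tr.MinNonPNil
import Cfsg.Agent.H4.Schmidt3
import Cfsg.Agent.H9.FStar2
import Cfsg.Agent.Lib.Helper22.FittingSub

set_option autoImplicit false

/-! Groups whose maximal subgroups of order divisible by `p` are nilpotent. -/

namespace Cfsg.Agent.H4

open Subgroup

variable {G : Type*} [Group G]

/-- in a nilpotent subgroup, a `p'`-element normalizing a `p`-subgroup centralizes it -/
theorem mem_centralizer_of_nilpotent [Finite G] {p : ℕ} [Fact p.Prime] {L U : Subgroup G}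
    (hL : Group.IsNilpotent L) (hU : IsPGroup p U) (hUL : U ≤ L) {g : G} (hgL : g ∈ L)
    (hgN : g ∈ normalizer (U : Set G)) (hco : (orderOf g).Coprime p) :
    g ∈ centralizer (U : Set G) := by
  have hF := Cfsg.Agent.Tr.frob_of_isNilpotent (p := p) hL
  have h1 := hF (U.subgroupOf L) (hU.comap_subtype) ⟨g, hgL⟩ (by
    rw [mem_normalizer_iff]
    intro x
    rw [mem_subgroupOf, mem_subgroupOf]
    exact mem_normalizer_iff.1 hgN x) (by rwa [Subgroup.orderOf_mk])
  rw [mem_centralizer_iff] at h1 ⊢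
  intro u hu
  exact congrArg Subtype.val (h1 ⟨u, hUL hu⟩ (by rw [SetLike.mem_coe, mem_subgroupOf]; exact hu))

theorem eq_one_of_pow_of_coprime {H : Type*} [Group H] {p : ℕ} {x : H} {k : ℕ} (hk : x ^ p ^ k = 1)
    (hco : (orderOf x).Coprime p) : x = 1 := by
  have d2 : orderOf x ∣ p ^ k := orderOf_dvd_of_pow_eq_one hk
  exact orderOf_eq_one_iff.1 (Nat.eq_one_of_dvd_coprimes (Nat.Coprime.pow_right k hco) dvd_rfl d2)

theorem coprime_orderOf_of_mem [Finite G] {p : ℕ} {M : Subgroup G} (hM : (Nat.card M).Coprime p)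
    {m : G} (hm : m ∈ M) : (orderOf m).Coprime p := by
  have := orderOf_dvd_natCard (⟨m, hm⟩ : M)
  rw [Subgroup.orderOf_mk] at this
  exact Nat.Coprime.coprime_dvd_left this hM

theorem inf_eq_bot_of_pGroup_coprime [Finite G] {p : ℕ} {M U : Subgroup G}
    (hM : (Nat.card M).Coprime p) (hU : IsPGroup p U) : ∀ x ∈ M, x ∈ U → x = 1 := by
  intro x hxM hxU
  obtain ⟨k, hk⟩ := hU ⟨x, hxU⟩
  have hk' : x ^ p ^ k = 1 := by simpa using congrArg Subtype.val hk
  exact eq_one_of_pow_of_coprime hk' (coprime_orderOf_of_mem hM hxM)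

theorem mem_of_coprime_of_isComplement' [Finite G] {p : ℕ} [Fact p.Prime] {K : Subgroup G}
    [K.Normal] {P : Sylow p G} (hc : K.IsComplement' (P : Subgroup G)) {g : G}
    (hco : (orderOf g).Coprime p) : g ∈ K := by
  rw [← QuotientGroup.eq_one_iff]
  obtain ⟨n, hn⟩ := (IsPGroup.iff_card).1 P.2
  have hq : Nat.card (G ⧸ K) = p ^ n := by
    have h1 := K.card_mul_index
    rw [← hc.card_mul_card] at h1
    have h2 : K.index = Nat.card (P : Subgroup G) := Nat.eq_of_mul_eq_mul_left Nat.card_pos h1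
    rw [← hn, ← h2]; rfl
  have h1 : (g : G ⧸ K) ^ p ^ n = 1 := by rw [← hq]; exact pow_card_eq_one'
  have h2 : orderOf (g : G ⧸ K) ∣ orderOf g := orderOf_map_dvd (QuotientGroup.mk' K) g
  exact eq_one_of_pow_of_coprime h1 (Nat.Coprime.coprime_dvd_left h2 hco)

theorem exists_normal_pGroup_of_maxNilp [Finite G] {p : ℕ} [hp : Fact p.Prime]
    (hpG : p ∣ Nat.card G)
    (hH : ∀ L : Subgroup G, L ≠ ⊤ → p ∣ Nat.card L → Group.IsNilpotent L)
    (M : Subgroup G) (hM : IsCoatom M) (hMp : (Nat.card M).Coprime p)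
    (hMn : ¬ Group.IsNilpotent M) :
    ∃ U : Subgroup G, U.Normal ∧ IsPGroup p U ∧ U ≠ ⊥ := by
  by_contra hb
  push Not at hb
  have hF : Cfsg.Agent.Tr.Frob p G := by
    intro Q hQ g hg hco
    by_cases hQb : Q = ⊥
    · rw [hQb, mem_centralizer_iff]
      intro a ha
      have : a = 1 := by simpa using ha
      rw [this]; simp
    have hNt : normalizer (Q : Set G) ≠ ⊤ := fun h => hQb (hb Q (normalizer_eq_top_iff.1 h) hQ)
    have hpN : p ∣ Nat.card (normalizer (Q : Set G)) := by
      obtain ⟨n, hn⟩ := (IsPGroup.iff_card).1 hQ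
      have hn0 : n ≠ 0 := by
        rintro rfl
        exact hQb (card_eq_one.1 (by rw [hn, pow_zero]))
      have h1 : p ∣ Nat.card Q := by rw [hn]; exact dvd_pow_self p hn0
      exact h1.trans (card_dvd_of_le le_normalizer)
    exact mem_centralizer_of_nilpotent (hH _ hNt hpN) hQ le_normalizer hg hg hco
  obtain ⟨P0, K0, hK0n, hc⟩ := hF.hasNormalPComplement
  have hP0b : (P0 : Subgroup G) ≠ ⊥ := P0.ne_bot_of_dvd_card hpG
  have hK0t : K0 ≠ ⊤ := by
    rintro rfl
    have hcc := hc.card_mul_card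
    rw [card_top] at hcc
    have h2 : Nat.card (P0 : Subgroup G) = 1 :=
      Nat.eq_of_mul_eq_mul_left (Nat.card_pos (α := G)) (by rw [hcc, mul_one])
    exact hP0b (card_eq_one.1 h2)
  have hMK : M ≤ K0 := fun m hm => mem_of_coprime_of_isComplement' hc (coprime_orderOf_of_mem hMp hm)
  have hKM : K0 = M := by
    by_contra hne
    exact hK0t (hM.2 K0 (lt_of_le_of_ne hMK (Ne.symm hne)))
  subst hKM
  have hpM : ∀ g : G, (orderOf g).Coprime p → g ∈ K0 := fun g hg =>
    mem_of_coprime_of_isComplement' hc hg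
  have hdisj := inf_eq_bot_of_pGroup_coprime hMp P0.2
  -- `P0` has order `p`
  have hpP0 : p ∣ Nat.card (P0 : Subgroup G) := by
    obtain ⟨n, hn⟩ := (IsPGroup.iff_card).1 P0.2
    have hn0 : n ≠ 0 := by
      rintro rfl
      exact hP0b (card_eq_one.1 (by rw [hn, pow_zero]))
    rw [hn]; exact dvd_pow_self p hn0
  obtain ⟨z, hz⟩ := exists_prime_orderOf_dvd_card' p hpP0
  have hz' : orderOf (z : G) = p := by rw [Subgroup.orderOf_coe]; exact hz
  have hz1 : (z : G) ≠ 1 := by
    intro h
    rw [h, orderOf_one] at hz'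
    exact hp.out.one_lt.ne hz'
  have hzM : (z : G) ∉ K0 := fun h => hz1 (hdisj _ h z.2)
  have hsup : K0 ⊔ zpowers (z : G) = ⊤ := by
    apply hM.2
    refine lt_of_le_of_ne le_sup_left ?_
    intro h
    apply hzM
    rw [h]
    exact le_sup_right (a := K0) (mem_zpowers _)
  have hP0eq : (P0 : Subgroup G) = zpowers (z : G) := by
    apply le_antisymm
    · intro u hu
      have hu' : u ∈ K0 ⊔ zpowers (z : G) := by rw [hsup]; trivial
      obtain ⟨m, hm, b, hb', hmb⟩ := (Cfsg.H9.mem_sup_of_le_normalizer (by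
        rw [normalizer_eq_top]; exact le_top)).1 hu'
      have hbP : b ∈ (P0 : Subgroup G) := (zpowers_le.2 z.2) hb'
      have hm1 : m = 1 := by
        apply hdisj m hm
        have : m = u * b⁻¹ := by rw [← hmb]; group
        rw [this]
        exact (P0 : Subgroup G).mul_mem hu ((P0 : Subgroup G).inv_mem hbP)
      rw [hm1, one_mul] at hmb
      rw [← hmb]; exact hb'
    · exact zpowers_le.2 z.2
  have hcardP0 : Nat.card (P0 : Subgroup G) = p := by rw [hP0eq, Nat.card_zpowers, hz']
  have hall : ∀ r : ℕ, r.Prime → ¬ r ∣ Nat.card (Sylow p G) := by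
    intro r hr
    by_cases hrp : r = p
    · rw [hrp]; exact not_dvd_card_sylow p G
    have hrf : Fact r.Prime := ⟨hr⟩
    obtain ⟨Q⟩ : Nonempty (Sylow r G) := inferInstance
    have hQM : (Q : Subgroup G) ≤ K0 := by
      intro q hq
      apply hpM
      obtain ⟨k, hk⟩ := (IsPGroup.iff_orderOf.1 Q.2) ⟨q, hq⟩
      rw [Subgroup.orderOf_mk] at hk
      rw [hk]
      exact Nat.Coprime.pow_left k ((Nat.coprime_primes hr hp.out).2 hrp)
    have hfr : normalizer ((Q : Subgroup G) : Set G) ⊔ K0 = ⊤ := Sylow.normalizer_sup_eq_top' Q hQM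
    have hpN : p ∣ Nat.card (normalizer ((Q : Subgroup G) : Set G)) := by
      by_contra hnd
      have hco : (Nat.card (normalizer ((Q : Subgroup G) : Set G))).Coprime p :=
        ((Nat.Prime.coprime_iff_not_dvd hp.out).2 hnd).symm
      have hle : normalizer ((Q : Subgroup G) : Set G) ≤ K0 := fun g hg =>
        hpM g (coprime_orderOf_of_mem hco hg)
      rw [sup_eq_right.2 hle] at hfr
      exact hM.1 hfr
    obtain ⟨y, hy⟩ := exists_prime_orderOf_dvd_card' p hpN
    have hy' : orderOf (y : G) = p := by rw [Subgroup.orderOf_coe]; exact hy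
    have hnorm : zpowers (y : G) ≤ normalizer ((Q : Subgroup G) : Set G) := zpowers_le.2 y.2
    set L : Subgroup G := (Q : Subgroup G) ⊔ zpowers (y : G) with hL
    have hyL : (y : G) ∈ L := le_sup_right (a := (Q : Subgroup G)) (mem_zpowers _)
    have hLt : L ≠ ⊤ := by
      intro hLtop
      apply hMn
      have hle : K0 ≤ (Q : Subgroup G) := by
        intro m hm
        have hm' : m ∈ L := by rw [hLtop]; trivial
        obtain ⟨q, hq, b, hb', hqb⟩ := (Cfsg.H9.mem_sup_of_le_normalizer hnorm).1 hm'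
        have hbM : b ∈ K0 := by
          have : b = q⁻¹ * m := by rw [← hqb]; group
          rw [this]
          exact K0.mul_mem (K0.inv_mem (hQM hq)) hm
        have hbp : b ^ p ^ 1 = 1 := by
          obtain ⟨k, rfl⟩ := mem_zpowers_iff.1 hb'
          rw [pow_one, ← zpow_natCast, ← zpow_mul, mul_comm, zpow_mul, zpow_natCast, ← hy',
            pow_orderOf_eq_one, one_zpow]
        have hb1 := eq_one_of_pow_of_coprime hbp (coprime_orderOf_of_mem hMp hbM)
        rw [hb1, mul_one] at hqb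
        rw [← hqb]; exact hq
      exact isNilpotent_of_le hle Q.2.isNilpotent
    have hpL : p ∣ Nat.card L := by
      have := orderOf_dvd_natCard (⟨(y : G), hyL⟩ : L)
      rwa [Subgroup.orderOf_mk, hy'] at this
    have hLn := hH L hLt hpL
    have hyc : (y : G) ∈ centralizer ((Q : Subgroup G) : Set G) :=
      mem_centralizer_of_nilpotent (p := r) hLn Q.2 le_sup_left hyL y.2
        (by rw [hy']; exact (Nat.coprime_primes hp.out hr).2 (Ne.symm hrp))
    have hpg : IsPGroup p (zpowers (y : G)) :=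
      IsPGroup.of_card (n := 1) (by rw [Nat.card_zpowers, hy', pow_one])
    obtain ⟨P', hP'⟩ := hpg.exists_le_sylow
    have hcardP' : Nat.card (P' : Subgroup G) = p := by
      have e1 := Sylow.card_eq_multiplicity P'
      have e2 := Sylow.card_eq_multiplicity P0
      exact (e1.trans e2.symm).trans hcardP0
    have hP'eq : zpowers (y : G) = (P' : Subgroup G) :=
      eq_of_le_of_card_ge hP' (by rw [hcardP', Nat.card_zpowers, hy'])
    have hQN : (Q : Subgroup G) ≤ normalizer ((P' : Subgroup G) : Set G) := by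
      intro q hq
      apply centralizer_le_normalizer
      rw [← hP'eq, mem_centralizer_iff]
      intro w hw
      obtain ⟨k, rfl⟩ := mem_zpowers_iff.1 hw
      have h1 : q * (y : G) = (y : G) * q := (mem_centralizer_iff.1 hyc q hq)
      exact ((show Commute q (y : G) from h1).zpow_right k).eq.symm
    rw [Sylow.card_eq_index_normalizer P']
    intro hdvd
    exact Q.not_dvd_index (hdvd.trans (index_dvd_of_le hQN))
  have hone : Nat.card (Sylow p G) = 1 := Nat.eq_one_iff_not_exists_prime_dvd.2 hall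
  have hsub : Subsingleton (Sylow p G) := (Nat.card_eq_one_iff_unique.1 hone).1
  exact hP0b (hb _ (Sylow.normal_of_subsingleton P0) P0.2)

theorem maxNilp_structure [Finite G] {p : ℕ} [hp : Fact p.Prime] (hpG : p ∣ Nat.card G)
    (hH : ∀ L : Subgroup G, L ≠ ⊤ → p ∣ Nat.card L → Group.IsNilpotent L)
    (M : Subgroup G) (hM : IsCoatom M) (hMp : (Nat.card M).Coprime p)
    (hMn : ¬ Group.IsNilpotent M) :
    ∃ Z K : Subgroup G, Z.Normal ∧ K.Normal ∧ Z ⊓ K = ⊥ ∧ Z ⊔ K = ⊤ ∧ Nat.card Z = p ∧
      Cfsg.IsMinimalNonNilpotent K ∧ ¬ p ∣ Nat.card K := by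
  obtain ⟨U, hUn, hUp, hUb⟩ := exists_normal_pGroup_of_maxNilp hpG hH M hM hMp hMn
  have hdisj := inf_eq_bot_of_pGroup_coprime hMp hUp
  have hUM : ¬ U ≤ M := by
    intro hle
    apply hUb
    rw [eq_bot_iff]
    intro u hu
    rw [mem_bot]
    exact hdisj u (hle hu) hu
  have hpU : p ∣ Nat.card U := by
    obtain ⟨n, hn⟩ := (IsPGroup.iff_card).1 hUp
    have hn0 : n ≠ 0 := by
      rintro rfl
      exact hUb (card_eq_one.1 (by rw [hn, pow_zero]))
    rw [hn]; exact dvd_pow_self p hn0
  have hnU : ∀ B : Subgroup G, B ≤ normalizer (U : Set G) := fun B => by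
    rw [normalizer_eq_top]; exact le_top
  have hB : ∀ M1 : Subgroup G, M1 ≤ M → M1 ≠ M → Group.IsNilpotent (U ⊔ M1 : Subgroup G) := by
    intro M1 hle hne
    apply hH
    · intro htop
      apply hne
      apply le_antisymm hle
      intro m hm
      have hm' : m ∈ U ⊔ M1 := by rw [htop]; trivial
      obtain ⟨u, hu, b, hb, hub⟩ := (Cfsg.H9.mem_sup_of_le_normalizer (hnU M1)).1 hm'
      have hu1 : u = 1 := by
        apply hdisj u _ hu
        have : u = m * b⁻¹ := by rw [← hub]; group
        rw [this]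
        exact M.mul_mem hm (M.inv_mem (hle hb))
      rw [hu1, one_mul] at hub
      rw [← hub]; exact hb
    · exact hpU.trans (card_dvd_of_le le_sup_left)
  have hC : ∀ m ∈ M, m ∈ centralizer (U : Set G) := by
    intro m hm
    by_cases hz : zpowers m = M
    · exfalso
      apply hMn
      rw [← hz]
      have hc : IsMulCommutative (zpowers m) := inferInstance
      let _ : CommGroup (zpowers m) :=
        { (inferInstance : Group (zpowers m)) with mul_comm := hc.is_comm.comm }
      infer_instance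
    · exact mem_centralizer_of_nilpotent (hB _ (zpowers_le.2 hm) hz) hUp le_sup_left
        (le_sup_right (a := U) (mem_zpowers m)) (hnU ⊤ (mem_top m)) (coprime_orderOf_of_mem hMp hm)
  have hsup : M ⊔ U = ⊤ := by
    apply hM.2
    refine lt_of_le_of_ne le_sup_left ?_
    intro h
    apply hUM
    rw [h]
    exact le_sup_right
  have hMnorm : M.Normal := by
    rw [← normalizer_eq_top_iff, eq_top_iff, ← hsup]
    apply sup_le le_normalizer
    intro u hu
    apply centralizer_le_normalizer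
    rw [mem_centralizer_iff]
    intro m hm
    exact (mem_centralizer_iff.1 (hC m hm) u hu).symm
  obtain ⟨z, hz⟩ := exists_prime_orderOf_dvd_card' p hpU
  have hz' : orderOf (z : G) = p := by rw [Subgroup.orderOf_coe]; exact hz
  have hz1 : (z : G) ≠ 1 := by
    intro h
    rw [h, orderOf_one] at hz'
    exact hp.out.one_lt.ne hz'
  have hzM : (z : G) ∉ M := fun h => hz1 (hdisj _ h z.2)
  have hsup2 : M ⊔ zpowers (z : G) = ⊤ := by
    apply hM.2
    refine lt_of_le_of_ne le_sup_left ?_
    intro h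
    apply hzM
    rw [h]
    exact le_sup_right (a := M) (mem_zpowers _)
  have hUeq : U = zpowers (z : G) := by
    apply le_antisymm
    · intro u hu
      have hu' : u ∈ M ⊔ zpowers (z : G) := by rw [hsup2]; trivial
      obtain ⟨m, hm, b, hb', hmb⟩ := (Cfsg.H9.mem_sup_of_le_normalizer (by
        rw [normalizer_eq_top]; exact le_top)).1 hu'
      have hbU : b ∈ U := (zpowers_le.2 z.2) hb'
      have hm1 : m = 1 := by
        apply hdisj m hm
        have : m = u * b⁻¹ := by rw [← hmb]; group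
        rw [this]
        exact U.mul_mem hu (U.inv_mem hbU)
      rw [hm1, one_mul] at hmb
      rw [← hmb]; exact hb'
    · exact zpowers_le.2 z.2
  refine ⟨U, M, hUn, hMnorm, ?_, by rw [sup_comm]; exact hsup, by rw [hUeq, Nat.card_zpowers, hz'],
    ⟨hMn, ?_⟩, fun h => ?_⟩
  · rw [eq_bot_iff]
    intro x hx
    rw [mem_bot]
    exact hdisj x (mem_inf.1 hx).2 (mem_inf.1 hx).1
  · intro H hHt
    have hle : H.map M.subtype ≤ M := by
      rintro _ ⟨y, _, rfl⟩
      exact y.2
    have hne : H.map M.subtype ≠ M := by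
      intro he
      apply hHt
      rw [eq_top_iff]
      intro x _
      have hx : (x : G) ∈ H.map M.subtype := by rw [he]; exact x.2
      obtain ⟨y, hy, hyx⟩ := hx
      have : y = x := Subtype.ext hyx
      rw [← this]; exact hy
    have h1 := isNilpotent_of_le (le_sup_right (a := U)) (hB _ hle hne)
    exact Group.nilpotent_of_mulEquiv (equivMapOfInjective H M.subtype M.subtype_injective).symm
  · exact hp.out.one_lt.ne' (Nat.eq_one_of_dvd_coprimes hMp h dvd_rfl)

/-- the converse: `Z × K` -/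
theorem nilpotent_of_direct [Finite G] {p : ℕ} [hp : Fact p.Prime] (Z K : Subgroup G)
    (hZ : Z.Normal) (hK : K.Normal) (hsup : Z ⊔ K = ⊤) (hcard : Nat.card Z = p)
    (hKm : Cfsg.IsMinimalNonNilpotent K) (hpK : ¬ p ∣ Nat.card K) (M : Subgroup G) (hM : M ≠ ⊤)
    (hpM : p ∣ Nat.card M) : Group.IsNilpotent M := by
  have hcopK : (Nat.card K).Coprime p := ((Nat.Prime.coprime_iff_not_dvd hp.out).2 hpK).symm
  have hnZ : ∀ B : Subgroup G, B ≤ normalizer (Z : Set G) := fun B => by
    rw [normalizer_eq_top]; exact le_top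
  have hdec : ∀ g : G, ∃ z ∈ Z, ∃ k ∈ K, z * k = g := fun g =>
    (Cfsg.H9.mem_sup_of_le_normalizer (hnZ K)).1 (by rw [hsup]; trivial)
  -- `Z ≤ M`
  obtain ⟨y, hy⟩ := exists_prime_orderOf_dvd_card' p hpM
  have hy' : orderOf (y : G) = p := by rw [Subgroup.orderOf_coe]; exact hy
  have hyZ : (y : G) ∈ Z := by
    rw [← QuotientGroup.eq_one_iff]
    obtain ⟨z, hz, k, hk, hzk⟩ := hdec y
    have e1 : ((y : G) : G ⧸ Z) = (k : G ⧸ Z) := by
      rw [← hzk, QuotientGroup.mk_mul, (QuotientGroup.eq_one_iff z).2 hz, one_mul]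
    have h1 : ((y : G) : G ⧸ Z) ^ p ^ 1 = 1 := by
      rw [pow_one, ← QuotientGroup.mk_pow, ← hy', pow_orderOf_eq_one]; rfl
    have h2 : orderOf ((y : G) : G ⧸ Z) ∣ orderOf k := by
      rw [e1]; exact orderOf_map_dvd (QuotientGroup.mk' Z) k
    exact eq_one_of_pow_of_coprime h1
      (Nat.Coprime.coprime_dvd_left h2 (coprime_orderOf_of_mem hcopK hk))
  have hZeq : zpowers (y : G) = Z :=
    eq_of_le_of_card_ge (zpowers_le.2 hyZ) (by rw [hcard, Nat.card_zpowers, hy'])
  have hZM : Z ≤ M := by rw [← hZeq]; exact zpowers_le.2 y.2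
  have n1 : Group.IsNilpotent (Z.subgroupOf M) := by
    have hpg : IsPGroup p Z := IsPGroup.of_card (n := 1) (by rw [hcard, pow_one])
    exact (hpg.comap_subtype (K := M)).isNilpotent
  have n2 : Group.IsNilpotent (K.subgroupOf M) := by
    have hne : M.subgroupOf K ≠ ⊤ := by
      intro h
      apply hM
      rw [subgroupOf_eq_top] at h
      rw [eq_top_iff, ← hsup]
      exact sup_le hZM h
    have h1 := hKm.2 _ hne
    -- `M.subgroupOf K ≃* (M ⊓ K) ≃* K.subgroupOf M`
    have e1 : Group.IsNilpotent (M ⊓ K : Subgroup G) := by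
      have e : M.subgroupOf K = (M ⊓ K).subgroupOf K := by rw [inf_subgroupOf_right]
      rw [e] at h1
      exact Group.nilpotent_of_mulEquiv (subgroupOfEquivOfLe (inf_le_right : M ⊓ K ≤ K))
    have e : K.subgroupOf M = (M ⊓ K).subgroupOf M := by rw [inf_subgroupOf_left]
    rw [e]
    exact Group.nilpotent_of_mulEquiv (subgroupOfEquivOfLe (inf_le_left : M ⊓ K ≤ M)).symm
  have n3 := Cfsg.Agent.Lib.Helper22.isNilpotent_sup (Z.subgroupOf M) (K.subgroupOf M) n1 n2
  have htop : Z.subgroupOf M ⊔ K.subgroupOf M = ⊤ := by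
    rw [eq_top_iff]
    intro m _
    obtain ⟨z, hz, k, hk, hzk⟩ := hdec m
    have hkM : k ∈ M := by
      have : k = z⁻¹ * m := by rw [← hzk]; group
      rw [this]
      exact M.mul_mem (M.inv_mem (hZM hz)) m.2
    have : m = (⟨z, hZM hz⟩ : M) * ⟨k, hkM⟩ := Subtype.ext hzk.symm
    rw [this]
    exact (Z.subgroupOf M ⊔ K.subgroupOf M).mul_mem
      (le_sup_left (a := Z.subgroupOf M) (mem_subgroupOf.2 hz))
      (le_sup_right (a := Z.subgroupOf M) (mem_subgroupOf.2 hk))
  rw [htop] at n3
  exact (Group.isNilpotent_congr topEquiv).1 n3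

end Cfsg.Agent.H4
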