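import Mathlib
import Cfsg.Agent.H4.Basic2
import Cfsg.Agent.H4.MinNormal
import Cfsg.Agent.H4.SolvMin
import Cfsg.Agent.H1.Coprime

/-! # Solvable groups whose maximal subgroups are 2-nilpotent or of prime index (helper4) -/

set_option autoImplicit false

namespace Cfsg.Agent.H4.TwoNilMax

open Subgroup

universe u

def Hyp (G : Type u) [Group G] : Prop :=
  ∀ M : Subgroup G, IsCoatom M →
    (∃ K : Subgroup ↥M, K.Normal ∧ ¬ 2 ∣ Nat.card K ∧ ∃ k : ℕ, K.index = 2 ^ k) ∨ (M.index).Prime

def Concl (G : Type u) [Group G] : Prop :=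
  ∃ A B C : Subgroup G, A.Normal ∧ B.Normal ∧ C.Normal ∧ A ≤ B ∧ B ≤ C ∧ Odd (Nat.card A) ∧
      (∃ k : ℕ, A.relIndex B = 2 ^ k) ∧ Odd (B.relIndex C) ∧ ∃ k : ℕ, C.index = 2 ^ k

theorem isCoatom_comap {G : Type u} [Group G] (N : Subgroup G) [N.Normal]
    (M' : Subgroup (G ⧸ N)) (hM' : IsCoatom M') : IsCoatom (M'.comap (QuotientGroup.mk' N)) := by
  have hsurj := QuotientGroup.mk'_surjective N
  constructor
  · intro h
    apply hM'.1
    rw [← Subgroup.map_comap_eq_self_of_surjective hsurj M', h,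
      Subgroup.map_top_of_surjective _ hsurj]
  · intro H hH
    have hNH : N ≤ H := by
      refine le_trans ?_ hH.le
      intro x hx
      rw [Subgroup.mem_comap]
      have : QuotientGroup.mk' N x = 1 := (QuotientGroup.eq_one_iff x).2 hx
      rw [this]; exact M'.one_mem
    have hHc : (H.map (QuotientGroup.mk' N)).comap (QuotientGroup.mk' N) = H := by
      apply Subgroup.comap_map_eq_self
      rwa [QuotientGroup.ker_mk']
    have h1 : M' < H.map (QuotientGroup.mk' N) := by
      rw [lt_iff_le_and_ne]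
      constructor
      · rw [← Subgroup.map_comap_eq_self_of_surjective hsurj M']
        exact Subgroup.map_mono hH.le
      · intro h
        rw [h, hHc] at hH
        exact lt_irrefl _ hH
    have h2 := hM'.2 _ h1
    rw [← hHc, h2, Subgroup.comap_top]

theorem Hyp.quot {G : Type u} [Group G] [Finite G] (h : Hyp G) (N : Subgroup G) [N.Normal] :
    Hyp (G ⧸ N) := by
  intro M' hM'
  have hsurj := QuotientGroup.mk'_surjective N
  rcases h _ (isCoatom_comap N M' hM') with ⟨K, hKn, hK2, k, hk⟩ | hp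
  · left
    let φ := (QuotientGroup.mk' N).subgroupComap M'
    have hφ : Function.Surjective φ :=
      (QuotientGroup.mk' N).subgroupComap_surjective_of_surjective M' hsurj
    refine ⟨K.map φ, hKn.map φ hφ, ?_, ?_⟩
    · intro h2
      exact hK2 (h2.trans (Subgroup.card_map_dvd K φ))
    · have h1 : (K.map φ).index ∣ 2 ^ k := by
        rw [← hk]; exact Subgroup.index_map_dvd K hφ
      obtain ⟨j, -, hj⟩ := (Nat.dvd_prime_pow Nat.prime_two).1 h1
      exact ⟨j, hj⟩
  · right
    rwa [Subgroup.index_comap_of_surjective _ hsurj] at hp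

theorem relIndex_comap_comap {G : Type u} [Group G] (N : Subgroup G) [N.Normal]
    (A B : Subgroup (G ⧸ N)) :
    (A.comap (QuotientGroup.mk' N)).relIndex (B.comap (QuotientGroup.mk' N)) = A.relIndex B := by
  rw [Subgroup.relIndex_comap,
    Subgroup.map_comap_eq_self_of_surjective (QuotientGroup.mk'_surjective N)]

theorem Concl.lift_odd {G : Type u} [Group G] [Finite G] (N : Subgroup G) [N.Normal]
    (hN : Odd (Nat.card N)) (h : Concl (G ⧸ N)) : Concl G := by
  obtain ⟨A, B, C, hA, hB, hC, hAB, hBC, hAo, hk1, ho, hk2⟩ := h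
  refine ⟨A.comap (QuotientGroup.mk' N), B.comap (QuotientGroup.mk' N),
    C.comap (QuotientGroup.mk' N), hA.comap _, hB.comap _, hC.comap _,
    Subgroup.comap_mono hAB, Subgroup.comap_mono hBC, ?_, ?_, ?_, ?_⟩
  · rw [Cfsg.Agent.H4.card_comap_mk']
    exact hN.mul hAo
  · rwa [relIndex_comap_comap]
  · rwa [relIndex_comap_comap]
  · rwa [Subgroup.index_comap_of_surjective _ (QuotientGroup.mk'_surjective N)]

theorem Concl.lift_two {G : Type u} [Group G] [Finite G] (N : Subgroup G) [N.Normal]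
    (hN : ∃ a : ℕ, Nat.card N = 2 ^ a) (B C : Subgroup (G ⧸ N)) (hB : B.Normal) (hC : C.Normal)
    (hBC : B ≤ C) (hk1 : ∃ k : ℕ, Nat.card B = 2 ^ k) (ho : Odd (B.relIndex C))
    (hk2 : ∃ k : ℕ, C.index = 2 ^ k) : Concl G := by
  refine ⟨⊥, B.comap (QuotientGroup.mk' N),
    C.comap (QuotientGroup.mk' N), inferInstance, hB.comap _, hC.comap _,
    bot_le, Subgroup.comap_mono hBC, by simp, ?_, ?_, ?_⟩
  · obtain ⟨a, ha⟩ := hN
    obtain ⟨k, hk⟩ := hk1
    refine ⟨a + k, ?_⟩
    rw [Subgroup.relIndex_bot_left, Cfsg.Agent.H4.card_comap_mk', ha, hk, pow_add]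
  · rwa [relIndex_comap_comap]
  · rwa [Subgroup.index_comap_of_surjective _ (QuotientGroup.mk'_surjective N)]

end Cfsg.Agent.H4.TwoNilMax
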