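import Mathlib
import Cfsg.Agent.H4.TwoNilMax

/-! # Solvable groups whose maximal subgroups are 2-nilpotent or of prime index, part 2 (helper4) -/

set_option autoImplicit false

namespace Cfsg.Agent.H4.TwoNilMax

open Subgroup

universe u

theorem le_norm {G : Type u} [Group G] {S D : Subgroup G}
    (h : ∀ s ∈ S, ∀ d ∈ D, s * d * s⁻¹ ∈ D) : S ≤ normalizer (D : Set G) := by
  intro s hs
  rw [mem_normalizer_iff]
  intro d
  constructor
  · exact h s hs d
  · intro hd
    have := h s⁻¹ (S.inv_mem hs) _ hd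
    simpa [mul_assoc] using this

theorem le_norm_normal {G : Type u} [Group G] (H K : Subgroup G) [K.Normal] :
    H ≤ normalizer (K : Set G) := by
  rw [normalizer_eq_top_iff.2 inferInstance]; exact le_top

theorem card_mul_relIndex' {G : Type u} [Group G] {N C : Subgroup G} (h : N ≤ C) :
    Nat.card N * N.relIndex C = Nat.card C := by
  have := Subgroup.relIndex_mul_relIndex ⊥ N C bot_le h
  rwa [Subgroup.relIndex_bot_left, Subgroup.relIndex_bot_left] at this

theorem key {G : Type u} [Group G] [Finite G] (h : Hyp G)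
    (hO : ∀ X : Subgroup G, X.Normal → X ≠ ⊥ → ¬ Odd (Nat.card X))
    (N : Subgroup G) [hNn : N.Normal] (hNc : IsMulCommutative N) (hN2 : ∃ a : ℕ, Nat.card N = 2 ^ a)
    (hmin : ∀ K : Subgroup G, K.Normal → K ≤ N → K = ⊥ ∨ K = N)
    (L : Subgroup G) [L.Normal] (hNL : N ≤ L) (r b : ℕ) [hr : Fact r.Prime] (hr2 : r ≠ 2)
    (hb : 1 ≤ b) (hL : Nat.card L = Nat.card N * r ^ b) : Concl G := by
  obtain ⟨a, ha⟩ := hN2
  obtain ⟨R⟩ : Nonempty (Sylow r L) := inferInstance
  set R₀ : Subgroup G := (R : Subgroup L).map L.subtype with hR₀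
  have hrodd : Odd r := hr.out.odd_of_ne_two hr2
  have hcR : Nat.card R₀ = r ^ b := by
    rw [hR₀, Subgroup.card_map_of_injective L.subtype_injective, Sylow.card_eq_multiplicity, hL, ha]
    congr 1
    rw [Nat.factorization_mul (by positivity) (by have := hr.out.pos; positivity),
      Nat.factorization_pow, Nat.factorization_pow, Nat.prime_two.factorization,
      hr.out.factorization]
    simp [Finsupp.single_apply, hr2.symm]
  have hRL : R₀ ≤ L := Subgroup.map_subtype_le _
  have hfr : normalizer (R₀ : Set G) ⊔ L = ⊤ := Sylow.normalizer_sup_eq_top R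
  have hcop : (Nat.card N).Coprime (Nat.card R₀) := by
    rw [ha, hcR]
    apply Nat.Coprime.pow
    exact (Nat.coprime_primes Nat.prime_two hr.out).2 hr2.symm
  have hdisj : Disjoint N R₀ := disjoint_iff.2 (Subgroup.inf_eq_bot_of_coprime hcop)
  have hNR : N ⊔ R₀ = L := by
    apply Subgroup.eq_of_le_of_card_ge (sup_le hNL hRL)
    rw [Cfsg.H1.card_sup_of_disjoint (le_norm_normal R₀ N) hdisj, hL, hcR]
  have hnt : normalizer (R₀ : Set G) ⊔ N = ⊤ := by
    rw [eq_top_iff, ← hfr, ← hNR]
    refine sup_le le_sup_left (sup_le le_sup_right ?_)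
    exact le_trans Subgroup.le_normalizer le_sup_left
  have hR1 : R₀ ≠ ⊥ := by
    intro h0
    rw [h0, Subgroup.card_bot] at hcR
    have : 1 < r ^ b := Nat.one_lt_pow (by omega) hr.out.one_lt
    omega
  have hne : normalizer (R₀ : Set G) ≠ ⊤ := by
    intro h0
    have hn : R₀.Normal := normalizer_eq_top_iff.1 h0
    exact hO R₀ hn hR1 (by rw [hcR]; exact hrodd.pow)
  obtain ⟨M, hM, hle⟩ := (eq_top_or_exists_le_coatom _).resolve_left hne
  have hMN : M ⊔ N = ⊤ := by
    rw [eq_top_iff, ← hnt]
    exact sup_le_sup_right hle N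
  have hinfn : (M ⊓ N).Normal := by
    rw [← normalizer_eq_top_iff, eq_top_iff, ← hMN]
    apply sup_le
    · apply le_norm
      intro m hm d hd
      exact ⟨M.mul_mem (M.mul_mem hm hd.1) (M.inv_mem hm), hNn.conj_mem d hd.2 m⟩
    · apply le_norm
      intro n hn d hd
      have hc : n * d = d * n := by
        have := hNc.is_comm.comm (⟨n, hn⟩ : N) ⟨d, hd.2⟩
        exact congrArg Subtype.val this
      rw [hc, mul_assoc, mul_inv_cancel, mul_one]
      exact hd
  have hinf : M ⊓ N = ⊥ := by
    rcases hmin _ hinfn inf_le_right with h0 | h0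
    · exact h0
    · exfalso
      apply hM.1
      rw [← hMN]
      exact (sup_eq_left.2 (inf_eq_right.1 h0)).symm
  have hdMN : Disjoint N M := disjoint_iff.2 (by rw [inf_comm]; exact hinf)
  have hcG : Nat.card G = Nat.card N * Nat.card M := by
    rw [← Cfsg.H1.card_sup_of_disjoint (le_norm_normal M N) hdMN, sup_comm, hMN,
      Subgroup.card_top]
  have hMpos : 0 < Nat.card M := Nat.card_pos
  have hNpos : 0 < Nat.card N := Nat.card_pos
  have hidx : M.index = Nat.card N := by
    have h1 := M.card_mul_index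
    rw [hcG, mul_comm (Nat.card N)] at h1
    exact Nat.eq_of_mul_eq_mul_left hMpos h1
  rcases h M hM with ⟨K, hKn, hK2, k, hk⟩ | hp
  · set K₀ : Subgroup G := K.map M.subtype with hK₀
    have hcK : Nat.card K₀ = Nat.card K := Subgroup.card_map_of_injective M.subtype_injective
    have hKM : K₀ ≤ M := Subgroup.map_subtype_le _
    have hdNK : Disjoint N K₀ := hdMN.mono_right hKM
    have hcC : Nat.card (N ⊔ K₀ : Subgroup G) = Nat.card N * Nat.card K₀ :=
      Cfsg.H1.card_sup_of_disjoint (le_norm_normal K₀ N) hdNK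
    have hCn : (N ⊔ K₀).Normal := by
      rw [← normalizer_eq_top_iff, eq_top_iff, ← hMN]
      apply sup_le
      · apply le_norm
        intro m hm x hx
        obtain ⟨y, hy, z, hz, rfl⟩ := Subgroup.mem_sup_of_normal_left.1 hx
        have e : m * (y * z) * m⁻¹ = (m * y * m⁻¹) * (m * z * m⁻¹) := by group
        rw [e]
        apply Subgroup.mul_mem_sup (hNn.conj_mem y hy m)
        obtain ⟨z', hz', rfl⟩ := hz
        refine ⟨(⟨m, hm⟩ : M) * z' * (⟨m, hm⟩ : M)⁻¹, hKn.conj_mem z' hz' _, rfl⟩
      · exact le_trans le_sup_left Subgroup.le_normalizer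
    have hKpos : 0 < Nat.card K := Nat.card_pos
    refine ⟨⊥, N, N ⊔ K₀, inferInstance, hNn, hCn, bot_le, le_sup_left, by simp, ⟨a, ?_⟩, ?_, ⟨k, ?_⟩⟩
    · rw [Subgroup.relIndex_bot_left, ha]
    · have h1 := card_mul_relIndex' (le_sup_left : N ≤ N ⊔ K₀)
      rw [hcC] at h1
      have h2 := Nat.eq_of_mul_eq_mul_left hNpos h1
      rw [h2, hcK]
      rw [← Nat.not_even_iff_odd, even_iff_two_dvd]
      exact hK2
    · have h1 := (N ⊔ K₀).card_mul_index
      have h2 := K.card_mul_index
      rw [hcC, hcG, hcK, ← h2, hk] at h1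
      have h3 : Nat.card N * Nat.card K * (N ⊔ K₀).index = Nat.card N * Nat.card K * 2 ^ k := by
        rw [h1]; ring
      exact Nat.eq_of_mul_eq_mul_left (Nat.mul_pos hNpos hKpos) h3
  · exfalso
    rw [hidx, ha] at hp
    have ha1 : a = 1 := by
      by_contra hne1
      exact (Nat.Prime.not_prime_pow' hne1) hp
    have hc2 : Nat.card N = 2 := by rw [ha, ha1, pow_one]
    apply hne
    rw [eq_top_iff, ← hnt]
    refine sup_le le_rfl ?_
    refine le_trans ?_ (Subgroup.center_le_normalizer (R₀ : Set G))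
    intro z hz
    rw [Subgroup.mem_center_iff]
    intro g
    by_cases hz1 : z = 1
    · rw [hz1]; simp
    · obtain ⟨t, -, htu⟩ := (Nat.card_eq_two_iff' (1 : N)).1 hc2
      have h1 : (⟨z, hz⟩ : N) = t := htu _ (fun h0 => hz1 (congrArg Subtype.val h0))
      have h2 : (⟨g * z * g⁻¹, hNn.conj_mem z hz g⟩ : N) = t := by
        apply htu
        intro h0
        apply hz1
        have h3 : g * z * g⁻¹ = 1 := congrArg Subtype.val h0
        have h4 : z = g⁻¹ * (g * z * g⁻¹) * g := by group
        rw [h4, h3]; group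
      have h3 : g * z * g⁻¹ = z := congrArg Subtype.val (h2.trans h1.symm)
      calc g * z = (g * z * g⁻¹) * g := by group
        _ = z * g := by rw [h3]

end Cfsg.Agent.H4.TwoNilMax
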