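import Mathlib
import Cfsg.Agent.H4.TwoNilMax2
import Cfsg.Agent.H20.PSolvHall

/-! # p-solvable groups whose maximal subgroups are p-nilpotent or of prime index (helper4) -/

set_option autoImplicit false

namespace Cfsg.Agent.H4.PNilMax

open Subgroup Cfsg.Agent.H4.TwoNilMax

universe u

def Hyp (p : ℕ) (G : Type u) [Group G] : Prop :=
  ∀ M : Subgroup G, IsCoatom M →
    (∃ K : Subgroup ↥M, K.Normal ∧ ¬ p ∣ Nat.card K ∧ ∃ k : ℕ, K.index = p ^ k) ∨ (M.index).Prime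

def Chain (p : ℕ) {G : Type u} [Group G] (N : Subgroup G) : Prop :=
  ∃ A B C D : Subgroup G, A.Normal ∧ B.Normal ∧ C.Normal ∧ D.Normal ∧ N ≤ A ∧ A ≤ B ∧ B ≤ C ∧
    C ≤ D ∧ ¬ p ∣ N.relIndex A ∧ (∃ k : ℕ, A.relIndex B = p ^ k) ∧ ¬ p ∣ B.relIndex C ∧
    (∃ k : ℕ, C.relIndex D = p ^ k) ∧ ¬ p ∣ D.index

theorem Hyp.quot {p : ℕ} (hp : p.Prime) {G : Type u} [Group G] [Finite G] (h : Hyp p G)
    (N : Subgroup G) [N.Normal] : Hyp p (G ⧸ N) := by
  intro M' hM'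
  have hsurj := QuotientGroup.mk'_surjective N
  rcases h _ (isCoatom_comap N M' hM') with ⟨K, hKn, hK2, k, hk⟩ | hp'
  · left
    let φ := (QuotientGroup.mk' N).subgroupComap M'
    have hφ : Function.Surjective φ :=
      (QuotientGroup.mk' N).subgroupComap_surjective_of_surjective M' hsurj
    refine ⟨K.map φ, hKn.map φ hφ, ?_, ?_⟩
    · intro h2
      exact hK2 (h2.trans (Subgroup.card_map_dvd K φ))
    · have h1 : (K.map φ).index ∣ p ^ k := by
        rw [← hk]; exact Subgroup.index_map_dvd K hφ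
      obtain ⟨j, -, hj⟩ := (Nat.dvd_prime_pow hp).1 h1
      exact ⟨j, hj⟩
  · right
    rwa [Subgroup.index_comap_of_surjective _ hsurj] at hp'

theorem comap_bot_mk {G : Type u} [Group G] (N : Subgroup G) [N.Normal] :
    (⊥ : Subgroup (G ⧸ N)).comap (QuotientGroup.mk' N) = N := by
  rw [MonoidHom.comap_bot, QuotientGroup.ker_mk']

theorem Chain.of_quot {p : ℕ} {G : Type u} [Group G] (N : Subgroup G) [N.Normal]
    (h : Chain p (⊥ : Subgroup (G ⧸ N))) : Chain p N := by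
  obtain ⟨A, B, C, D, hA, hB, hC, hD, h0, h1, h2, h3, e0, e1, e2, e3, e4⟩ := h
  refine ⟨A.comap (QuotientGroup.mk' N), B.comap (QuotientGroup.mk' N),
    C.comap (QuotientGroup.mk' N), D.comap (QuotientGroup.mk' N), hA.comap _, hB.comap _,
    hC.comap _, hD.comap _, ?_, Subgroup.comap_mono h1, Subgroup.comap_mono h2,
    Subgroup.comap_mono h3, ?_, ?_, ?_, ?_, ?_⟩
  · conv_lhs => rw [← comap_bot_mk N]
    exact Subgroup.comap_mono h0
  · conv at e0 => rw [← relIndex_comap_comap N, comap_bot_mk]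
    exact e0
  · rwa [relIndex_comap_comap]
  · rwa [relIndex_comap_comap]
  · rwa [relIndex_comap_comap]
  · rwa [Subgroup.index_comap_of_surjective _ (QuotientGroup.mk'_surjective N)]

theorem Chain.lift_p' {p : ℕ} (hp : p.Prime) {G : Type u} [Group G] (N : Subgroup G)
    (hN : ¬ p ∣ Nat.card N) (h : Chain p N) : Chain p (⊥ : Subgroup G) := by
  obtain ⟨A, B, C, D, hA, hB, hC, hD, h0, h1, h2, h3, e0, e1, e2, e3, e4⟩ := h
  refine ⟨A, B, C, D, hA, hB, hC, hD, bot_le, h1, h2, h3, ?_, e1, e2, e3, e4⟩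
  rw [Subgroup.relIndex_bot_left, ← card_mul_relIndex' h0]
  intro hd
  rcases hp.dvd_mul.1 hd with hd | hd
  · exact hN hd
  · exact e0 hd

theorem relIndex_dvd_of_le_right' {G : Type u} [Group G] (H : Subgroup G) [H.Normal]
    {K L : Subgroup G} (h : K ≤ L) : H.relIndex K ∣ H.relIndex L := by
  have e : ∀ X : Subgroup G, H.relIndex X = Nat.card (X.map (QuotientGroup.mk' H)) := by
    intro X
    have := Subgroup.relIndex_ker (K := X) (QuotientGroup.mk' H)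
    rwa [QuotientGroup.ker_mk'] at this
  rw [e, e]
  exact Subgroup.card_dvd_of_le (Subgroup.map_mono h)

theorem relIndex_inf_dvd {G : Type u} [Group G] (X₁ X₂ Y₁ Y₂ : Subgroup G) [X₁.Normal] [X₂.Normal] :
    (X₁ ⊓ X₂).relIndex (Y₁ ⊓ Y₂) ∣ X₁.relIndex Y₁ * X₂.relIndex Y₂ := by
  rw [← Subgroup.relIndex_inf_mul_relIndex]
  apply mul_dvd_mul
  · exact relIndex_dvd_of_le_right' X₁ (inf_le_right.trans inf_le_left)
  · exact relIndex_dvd_of_le_right' X₂ inf_le_right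

theorem not_dvd_of {p : ℕ} (hp : p.Prime) {a b d : ℕ} (ha : ¬ p ∣ a) (hb : ¬ p ∣ b)
    (hd : d ∣ a * b) : ¬ p ∣ d := by
  intro h
  rcases hp.dvd_mul.1 (h.trans hd) with h | h
  · exact ha h
  · exact hb h

theorem pow_of {p : ℕ} (hp : p.Prime) {a b d : ℕ} (ha : ∃ k : ℕ, a = p ^ k) (hb : ∃ k : ℕ, b = p ^ k)
    (hd : d ∣ a * b) : ∃ k : ℕ, d = p ^ k := by
  obtain ⟨k, rfl⟩ := ha
  obtain ⟨l, rfl⟩ := hb
  rw [← pow_add] at hd
  obtain ⟨j, -, hj⟩ := (Nat.dvd_prime_pow hp).1 hd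
  exact ⟨j, hj⟩

theorem Chain.inf {p : ℕ} (hp : p.Prime) {G : Type u} [Group G] (N₁ N₂ : Subgroup G) [N₁.Normal]
    [N₂.Normal] (h₁ : Chain p N₁) (h₂ : Chain p N₂) : Chain p (N₁ ⊓ N₂) := by
  obtain ⟨A, B, C, D, hA, hB, hC, hD, h0, h1, h2, h3, e0, e1, e2, e3, e4⟩ := h₁
  obtain ⟨A', B', C', D', hA', hB', hC', hD', h0', h1', h2', h3', e0', e1', e2', e3', e4'⟩ := h₂
  refine ⟨A ⊓ A', B ⊓ B', C ⊓ C', D ⊓ D', inferInstance, inferInstance, inferInstance,
    inferInstance, inf_le_inf h0 h0', inf_le_inf h1 h1', inf_le_inf h2 h2', inf_le_inf h3 h3',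
    not_dvd_of hp e0 e0' (relIndex_inf_dvd _ _ _ _), pow_of hp e1 e1' (relIndex_inf_dvd _ _ _ _),
    not_dvd_of hp e2 e2' (relIndex_inf_dvd _ _ _ _), pow_of hp e3 e3' (relIndex_inf_dvd _ _ _ _), ?_⟩
  have := relIndex_inf_dvd D D' ⊤ ⊤
  rw [inf_top_eq, Subgroup.relIndex_top_right, Subgroup.relIndex_top_right,
    Subgroup.relIndex_top_right] at this
  exact not_dvd_of hp e4 e4' this

end Cfsg.Agent.H4.PNilMax
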