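import Mathlib
import Cfsg.Agent.H4.PNilMax

/-! # p-solvable groups whose maximal subgroups are p-nilpotent or of prime index, part 2 (helper4) -/

set_option autoImplicit false

namespace Cfsg.Agent.H4.PNilMax

open Subgroup Cfsg.Agent.H4.TwoNilMax
open scoped Pointwise

universe u

/-- Schur–Zassenhaus + Frattini. -/
theorem exists_compl_frattini {p : ℕ} [hp : Fact p.Prime] {G : Type u} [Group G] [Finite G]
    (N : Subgroup G) [hNn : N.Normal] (hNc : IsMulCommutative N) (a : ℕ) (ha : Nat.card N = p ^ a)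
    (A : Subgroup G) [hAn : A.Normal] (hNA : N ≤ A) (hne : A ≠ N) (hA : ¬ p ∣ N.relIndex A) :
    ∃ K₁ : Subgroup G, K₁ ≠ ⊥ ∧ ¬ p ∣ Nat.card K₁ ∧ normalizer (K₁ : Set G) ⊔ N = ⊤ := by
  have hcN' : Nat.card (N.subgroupOf A) = Nat.card N := Cfsg.H1.card_subgroupOf_of_le hNA
  have hcop0 : (Nat.card (N.subgroupOf A)).Coprime (N.subgroupOf A).index := by
    rw [hcN', ha]
    exact Nat.Coprime.pow_left a ((Nat.Prime.coprime_iff_not_dvd hp.out).2 hA)
  obtain ⟨H, hH⟩ := Subgroup.exists_left_complement'_of_coprime hcop0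
  set K₁ : Subgroup G := H.map A.subtype with hK₁
  have hNpos : 0 < Nat.card N := Nat.card_pos
  have hcK : Nat.card K₁ = N.relIndex A := by
    rw [hK₁, Subgroup.card_map_of_injective A.subtype_injective]
    have h1 := hH.card_mul_card
    rw [hcN', ← card_mul_relIndex' hNA, mul_comm] at h1
    exact Nat.eq_of_mul_eq_mul_left hNpos h1
  have hKA : K₁ ≤ A := Subgroup.map_subtype_le _
  have hK1 : K₁ ≠ ⊥ := by
    intro h0
    apply hne
    symm
    apply Subgroup.eq_of_le_of_card_ge hNA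
    rw [← card_mul_relIndex' hNA, ← hcK, h0, Subgroup.card_bot, mul_one]
  have hKp : ¬ p ∣ Nat.card K₁ := by rw [hcK]; exact hA
  have hcop : (Nat.card K₁).Coprime (Nat.card N) := by
    rw [ha]
    exact (Nat.Coprime.pow_left a ((Nat.Prime.coprime_iff_not_dvd hp.out).2 hKp)).symm
  have hdisj : Disjoint N K₁ := Subgroup.disjoint_of_coprime_natCard hcop.symm
  have hNK : N ⊔ K₁ = A := by
    apply Subgroup.eq_of_le_of_card_ge (sup_le hNA hKA)
    rw [Cfsg.H1.card_sup_of_disjoint (le_norm_normal K₁ N) hdisj, hcK, card_mul_relIndex' hNA]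
  refine ⟨K₁, hK1, hKp, ?_⟩
  rw [eq_top_iff]
  intro g _
  have hB : MulAut.conj g • K₁ ≤ N ⊔ K₁ := by
    rw [hNK, ← Subgroup.Normal.conj_smul_eq_self g A]
    exact Subgroup.pointwise_smul_le_pointwise_smul_iff.2 hKA
  have hsolv : Group.IsSolvable N := by
    have : IsMulCommutative N := hNc
    letI : CommGroup N := { (inferInstance : Group N) with mul_comm := hNc.is_comm.comm }
    infer_instance
  obtain ⟨k, hk, hkk⟩ := Cfsg.H1.sz_conj_internal (A := K₁) (K := N) (B := MulAut.conj g • K₁)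
    (le_norm_normal K₁ N) hcop (Or.inr hsolv) hB (Cfsg.H1.card_conj_smul g K₁)
  have h1 : MulAut.conj (k⁻¹ * g) • K₁ = K₁ := by
    rw [map_mul, mul_smul, ← hkk, ← mul_smul, ← map_mul, inv_mul_cancel, map_one, one_smul]
  have h2 : k⁻¹ * g ∈ normalizer (K₁ : Set G) := Subgroup.mem_normalizer_iff_map_conj_eq.2 h1
  have h3 : g = k * (k⁻¹ * g) := by group
  rw [h3, sup_comm]
  exact Subgroup.mul_mem_sup hk h2

end Cfsg.Agent.H4.PNilMax
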