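import Mathlib
import Cfsg.Agent.H4.PNilMax2

/-! # p-solvable groups whose maximal subgroups are p-nilpotent or of prime index, part 3 (helper4) -/

set_option autoImplicit false

namespace Cfsg.Agent.H4.PNilMax

open Subgroup Cfsg.Agent.H4.TwoNilMax
open scoped Pointwise

universe u

theorem key {p : ℕ} [hp : Fact p.Prime] {G : Type u} [Group G] [Finite G] (h : Hyp p G)
    (hO : ∀ X : Subgroup G, X.Normal → X ≠ ⊥ → p ∣ Nat.card X)
    (IH : ∀ X : Subgroup G, X.Normal → X ≠ ⊥ → Chain p X)
    (N : Subgroup G) [hNn : N.Normal] (hN1 : N ≠ ⊥) (hNc : IsMulCommutative N) (a : ℕ)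
    (ha : Nat.card N = p ^ a)
    (hmin : ∀ K : Subgroup G, K.Normal → K ≤ N → K = ⊥ ∨ K = N)
    (A : Subgroup G) [hAn : A.Normal] (hNA : N ≤ A) (hne : A ≠ N) (hA : ¬ p ∣ N.relIndex A) :
    Chain p (⊥ : Subgroup G) := by
  obtain ⟨K₁, hK1, hKp, hnt⟩ := exists_compl_frattini N hNc a ha A hNA hne hA
  have hp1 : ¬ p ∣ 1 := fun h0 => hp.out.one_lt.ne' (Nat.dvd_one.1 h0)
  have hne' : normalizer (K₁ : Set G) ≠ ⊤ := by
    intro h0
    have hn : K₁.Normal := normalizer_eq_top_iff.1 h0
    exact hKp (hO K₁ hn hK1)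
  obtain ⟨M, hM, hle⟩ := (eq_top_or_exists_le_coatom _).resolve_left hne'
  have hMN : M ⊔ N = ⊤ := by
    rw [eq_top_iff, ← hnt]
    exact sup_le_sup_right hle N
  have hcommN : ∀ n ∈ N, ∀ d ∈ N, n * d = d * n := by
    intro n hn d hd
    have := hNc.is_comm.comm (⟨n, hn⟩ : N) ⟨d, hd⟩
    exact congrArg Subtype.val this
  have hinfn : (M ⊓ N).Normal := by
    rw [← normalizer_eq_top_iff, eq_top_iff, ← hMN]
    apply sup_le
    · apply le_norm
      intro m hm d hd
      exact ⟨M.mul_mem (M.mul_mem hm hd.1) (M.inv_mem hm), hNn.conj_mem d hd.2 m⟩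
    · apply le_norm
      intro n hn d hd
      rw [hcommN n hn d hd.2, mul_assoc, mul_inv_cancel, mul_one]
      exact hd
  have hinf : M ⊓ N = ⊥ := by
    rcases hmin _ hinfn inf_le_right with h0 | h0
    · exact h0
    · exfalso
      apply hM.1
      rw [← hMN]
      exact (sup_eq_left.2 (inf_eq_right.1 h0)).symm
  have hdMN : Disjoint N M := disjoint_iff.2 (by rw [inf_comm]; exact hinf)
  have hcG : Nat.card G = Nat.card N * Nat.card M := by
    rw [← Cfsg.H1.card_sup_of_disjoint (le_norm_normal M N) hdMN, sup_comm, hMN,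
      Subgroup.card_top]
  have hMpos : 0 < Nat.card M := Nat.card_pos
  have hNpos : 0 < Nat.card N := Nat.card_pos
  have hidx : M.index = Nat.card N := by
    have h1 := M.card_mul_index
    rw [hcG, mul_comm (Nat.card N)] at h1
    exact Nat.eq_of_mul_eq_mul_left hMpos h1
  have hNidx : N.index = Nat.card M := by
    have h1 := N.card_mul_index
    rw [hcG] at h1
    exact Nat.eq_of_mul_eq_mul_left hNpos h1
  rcases h M hM with ⟨K, hKn, hK2, k, hk⟩ | hpr
  · set K₀ : Subgroup G := K.map M.subtype with hK₀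
    have hcK : Nat.card K₀ = Nat.card K := Subgroup.card_map_of_injective M.subtype_injective
    have hKM : K₀ ≤ M := Subgroup.map_subtype_le _
    have hdNK : Disjoint N K₀ := hdMN.mono_right hKM
    have hcC : Nat.card (N ⊔ K₀ : Subgroup G) = Nat.card N * Nat.card K₀ :=
      Cfsg.H1.card_sup_of_disjoint (le_norm_normal K₀ N) hdNK
    have hCn : (N ⊔ K₀).Normal := by
      rw [← normalizer_eq_top_iff, eq_top_iff, ← hMN]
      apply sup_le
      · apply le_norm
        intro m hm x hx
        obtain ⟨y, hy, z, hz, rfl⟩ := Subgroup.mem_sup_of_normal_left.1 hx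
        have e : m * (y * z) * m⁻¹ = (m * y * m⁻¹) * (m * z * m⁻¹) := by group
        rw [e]
        apply Subgroup.mul_mem_sup (hNn.conj_mem y hy m)
        obtain ⟨z', hz', rfl⟩ := hz
        refine ⟨(⟨m, hm⟩ : M) * z' * (⟨m, hm⟩ : M)⁻¹, hKn.conj_mem z' hz' _, rfl⟩
      · exact le_trans le_sup_left Subgroup.le_normalizer
    have hKpos : 0 < Nat.card K := Nat.card_pos
    refine ⟨⊥, N, N ⊔ K₀, ⊤, inferInstance, hNn, hCn, inferInstance, le_rfl, bot_le, le_sup_left,
      le_top, by simpa using hp1, ⟨a, ?_⟩, ?_, ⟨k, ?_⟩, by simpa using hp1⟩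
    · rw [Subgroup.relIndex_bot_left, ha]
    · have h1 := card_mul_relIndex' (le_sup_left : N ≤ N ⊔ K₀)
      rw [hcC] at h1
      have h2 := Nat.eq_of_mul_eq_mul_left hNpos h1
      rw [h2, hcK]
      exact hK2
    · rw [Subgroup.relIndex_top_right]
      have h1 := (N ⊔ K₀).card_mul_index
      have h2 := K.card_mul_index
      rw [hcC, hcG, hcK, ← h2, hk] at h1
      have h3 : Nat.card N * Nat.card K * (N ⊔ K₀).index = Nat.card N * Nat.card K * p ^ k := by
        rw [h1]; ring
      exact Nat.eq_of_mul_eq_mul_left (Nat.mul_pos hNpos hKpos) h3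
  · rw [hidx, ha] at hpr
    have ha1 : a = 1 := by
      by_contra hne1
      exact (Nat.Prime.not_prime_pow' hne1) hpr
    have hcp : Nat.card N = p := by rw [ha, ha1, pow_one]
    set M₀ : Subgroup G := M ⊓ centralizer (N : Set G) with hM₀
    have hM₀n : M₀.Normal := by
      rw [← normalizer_eq_top_iff, eq_top_iff, ← hMN]
      apply sup_le
      · apply le_norm
        intro m hm d hd
        refine ⟨M.mul_mem (M.mul_mem hm hd.1) (M.inv_mem hm), ?_⟩
        have : (centralizer (N : Set G)).Normal := inferInstance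
        exact this.conj_mem d hd.2 m
      · apply le_norm
        intro n hn d hd
        have hc : d * n = n * d := (Subgroup.mem_centralizer_iff.1 hd.2 n hn).symm
        rw [← hc, mul_assoc, mul_inv_cancel, mul_one]
        exact hd
    by_cases hM₀1 : M₀ = ⊥
    · -- `M` is a `p'`-group
      have hMp : ¬ p ∣ Nat.card M := by
        intro hd
        obtain ⟨x, hx⟩ := exists_prime_orderOf_dvd_card' p hd
        have hxo : orderOf (x : G) = p := by rw [Subgroup.orderOf_coe]; exact hx
        have hzM : zpowers (x : G) ≤ M := by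
          rw [Subgroup.zpowers_le]; exact x.2
        have hd2 : Disjoint N (zpowers (x : G)) := hdMN.mono_right hzM
        have hc2 : Nat.card (N ⊔ zpowers (x : G) : Subgroup G) = p ^ 2 := by
          rw [Cfsg.H1.card_sup_of_disjoint (le_norm_normal _ N) hd2, hcp, Nat.card_zpowers, hxo,
            pow_two]
        have hcomm := IsPGroup.isMulCommutative_of_card_eq_prime_sq hc2
        have hxc : (x : G) ∈ centralizer (N : Set G) := by
          rw [Subgroup.mem_centralizer_iff]
          intro n hn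
          have hn' : n ∈ N ⊔ zpowers (x : G) := (le_sup_left : N ≤ _) hn
          have hx' : (x : G) ∈ N ⊔ zpowers (x : G) :=
            (le_sup_right : zpowers (x : G) ≤ _) (Subgroup.mem_zpowers _)
          have := hcomm.is_comm.comm (⟨n, hn'⟩ : (N ⊔ zpowers (x : G) : Subgroup G)) ⟨x, hx'⟩
          exact congrArg Subtype.val this
        have hx0 : (x : G) ∈ M₀ := ⟨x.2, hxc⟩
        rw [hM₀1, Subgroup.mem_bot] at hx0
        rw [hx0, orderOf_one] at hxo
        exact hp.out.one_lt.ne hxo
      refine ⟨⊥, N, ⊤, ⊤, inferInstance, hNn, inferInstance, inferInstance, le_rfl, bot_le, le_top,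
        le_rfl, by simpa using hp1, ⟨a, ?_⟩, ?_, ⟨0, by simp⟩, by simpa using hp1⟩
      · rw [Subgroup.relIndex_bot_left, ha]
      · rw [Subgroup.relIndex_top_right, hNidx]
        exact hMp
    · have h1 := Chain.inf hp.out M₀ N (IH M₀ hM₀n hM₀1) (IH N hNn hN1)
      have h2 : M₀ ⊓ N = ⊥ := by
        rw [eq_bot_iff, ← hinf]
        exact inf_le_inf_right N inf_le_left
      rwa [h2] at h1

end Cfsg.Agent.H4.PNilMax
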