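import Mathlib
import Cfsg.Agent.H4.TwoNilMax2

/-! # Solvable groups whose maximal subgroups are 2-nilpotent or of prime index, part 3 (helper4) -/

set_option autoImplicit false

namespace Cfsg.Agent.H4.TwoNilMax

open Subgroup

universe u

theorem card_quot_lt {G : Type u} [Group G] [Finite G] (X : Subgroup G) (hX : X ≠ ⊥) :
    Nat.card (G ⧸ X) < Nat.card G := by
  have h1 := Subgroup.card_eq_card_quotient_mul_card_subgroup X
  have h2 : 1 < Nat.card X := by
    rw [Finite.one_lt_card_iff_nontrivial]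
    exact (Subgroup.nontrivial_iff_ne_bot X).2 hX
  have h3 : 0 < Nat.card (G ⧸ X) := Nat.card_pos
  rw [h1]
  nlinarith

theorem main : ∀ (n : ℕ) (G : Type u) [Group G] [Finite G], Nat.card G = n →
    Group.IsSolvable G → Hyp G → Concl G := by
  intro n
  induction n using Nat.strong_induction_on with
  | _ n ih =>
  intro G _ _ hn hs h
  by_cases hO : ∃ X : Subgroup G, X.Normal ∧ X ≠ ⊥ ∧ Odd (Nat.card X)
  · obtain ⟨X, hXn, hX, hXo⟩ := hO
    have hlt : Nat.card (G ⧸ X) < n := hn ▸ card_quot_lt X hX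
    exact Concl.lift_odd X hXo (ih _ hlt (G ⧸ X) rfl inferInstance (h.quot X))
  · push Not at hO
    by_cases ht : (⊤ : Subgroup G) = ⊥
    · have hc : Nat.card G = 1 := by
        rw [← Subgroup.card_top, ht, Subgroup.card_bot]
      refine ⟨⊥, ⊥, ⊥, inferInstance, inferInstance, inferInstance, le_rfl, le_rfl, by simp,
        ⟨0, by simp⟩, by simp, ⟨0, ?_⟩⟩
      rw [Subgroup.index_bot, hc, pow_zero]
    · obtain ⟨N, hNn, hN, -, hmin⟩ :=
        Cfsg.Agent.H4.exists_minimal_normal_le (D := (⊤ : Subgroup G)) inferInstance ht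
      obtain ⟨hNc, p, hp, hNp⟩ := Cfsg.Agent.H4.minimal_normal_of_solvable N hN hmin
      have : Fact p.Prime := ⟨hp⟩
      obtain ⟨a, ha⟩ := IsPGroup.iff_card.1 hNp
      have hp2 : p = 2 := by
        by_contra hne
        apply hO N hNn hN
        rw [ha]
        exact (hp.odd_of_ne_two hne).pow
      subst hp2
      have hlt : Nat.card (G ⧸ N) < n := hn ▸ card_quot_lt N hN
      obtain ⟨A', B', C', hA'n, hB'n, hC'n, hAB, hBC, hAo, hk1, ho, hk2⟩ :=
        ih _ hlt (G ⧸ N) rfl inferInstance (h.quot N)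
      by_cases hA' : A' = ⊥
      · subst hA'
        rw [Subgroup.relIndex_bot_left] at hk1
        exact Concl.lift_two N ⟨a, ha⟩ B' C' hB'n hC'n hBC hk1 ho hk2
      · obtain ⟨L', hL'n, hL', hL'A, hmin'⟩ := Cfsg.Agent.H4.exists_minimal_normal_le hA'n hA'
        obtain ⟨-, r, hr, hL'r⟩ := Cfsg.Agent.H4.minimal_normal_of_solvable L' hL' hmin'
        have : Fact r.Prime := ⟨hr⟩
        obtain ⟨b, hb⟩ := IsPGroup.iff_card.1 hL'r
        have hb1 : 1 ≤ b := by
          by_contra hb0
          have hb0' : b = 0 := by omega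
          rw [hb0', pow_zero] at hb
          exact hL' ((Subgroup.card_eq_one).1 hb)
        have hr2 : r ≠ 2 := by
          rintro rfl
          have h1 : Nat.card L' ∣ Nat.card A' := Subgroup.card_dvd_of_le hL'A
          have h2 : 2 ∣ Nat.card A' := by
            refine dvd_trans ?_ h1
            rw [hb]
            exact dvd_pow_self 2 (by omega)
          rw [← Nat.not_even_iff_odd, even_iff_two_dvd] at hAo
          exact hAo h2
        have hLn : (L'.comap (QuotientGroup.mk' N)).Normal := hL'n.comap _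
        refine key h hO N hNc ⟨a, ha⟩ hmin (L'.comap (QuotientGroup.mk' N)) ?_ r b hr2 hb1 ?_
        · intro x hx
          rw [Subgroup.mem_comap]
          have : QuotientGroup.mk' N x = 1 := (QuotientGroup.eq_one_iff x).2 hx
          rw [this]; exact L'.one_mem
        · rw [Cfsg.Agent.H4.card_comap_mk', hb]

end Cfsg.Agent.H4.TwoNilMax
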