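import Mathlib
import Cfsg.Agent.H4.PNilMax3
import Cfsg.Agent.H4.TwoNilMax3

/-! # p-solvable groups whose maximal subgroups are p-nilpotent or of prime index, part 4 (helper4) -/

set_option autoImplicit false

namespace Cfsg.Agent.H4.PNilMax

open Subgroup Cfsg.Agent.H4.TwoNilMax

universe u

theorem main {p : ℕ} [hp : Fact p.Prime] : ∀ (n : ℕ) (G : Type u) [Group G] [Finite G],
    Nat.card G = n → Cfsg.IsPSolvable p G → Hyp p G → Chain p (⊥ : Subgroup G) := by
  intro n
  induction n using Nat.strong_induction_on with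
  | _ n ih =>
  intro G _ _ hn hs h
  have hp1 : ¬ p ∣ 1 := fun h0 => hp.out.one_lt.ne' (Nat.dvd_one.1 h0)
  have IH : ∀ X : Subgroup G, X.Normal → X ≠ ⊥ → Chain p X := by
    intro X hXn hX
    have hlt : Nat.card (G ⧸ X) < n := hn ▸ card_quot_lt X hX
    exact Chain.of_quot X (ih _ hlt (G ⧸ X) rfl
      (Cfsg.Agent.H20.isPSolvable_quotient hp.out hs X) (h.quot hp.out X))
  by_cases hO : ∃ X : Subgroup G, X.Normal ∧ X ≠ ⊥ ∧ ¬ p ∣ Nat.card X
  · obtain ⟨X, hXn, hX, hXo⟩ := hO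
    exact Chain.lift_p' hp.out X hXo (IH X hXn hX)
  · push Not at hO
    by_cases ht : (⊤ : Subgroup G) = ⊥
    · have hc : Nat.card G = 1 := by
        rw [← Subgroup.card_top, ht, Subgroup.card_bot]
      refine ⟨⊥, ⊥, ⊥, ⊥, inferInstance, inferInstance, inferInstance, inferInstance, le_rfl,
        le_rfl, le_rfl, le_rfl, by simpa using hp1, ⟨0, by simp⟩, by simpa using hp1,
        ⟨0, by simp⟩, ?_⟩
      rw [Subgroup.index_bot, hc]
      exact hp1
    · have hnt : Nontrivial G := by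
        obtain ⟨x, y, hxy⟩ := (Subgroup.nontrivial_iff_ne_bot (⊤ : Subgroup G)).2 ht
        exact ⟨x.1, y.1, fun h0 => hxy (Subtype.ext h0)⟩
      obtain ⟨M₁, hM₁n, hM₁, hM₁p⟩ := Cfsg.Agent.H20.exists_normal_of_isPSolvable hs
      have hM₁p' : IsPGroup p M₁ := by
        rcases hM₁p with h0 | h0
        · exact h0
        · exfalso
          exact (Nat.Prime.coprime_iff_not_dvd hp.out).1 h0.symm (hO M₁ hM₁n hM₁)
      obtain ⟨N, hNn, hN, hNM, hmin⟩ := Cfsg.Agent.H4.exists_minimal_normal_le hM₁n hM₁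
      have hNp : IsPGroup p N := hM₁p'.to_le hNM
      have hNnil : Group.IsNilpotent N := hNp.isNilpotent
      obtain ⟨hNc, -⟩ := Cfsg.Agent.H4.minimal_normal_of_solvable N hN hmin
      obtain ⟨a, ha⟩ := IsPGroup.iff_card.1 hNp
      obtain ⟨A, B, C, D, hA, hB, hC, hD, h0, h1, h2, h3, e0, e1, e2, e3, e4⟩ := IH N hNn hN
      by_cases hAN : A = N
      · subst hAN
        obtain ⟨k, hk⟩ := e1
        refine ⟨⊥, B, C, D, inferInstance, hB, hC, hD, le_rfl, bot_le, h2, h3, by simpa using hp1,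
          ⟨a + k, ?_⟩, e2, e3, e4⟩
        rw [Subgroup.relIndex_bot_left, ← card_mul_relIndex' h1, ha, hk, pow_add]
      · exact key h hO IH N hN hNc a ha hmin A h0 hAN e0

end Cfsg.Agent.H4.PNilMax
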