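import Mathlib
import Cfsg.Agent.H12.Dk26

set_option autoImplicit false

namespace Cfsg.Agent.H4.QdC

open Cfsg Cfsg.Agent.H12 Cfsg.Agent.H12.Dk

universe u

variable {p : ℕ} [Fact p.Prime]

/-- local `Qd(p)`-data: a `p`-subgroup `P₁` with a quotient `ZMod p × ZMod p` on which elements of
`M ∩ N(P₁)` induce all of `SL₂(p)`. -/
def QdLoc (p : ℕ) [Fact p.Prime] {X : Type*} [Group X] (P₁ M : Subgroup X) : Prop :=
  IsPGroup p P₁ ∧ ∃ φ : X → ZMod p × ZMod p,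
    (∀ a ∈ P₁, ∀ b ∈ P₁, φ (a * b) = φ a + φ b) ∧ (∀ v, ∃ a ∈ P₁, φ a = v) ∧
    ∀ k : Matrix.SpecialLinearGroup (Fin 2) (ZMod p), ∃ n ∈ M, n ∈ Subgroup.normalizer (P₁ : Set X) ∧
      ∀ q ∈ P₁, φ (n * q * n⁻¹) = act k (φ q)

/-- involvement gives local data -/
theorem exists_qdLoc_of_involves {G : Type*} [Group G] [Finite G] (h : Involves ↥(qd p) G) :
    ∃ P₁ : Subgroup G, QdLoc p P₁ ⊤ := by
  obtain ⟨K₀, R₀, hn, ⟨e⟩⟩ := h
  set f : K₀ →* ↥(qd p) := e.toMonoidHom.comp (QuotientGroup.mk' _) with hf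
  have hfs : Function.Surjective f := e.surjective.comp (QuotientGroup.mk'_surjective _)
  set D := qdData p with hD
  obtain ⟨P₁, hP₁, hmap, hlift⟩ := exists_lift_pSubgroup f hfs D.W D.W_isPGroup
  have hinv : ∀ v, Function.invFun D.ι (D.ι v) = v := Function.leftInverse_invFun D.ι_inj
  classical
  let φ : G → ZMod p × ZMod p := fun x => if h : x ∈ K₀ then Function.invFun D.ι (f ⟨x, h⟩) else 0
  have hφ : ∀ (q : K₀) (v : ZMod p × ZMod p), f q = D.ι v → φ q = v := by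
    intro q v hq
    show (if h : (q : G) ∈ K₀ then Function.invFun D.ι (f ⟨(q : G), h⟩) else 0) = v
    rw [dif_pos q.2]
    show Function.invFun D.ι (f q) = v
    rw [hq, hinv]
  have hW : ∀ q ∈ P₁, ∃ v, f q = D.ι v := by
    intro q hq
    have : f q ∈ D.W := by rw [← hmap]; exact ⟨q, hq, rfl⟩
    obtain ⟨v, hv⟩ := this
    exact ⟨v, hv.symm⟩
  refine ⟨P₁.map K₀.subtype, hP₁.map _, φ, ?_, ?_, ?_⟩
  · rintro _ ⟨a, ha, rfl⟩ _ ⟨b, hb, rfl⟩
    obtain ⟨v, hv⟩ := hW a ha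
    obtain ⟨w, hw⟩ := hW b hb
    have h1 : φ ((a * b : K₀) : G) = v + w := hφ _ _ (by rw [map_mul, hv, hw, D.ι_add])
    have h2 := hφ a v hv
    have h3 := hφ b w hw
    simp only [Subgroup.subtype_apply]
    rw [h2, h3, ← h1]
    rfl
  · intro v
    have hv : D.ι v ∈ P₁.map f := by rw [hmap]; exact ⟨v, rfl⟩
    obtain ⟨q, hq, e1⟩ := hv
    exact ⟨q, ⟨q, hq, rfl⟩, hφ q v e1⟩
  · intro k
    obtain ⟨n', hn', e1⟩ := hlift (D.j k) (D.j_mem_normalizer k)
    refine ⟨n', trivial, Subgroup.le_normalizer_map K₀.subtype ⟨n', hn', rfl⟩, ?_⟩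
    rintro _ ⟨q, hq, rfl⟩
    obtain ⟨v, hv⟩ := hW q hq
    have h1 : φ ((n' * q * n'⁻¹ : K₀) : G) = act k v := by
      apply hφ
      rw [map_mul, map_mul, map_inv, e1, hv, D.compat]
      rfl
    have h2 := hφ q v hv
    simp only [Subgroup.subtype_apply]
    rw [h2, ← h1]
    rfl

/-- local data give involvement -/
theorem involves_of_qdLoc {X : Type u} [Group X] [Finite X] (hp : p ≠ 2) {P₁ M : Subgroup X}
    (h : QdLoc p P₁ M) : Involves ↥(qd p) X := by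
  obtain ⟨hP₁, φ, hadd, hsurj, hact⟩ := h
  by_contra hcon
  have hφ1 : φ 1 = 0 := by
    have := hadd 1 (one_mem _) 1 (one_mem _)
    rw [mul_one] at this
    exact (add_eq_left.mp this.symm)
  have hφinv : ∀ a ∈ P₁, φ a⁻¹ = - φ a := by
    intro a ha
    have := hadd a⁻¹ (inv_mem ha) a ha
    rw [inv_mul_cancel, hφ1] at this
    exact eq_neg_of_add_eq_zero_left this.symm
  let Rel : X → Matrix.SpecialLinearGroup (Fin 2) (ZMod p) → Prop := fun x k =>
    x ∈ Subgroup.normalizer (P₁ : Set X) ∧ ∀ q ∈ P₁, φ (x * q * x⁻¹) = act k (φ q)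
  have hconj : ∀ x ∈ Subgroup.normalizer (P₁ : Set X), ∀ q ∈ P₁, x * q * x⁻¹ ∈ P₁ :=
    fun x hx q hq => (Subgroup.mem_normalizer_iff.mp hx q).mp hq
  have hone : Rel 1 1 := ⟨one_mem _, fun q _ => by rw [act_one]; simp⟩
  have hmul : ∀ x y k l, Rel x k → Rel y l → Rel (x * y) (k * l) := by
    rintro x y k l ⟨hx, hxk⟩ ⟨hy, hyl⟩
    refine ⟨mul_mem hx hy, fun q hq => ?_⟩
    have e3 : x * y * q * (x * y)⁻¹ = x * (y * q * y⁻¹) * x⁻¹ := by group
    rw [e3, hxk _ (hconj y hy q hq), hyl q hq, act_mul]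
  have hinv : ∀ x k, Rel x k → Rel x⁻¹ k⁻¹ := by
    rintro x k ⟨hx, hxk⟩
    refine ⟨inv_mem hx, fun q hq => ?_⟩
    have h1 := hxk _ (hconj x⁻¹ (inv_mem hx) q hq)
    have e3 : x * (x⁻¹ * q * x⁻¹⁻¹) * x⁻¹ = q := by group
    rw [e3] at h1
    rw [h1, ← act_mul, inv_mul_cancel, act_one]
  have huniq : ∀ x k l, Rel x k → Rel x l → k = l := by
    rintro x k l ⟨hx, hxk⟩ ⟨-, hxl⟩
    apply act_inj
    intro v
    obtain ⟨q, hq, rfl⟩ := hsurj v
    rw [← hxk q hq, ← hxl q hq]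
  let H : Subgroup X :=
    { carrier := {x | ∃ k, Rel x k}
      mul_mem' := by
        rintro x y ⟨k, hk⟩ ⟨l, hl⟩
        exact ⟨k * l, hmul x y k l hk hl⟩
      one_mem' := ⟨1, hone⟩
      inv_mem' := by
        rintro x ⟨k, hk⟩
        exact ⟨k⁻¹, hinv x k hk⟩ }
  let Ψ : H →* Matrix.SpecialLinearGroup (Fin 2) (ZMod p) :=
    MonoidHom.mk' (fun x => x.2.choose) (by
      intro x y
      exact huniq _ _ _ (x * y).2.choose_spec (hmul _ _ _ _ x.2.choose_spec y.2.choose_spec))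
  have hΨ : ∀ (x : H) k, Rel x k → Ψ x = k := fun x k hk => huniq _ _ _ x.2.choose_spec hk
  have hΨ' : ∀ x : H, Rel x (Ψ x) := fun x => x.2.choose_spec
  have hΨs : Function.Surjective Ψ := by
    intro k
    obtain ⟨n, -, hn1, hn2⟩ := hact k
    exact ⟨⟨n, k, hn1, hn2⟩, hΨ _ _ ⟨hn1, hn2⟩⟩
  have hRelP : ∀ a ∈ P₁, Rel a 1 := by
    intro a ha
    refine ⟨Subgroup.le_normalizer ha, fun q hq => ?_⟩
    rw [hadd _ (mul_mem ha hq) _ (inv_mem ha), hadd a ha q hq, hφinv a ha, act_one]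
    abel
  have hPH : P₁ ≤ H := fun a ha => ⟨1, hRelP a ha⟩
  let T : Subgroup X :=
    { carrier := {x | x ∈ P₁ ∧ φ x = 0}
      mul_mem' := by
        rintro x y ⟨hx, hx0⟩ ⟨hy, hy0⟩
        exact ⟨mul_mem hx hy, by rw [hadd x hx y hy, hx0, hy0, add_zero]⟩
      one_mem' := ⟨one_mem _, hφ1⟩
      inv_mem' := by
        rintro x ⟨hx, hx0⟩
        exact ⟨inv_mem hx, by rw [hφinv x hx, hx0, neg_zero]⟩ }
  have hact0 : ∀ k : Matrix.SpecialLinearGroup (Fin 2) (ZMod p), act k (0 : ZMod p × ZMod p) = 0 := by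
    intro k; unfold act; simp
  have hTn : (T.subgroupOf H).Normal := by
    refine ⟨fun t ht x => ?_⟩
    have ht' : (t : X) ∈ T := ht
    obtain ⟨hx1, hx2⟩ := hΨ' x
    show (x : X) * t * (x : X)⁻¹ ∈ T
    exact ⟨hconj _ hx1 _ ht'.1, by rw [hx2 _ ht'.1, ht'.2, hact0]⟩
  have hmk : ∀ a b : H, (a : X) ∈ P₁ → (b : X) ∈ P₁ → φ a = φ b →
      (QuotientGroup.mk a : H ⧸ T.subgroupOf H) = QuotientGroup.mk b := by
    intro a b ha hb hab
    rw [QuotientGroup.eq]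
    show (a : X)⁻¹ * b ∈ T
    exact ⟨mul_mem (inv_mem ha) hb, by rw [hadd _ (inv_mem ha) _ hb, hφinv _ ha, hab, neg_add_cancel]⟩
  let ρ : (H ⧸ T.subgroupOf H) →* Matrix.SpecialLinearGroup (Fin 2) (ZMod p) :=
    QuotientGroup.lift (T.subgroupOf H) Ψ (fun t ht => hΨ t 1 (hRelP _ (show (t : X) ∈ T from ht).1))
  choose s hs1 hs2 using hsurj
  let D : NatData p (H ⧸ T.subgroupOf H) (H ⧸ T.subgroupOf H) :=
    { j := MonoidHom.id _
      ρ := ρ
      ι := fun v => QuotientGroup.mk (⟨s v, hPH (hs1 v)⟩ : H)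
      j_inj := Function.injective_id
      ρ_surj := by
        intro k
        obtain ⟨x, hx⟩ := hΨs k
        exact ⟨QuotientGroup.mk x, hx⟩
      ι_inj := by
        intro v w hvw
        rw [QuotientGroup.eq] at hvw
        have h1 : (s v)⁻¹ * s w ∈ T := hvw
        have h2 := h1.2
        rw [hadd _ (inv_mem (hs1 v)) _ (hs1 w), hφinv _ (hs1 v), hs2, hs2] at h2
        exact (neg_add_eq_zero.mp h2)
      ι_add := by
        intro v w
        rw [← QuotientGroup.mk_mul]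
        apply hmk _ _ (hs1 _) (mul_mem (hs1 v) (hs1 w))
        show φ (s (v + w)) = φ (s v * s w)
        rw [hadd _ (hs1 v) _ (hs1 w), hs2, hs2, hs2]
      compat := by
        intro k v
        induction k using QuotientGroup.induction_on with
        | H x =>
          obtain ⟨hx1, hx2⟩ := hΨ' x
          show (QuotientGroup.mk x : H ⧸ T.subgroupOf H) * QuotientGroup.mk (⟨s v, hPH (hs1 v)⟩ : H) *
            (QuotientGroup.mk x)⁻¹ = QuotientGroup.mk (⟨s (act (Ψ x) v), hPH (hs1 _)⟩ : H)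
          rw [← QuotientGroup.mk_mul, ← QuotientGroup.mk_inv, ← QuotientGroup.mk_mul]
          apply hmk _ _ (hconj _ hx1 _ (hs1 v)) (hs1 _)
          show φ ((x : X) * s v * (x : X)⁻¹) = φ (s (act (Ψ x) v))
          rw [hx2 _ (hs1 v), hs2, hs2] }
  exact D.not_stable hp (stable_of_qd_free hp hcon H T)

end Cfsg.Agent.H4.QdC
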