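import Mathlib
import Cfsg.Agent.Tr.Frobenius
import Cfsg.Agent.H9.FStar2

set_option autoImplicit false

/-! Groups in which every non-abelian subgroup is self-normalizing. -/

namespace Cfsg.Agent.H4

open Subgroup

variable {G : Type*} [Group G]

/-- every non-abelian subgroup is self-normalizing -/
def SelfNorm (G : Type*) [Group G] : Prop :=
  ∀ H : Subgroup G, ¬ IsMulCommutative H → normalizer (H : Set G) = H

/-- if `g q g⁻¹ = c q` with `c` commuting with `g`, then `g^k q g^{-k} = c^k q`. -/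
theorem conj_pow_of_commute {g q c : G} (h : g * q * g⁻¹ = c * q) (hc : c * g = g * c) (k : ℕ) :
    g ^ k * q * (g ^ k)⁻¹ = c ^ k * q := by
  induction k with
  | zero => simp
  | succ k ih =>
    have hck : g * c ^ k = c ^ k * g := ((Commute.pow_left (show Commute c g from hc) k).eq).symm
    calc g ^ (k + 1) * q * (g ^ (k + 1))⁻¹ = g * (g ^ k * q * (g ^ k)⁻¹) * g⁻¹ := by
          rw [pow_succ']; group
      _ = g * (c ^ k * q) * g⁻¹ := by rw [ih]
      _ = (g * c ^ k) * q * g⁻¹ := by group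
      _ = c ^ k * (g * q * g⁻¹) := by rw [hck]; group
      _ = c ^ (k + 1) * q := by rw [h, pow_succ]; group

theorem eq_one_of_comm_fixed [Finite G] {p : ℕ} [Fact p.Prime] {Q : Subgroup G} (hQ : IsPGroup p Q)
    {g q c : G} (hco : (orderOf g).Coprime p) (hcQ : c ∈ Q)
    (h : g * q * g⁻¹ = c * q) (hc : c * g = g * c) : c = 1 := by
  have h1 := conj_pow_of_commute h hc (orderOf g)
  rw [pow_orderOf_eq_one] at h1
  have h2 : c ^ orderOf g = 1 := by
    have : c ^ orderOf g * q = 1 * q := by rw [← h1]; simp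
    exact mul_right_cancel this
  obtain ⟨k, hk⟩ := hQ ⟨c, hcQ⟩
  have hk' : c ^ p ^ k = 1 := by simpa using congrArg Subtype.val hk
  have d1 : orderOf c ∣ orderOf g := orderOf_dvd_of_pow_eq_one h2
  have d2 : orderOf c ∣ p ^ k := orderOf_dvd_of_pow_eq_one hk'
  exact orderOf_eq_one_iff.1 (Nat.eq_one_of_dvd_coprimes (Nat.Coprime.pow_right k hco) d1 d2)

theorem SelfNorm.fixed_eq_one [Finite G] (h : SelfNorm G) {p : ℕ} [Fact p.Prime] (Q : Subgroup G)
    (hQ : IsPGroup p Q) (hQc : ∀ a ∈ Q, ∀ b ∈ Q, a * b = b * a) (g : G)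
    (hg : g ∈ normalizer (Q : Set G)) (hco : (orderOf g).Coprime p)
    (hnc : g ∉ centralizer (Q : Set G)) (c : G) (hcp : ∃ k : ℕ, c ^ p ^ k = 1)
    (hcQ : ∀ a ∈ Q, c * a = a * c) (hcg : c * g = g * c) : c = 1 := by
  have hgQ : ∀ a ∈ Q, g * a * g⁻¹ ∈ Q := fun a ha => (mem_normalizer_iff.1 hg a).1 ha
  have hgQ' : ∀ a ∈ Q, g⁻¹ * a * g ∈ Q := fun a ha => by
    have := (mem_normalizer_iff.1 hg (g⁻¹ * a * g)).2 (by
      have e : g * (g⁻¹ * a * g) * g⁻¹ = a := by group
      rw [e]; exact ha)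
    exact this
  let δ : Q →* G := MonoidHom.mk' (fun a => g * a * g⁻¹ * (a : G)⁻¹) (by
    intro a b
    have h1 := hQc _ (Q.mul_mem (hgQ b b.2) (Q.inv_mem b.2)) _ (Q.inv_mem a.2)
    calc g * ((a * b : Q) : G) * g⁻¹ * ((a * b : Q) : G)⁻¹
        = g * a * g⁻¹ * ((g * b * g⁻¹ * (b : G)⁻¹) * (a : G)⁻¹) := by
          simp only [Subgroup.coe_mul]; group
      _ = g * a * g⁻¹ * (a : G)⁻¹ * (g * b * g⁻¹ * (b : G)⁻¹) := by rw [h1]; group)
  have hδ : ∀ a : Q, δ a = g * a * g⁻¹ * (a : G)⁻¹ := fun a => rfl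
  set D : Subgroup G := δ.range with hD
  have hDQ : D ≤ Q := by
    rintro _ ⟨a, rfl⟩
    rw [hδ]
    exact Q.mul_mem (hgQ a a.2) (Q.inv_mem a.2)
  -- elements of `D` commuting with `g` are trivial
  have hDfix : ∀ d ∈ D, d * g = g * d → d = 1 := by
    rintro _ ⟨a, rfl⟩ hd
    refine eq_one_of_comm_fixed hQ hco (hDQ ⟨a, rfl⟩) (q := (a : G)) ?_ hd
    rw [hδ]; group
  have hnorm : zpowers g ≤ normalizer (D : Set G) := by
    rw [zpowers_le, mem_normalizer_iff]
    intro d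
    constructor
    · rintro ⟨a, rfl⟩
      refine ⟨⟨g * a * g⁻¹, hgQ a a.2⟩, ?_⟩
      rw [hδ, hδ]; group
    · rintro ⟨a, ha⟩
      refine ⟨⟨g⁻¹ * a * g, hgQ' a a.2⟩, ?_⟩
      rw [hδ] at ha ⊢
      have : d = g⁻¹ * (g * d * g⁻¹) * g := by group
      rw [this, ← ha]
      group
  set X : Subgroup G := D ⊔ zpowers g with hX
  have hXnc : ¬ IsMulCommutative X := by
    intro hcomm
    apply hnc
    rw [mem_centralizer_iff]
    intro a ha
    have hd : δ ⟨a, ha⟩ ∈ X := le_sup_left (a := D) ⟨⟨a, ha⟩, rfl⟩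
    have hgX : g ∈ X := le_sup_right (a := D) (mem_zpowers g)
    have hcm : δ ⟨a, ha⟩ * g = g * δ ⟨a, ha⟩ :=
      congrArg Subtype.val (hcomm.is_comm.comm ⟨_, hd⟩ ⟨g, hgX⟩)
    have h1 := hDfix _ ⟨⟨a, ha⟩, rfl⟩ hcm
    rw [hδ] at h1
    have h2 : g * a * g⁻¹ = a := by
      have := mul_inv_eq_one.1 h1
      simpa using this
    calc a * g = (g * a * g⁻¹) * g := by rw [h2]
      _ = g * a := by group
  have hXself := h X hXnc
  have hcX : c ∈ X := by
    rw [← hXself]
    apply centralizer_le_normalizer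
    have hle : X ≤ centralizer ({c} : Set G) := by
      apply sup_le
      · intro d hd
        simp only [mem_centralizer_iff, Set.mem_singleton_iff, forall_eq]
        exact hcQ d (hDQ hd)
      · rw [zpowers_le]
        simp only [mem_centralizer_iff, Set.mem_singleton_iff, forall_eq]
        exact hcg
    rw [mem_centralizer_iff]
    intro x hx
    have := hle hx
    simp only [mem_centralizer_iff, Set.mem_singleton_iff, forall_eq] at this
    exact this.symm
  obtain ⟨d, hd, b, hb, hdb⟩ := (Cfsg.H9.mem_sup_of_le_normalizer hnorm).1 hcX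
  have hb1 : b = 1 := by
    have hbe : b = d⁻¹ * c := by rw [← hdb]; group
    obtain ⟨k1, hk1⟩ := hQ ⟨d, hDQ hd⟩
    have hk1' : d ^ p ^ k1 = 1 := by simpa using congrArg Subtype.val hk1
    obtain ⟨k2, hk2⟩ := hcp
    have hcomm : Commute d⁻¹ c := (show Commute c d from hcQ d (hDQ hd)).symm.inv_left
    have hk' : b ^ p ^ (k1 + k2) = 1 := by
      rw [hbe, hcomm.mul_pow, inv_pow, pow_add, pow_mul, hk1', mul_comm (p ^ k1), pow_mul, hk2]
      simp
    have d2 : orderOf b ∣ p ^ (k1 + k2) := orderOf_dvd_of_pow_eq_one hk'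
    have d1 : orderOf b ∣ orderOf g := by
      have := orderOf_dvd_natCard (⟨b, hb⟩ : zpowers g)
      rwa [Nat.card_zpowers, Subgroup.orderOf_mk] at this
    exact orderOf_eq_one_iff.1 (Nat.eq_one_of_dvd_coprimes (Nat.Coprime.pow_right _ hco) d1 d2)
  rw [hb1, mul_one] at hdb
  rw [← hdb] at hcg ⊢
  exact hDfix d hd hcg

end Cfsg.Agent.H4
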