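import Mathlib
import Cfsg.Agent.H4.SelfNorm2
import Cfsg.Agent.H4.Schmidt2
import Cfsg.Agent.Lib.Helper22.FittingSub

set_option autoImplicit false

/-! Solvable non-nilpotent groups in which every non-abelian subgroup is self-normalizing. -/

namespace Cfsg.Agent.H4

open Subgroup

variable {G : Type*} [Group G]

theorem SelfNorm.structure [Finite G] [Group.IsSolvable G] (hnn : ¬ Group.IsNilpotent G)
    (hS : SelfNorm G) :
    ∃ (x : G) (A : Subgroup G) (p : ℕ), p.Prime ∧ A.Normal ∧ IsMulCommutative A ∧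
      (∃ k : ℕ, orderOf x = p ^ k) ∧ ¬ p ∣ Nat.card A ∧ (zpowers x).IsComplement' A ∧
      x ^ p ∈ center G ∧ ∀ a : G, a ∈ A → a ≠ 1 → x * a * x⁻¹ ≠ a := by
  have hnt : Nontrivial G := by
    by_contra h
    rw [not_nontrivial_iff_subsingleton] at h
    exact hnn inferInstance
  have hab : ∀ N : Subgroup G, N.Normal → N ≠ ⊤ → IsMulCommutative N := by
    intro N hN hne
    by_contra hc
    have := hS N hc
    rw [normalizer_eq_top] at this
    exact hne this.symm
  obtain ⟨M, hMn, hMp⟩ := exists_normal_prime_index (G := G)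
  set p := M.index with hp
  have hpf : Fact p.Prime := ⟨hMp⟩
  have hMt : M ≠ ⊤ := by
    intro h
    rw [hp, h, index_top] at hMp
    exact Nat.not_prime_one hMp
  have hMc := hab M hMn hMt
  have hcardQ : Nat.card (G ⧸ M) = p := rfl
  have hpM : ∀ g : G, (orderOf g).Coprime p → g ∈ M := by
    intro g hg
    rw [← QuotientGroup.eq_one_iff, ← orderOf_eq_one_iff]
    have h1 : orderOf (g : G ⧸ M) ∣ p := hcardQ ▸ orderOf_dvd_natCard _
    have h2 : orderOf (g : G ⧸ M) ∣ orderOf g := orderOf_map_dvd (QuotientGroup.mk' M) g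
    exact Nat.eq_one_of_dvd_coprimes hg h2 h1
  have hF : Cfsg.Agent.Tr.Frob p G := by
    intro Q hQ g hg hco
    rw [mem_centralizer_iff]
    intro q hq
    have hgM := hpM g hco
    have hcQ : g * q * g⁻¹ * q⁻¹ ∈ Q := Q.mul_mem ((mem_normalizer_iff.1 hg q).1 hq) (Q.inv_mem hq)
    have hcM : g * q * g⁻¹ * q⁻¹ ∈ M := by
      have e : g * q * g⁻¹ * q⁻¹ = g * (q * g⁻¹ * q⁻¹) := by group
      rw [e]
      exact M.mul_mem hgM (hMn.conj_mem _ (M.inv_mem hgM) q)
    have hcomm : g * q * g⁻¹ * q⁻¹ * g = g * (g * q * g⁻¹ * q⁻¹) :=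
      congrArg Subtype.val (hMc.is_comm.comm ⟨_, hcM⟩ ⟨g, hgM⟩)
    have h1 := eq_one_of_comm_fixed hQ hco hcQ (q := q) (by group) hcomm
    have h2 : g * q * g⁻¹ = q := by
      have := mul_inv_eq_one.1 h1
      exact this
    calc q * g = (g * q * g⁻¹) * g := by rw [h2]
      _ = g * q := by group
  obtain ⟨P, A, hAn, hc⟩ := hF.hasNormalPComplement
  have hcc := hc.card_mul_card
  have hpG : p ∣ Nat.card G := M.index_dvd_card
  have hAt : A ≠ ⊤ := by
    rintro rfl
    rw [card_top] at hcc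
    have h2 : Nat.card (P : Subgroup G) = 1 :=
      Nat.eq_of_mul_eq_mul_left (Nat.card_pos (α := G)) (by rw [hcc, mul_one])
    exact P.ne_bot_of_dvd_card hpG (card_eq_one.1 h2)
  have hAc := hab A hAn hAt
  have hAcomm : ∀ a ∈ A, ∀ b ∈ A, a * b = b * a := fun a ha b hb =>
    congrArg Subtype.val (hAc.is_comm.comm ⟨a, ha⟩ ⟨b, hb⟩)
  have hAidx : Nat.card A = (P : Subgroup G).index := by
    have h1 := (P : Subgroup G).card_mul_index
    rw [← hcc, mul_comm] at h1
    exact (Nat.eq_of_mul_eq_mul_right Nat.card_pos h1).symm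
  have hpA : ¬ p ∣ Nat.card A := by rw [hAidx]; exact P.not_dvd_index
  have hcopA : (Nat.card A).Coprime p := ((Nat.Prime.coprime_iff_not_dvd hMp).2 hpA).symm
  -- some element of `P` does not centralize `A`
  have hex : ∃ x ∈ (P : Subgroup G), x ∉ centralizer (A : Set G) := by
    by_contra hcon
    push Not at hcon
    apply hnn
    have hPn : (P : Subgroup G).Normal := by
      rw [← normalizer_eq_top_iff, eq_top_iff, ← hc.sup_eq_top]
      apply sup_le _ le_normalizer
      intro a ha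
      apply centralizer_le_normalizer
      rw [mem_centralizer_iff]
      intro y hy
      have := hcon y hy
      rw [mem_centralizer_iff] at this
      exact (this a ha).symm
    have n1 : Group.IsNilpotent A := by
      let _ : CommGroup A := { (inferInstance : Group A) with mul_comm := hAc.is_comm.comm }
      infer_instance
    have n2 : Group.IsNilpotent (P : Subgroup G) := P.2.isNilpotent
    have n3 := Cfsg.Agent.Lib.Helper22.isNilpotent_sup A (P : Subgroup G) n1 n2
    rw [hc.sup_eq_top] at n3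
    exact (Group.isNilpotent_congr topEquiv).1 n3
  obtain ⟨x, hxP, hxA⟩ := hex
  obtain ⟨k0, hk0⟩ := P.2 ⟨x, hxP⟩
  have hk0' : x ^ p ^ k0 = 1 := by simpa using congrArg Subtype.val hk0
  obtain ⟨k, _, hk⟩ := (Nat.dvd_prime_pow hMp).1 (orderOf_dvd_of_pow_eq_one hk0')
  have hcox : (orderOf x).Coprime (Nat.card A) := by
    rw [hk]; exact (Nat.Coprime.pow_right k hcopA).symm
  have hxn : x ∈ normalizer (A : Set G) := by rw [normalizer_eq_top]; trivial
  have hfix : ∀ a : G, a ∈ A → a ≠ 1 → x * a * x⁻¹ ≠ a := by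
    intro a ha ha1 hxa
    apply ha1
    refine hS.fixed_eq_one' A hAcomm x hxn hcox hxA a ha ?_
    calc a * x = (x * a * x⁻¹) * x := by rw [hxa]
      _ = x * a := by group
  -- `A ⊔ ⟨x⟩ = ⊤`
  set X : Subgroup G := A ⊔ zpowers x with hX
  have hXnc : ¬ IsMulCommutative X := by
    intro hcomm
    apply hxA
    rw [mem_centralizer_iff]
    intro a ha
    exact congrArg Subtype.val (hcomm.is_comm.comm ⟨a, le_sup_left (a := A) ha⟩
      ⟨x, le_sup_right (a := A) (mem_zpowers x)⟩)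
  have hXself := hS X hXnc
  have hXtop : X = ⊤ := by
    obtain ⟨n, hn⟩ := (IsPGroup.iff_card).1 P.2
    have hq : Nat.card (G ⧸ A) = p ^ n := by
      have h1 := A.card_mul_index
      rw [← hcc] at h1
      have h2 : A.index = Nat.card (P : Subgroup G) := Nat.eq_of_mul_eq_mul_left Nat.card_pos h1
      rw [← hn, ← h2]; rfl
    have hpg : IsPGroup p (G ⧸ A) := IsPGroup.of_card hq
    have hnil := hpg.isNilpotent
    have hcm : (X.map (QuotientGroup.mk' A)).comap (QuotientGroup.mk' A) = X :=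
      comap_map_eq_self (by rw [QuotientGroup.ker_mk']; exact le_sup_left)
    have hnX : normalizer ((X.map (QuotientGroup.mk' A) : Subgroup (G ⧸ A)) : Set (G ⧸ A)) =
        X.map (QuotientGroup.mk' A) := by
      apply comap_injective (QuotientGroup.mk'_surjective A)
      rw [comap_normalizer_eq_of_surjective _ (QuotientGroup.mk'_surjective A), hcm, hXself]
    have htop : X.map (QuotientGroup.mk' A) = ⊤ := by
      by_contra hne
      have := Group.normalizerCondition_of_isNilpotent (G := G ⧸ A) _ (lt_top_iff_ne_top.2 hne)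
      rw [hnX] at this
      exact lt_irrefl _ this
    rw [← hcm, htop, comap_top]
  have hcompl : (zpowers x).IsComplement' A := by
    apply isComplement'_of_disjoint_and_mul_eq_univ
    · apply disjoint_of_coprime_natCard
      rw [Nat.card_zpowers]
      exact hcox
    · rw [← mul_normal, sup_comm, ← hX, hXtop]
      rfl
  have hcen : x ^ p ∈ center G := by
    have hxpM : x ^ p ∈ M := by
      rw [← QuotientGroup.eq_one_iff, QuotientGroup.mk_pow, ← hcardQ]
      exact pow_card_eq_one'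
    have hAM : A ≤ M := by
      intro a ha
      apply hpM
      have := orderOf_dvd_natCard (⟨a, ha⟩ : A)
      rw [Subgroup.orderOf_mk] at this
      exact Nat.Coprime.coprime_dvd_left this hcopA
    have hle : X ≤ centralizer ({x ^ p} : Set G) := by
      apply sup_le
      · intro a ha
        simp only [mem_centralizer_iff, Set.mem_singleton_iff, forall_eq]
        exact congrArg Subtype.val (hMc.is_comm.comm ⟨_, hxpM⟩ ⟨a, hAM ha⟩)
      · rw [zpowers_le]
        simp only [mem_centralizer_iff, Set.mem_singleton_iff, forall_eq]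
        rw [← pow_succ, ← pow_succ']
    rw [mem_center_iff]
    intro g
    have : g ∈ X := by rw [hXtop]; trivial
    have := hle this
    simp only [mem_centralizer_iff, Set.mem_singleton_iff, forall_eq] at this
    exact this.symm
  exact ⟨x, A, p, hMp, hAn, hAc, ⟨k, hk⟩, hpA, hcompl, hcen, hfix⟩

theorem selfNorm_of_structure [Finite G] (x : G) (A : Subgroup G) (p : ℕ) (hp : p.Prime)
    (hAn : A.Normal) (hAc : IsMulCommutative A) (hx : ∃ k : ℕ, orderOf x = p ^ k)
    (hcompl : (zpowers x).IsComplement' A)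
    (hcen : x ^ p ∈ center G) (hfix : ∀ a : G, a ∈ A → a ≠ 1 → x * a * x⁻¹ ≠ a) : SelfNorm G := by
  intro H hH
  apply le_antisymm _ le_normalizer
  have hAcomm : ∀ a ∈ A, ∀ b ∈ A, a * b = b * a := fun a ha b hb =>
    congrArg Subtype.val (hAc.is_comm.comm ⟨a, ha⟩ ⟨b, hb⟩)
  have hcen' : ∀ g : G, g * x ^ p = x ^ p * g := mem_center_iff.1 hcen
  -- decomposition
  have hdec : ∀ g : G, ∃ (i : ℤ) (a : G), a ∈ A ∧ g = x ^ i * a := by
    intro g
    obtain ⟨⟨⟨y, hy⟩, ⟨a, ha⟩⟩, hya⟩ := hcompl.2 g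
    obtain ⟨i, rfl⟩ := mem_zpowers_iff.1 hy
    exact ⟨i, a, ha, hya.symm⟩
  -- an element of `H` outside `A⟨x^p⟩`
  have hex : ∃ (i : ℤ) (a : G), a ∈ A ∧ x ^ i * a ∈ H ∧ ¬ (p : ℤ) ∣ i := by
    by_contra hcon
    push Not at hcon
    apply hH
    refine ⟨⟨fun u v => Subtype.ext ?_⟩⟩
    obtain ⟨i, a, ha, hu⟩ := hdec u
    obtain ⟨j, b, hb, hv⟩ := hdec v
    obtain ⟨i', rfl⟩ := hcon i a ha (hu ▸ u.2)
    obtain ⟨j', rfl⟩ := hcon j b hb (hv ▸ v.2)
    have c1 : ∀ (m : ℤ) (g : G), g * x ^ ((p : ℤ) * m) = x ^ ((p : ℤ) * m) * g := by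
      intro m g
      rw [zpow_mul, zpow_natCast]
      exact ((show Commute g (x ^ p) from hcen' g).zpow_right m).eq
    simp only [Subgroup.coe_mul]
    rw [hu, hv]
    calc x ^ ((p : ℤ) * i') * a * (x ^ ((p : ℤ) * j') * b)
        = x ^ ((p : ℤ) * i') * (a * x ^ ((p : ℤ) * j')) * b := by group
      _ = x ^ ((p : ℤ) * i') * (x ^ ((p : ℤ) * j') * a) * b := by rw [c1]
      _ = (x ^ ((p : ℤ) * i') * x ^ ((p : ℤ) * j')) * (a * b) := by group
      _ = (x ^ ((p : ℤ) * j') * x ^ ((p : ℤ) * i')) * (b * a) := by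
          rw [hAcomm a ha b hb, ← zpow_add, ← zpow_add, add_comm]
      _ = x ^ ((p : ℤ) * j') * (x ^ ((p : ℤ) * i') * b) * a := by group
      _ = x ^ ((p : ℤ) * j') * (b * x ^ ((p : ℤ) * i')) * a := by rw [c1]
      _ = x ^ ((p : ℤ) * j') * b * (x ^ ((p : ℤ) * i') * a) := by group
  obtain ⟨i, a, ha, hhH, hpi⟩ := hex
  set h := x ^ i * a with hh
  obtain ⟨k, hk⟩ := hx
  have hcop : IsCoprime i ((p : ℤ) ^ k) := by
    apply IsCoprime.pow_right
    exact ((Nat.prime_iff_prime_int.1 hp).coprime_iff_not_dvd.2 hpi).symm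
  obtain ⟨u, v, huv⟩ := hcop
  -- `x = (x^i)^u`
  have hxi : (x ^ i) ^ u = x := by
    have h1 : x ^ ((p : ℤ) ^ k) = 1 := by
      have : ((p : ℤ) ^ k) = ((p ^ k : ℕ) : ℤ) := by push_cast; rfl
      rw [this, zpow_natCast, ← hk, pow_orderOf_eq_one]
    have h2 : x ^ (u * i + v * (p : ℤ) ^ k) = x := by rw [huv, zpow_one]
    rw [zpow_add, mul_comm v, zpow_mul x ((p : ℤ) ^ k), h1, one_zpow, mul_one, mul_comm u, zpow_mul] at h2
    exact h2
  -- `C_A(h) = 1`
  have hCA : ∀ b ∈ A, h * b = b * h → b = 1 := by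
    intro b hb hbh
    by_contra hb1
    apply hfix b hb hb1
    have h1 : x ^ i * b = b * x ^ i := by
      have e1 : x ^ i * a * b = b * (x ^ i * a) := hbh
      have e2 : x ^ i * b * a = b * x ^ i * a := by
        calc x ^ i * b * a = x ^ i * (b * a) := by group
          _ = x ^ i * (a * b) := by rw [hAcomm b hb a ha]
          _ = x ^ i * a * b := by group
          _ = b * (x ^ i * a) := e1
          _ = b * x ^ i * a := by group
      exact mul_right_cancel e2
    have h2 : x * b = b * x := by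
      have := ((show Commute (x ^ i) b from h1).zpow_left u).eq
      rwa [hxi] at this
    rw [h2]; group
  -- `G = ⟨h⟩ A`
  have hmk : ((h : G) : G ⧸ A) ^ u = (x : G ⧸ A) := by
    have : ((h : G) : G ⧸ A) = ((x ^ i : G) : G ⧸ A) := by
      rw [hh, QuotientGroup.mk_mul, (QuotientGroup.eq_one_iff a).2 ha, mul_one]
    rw [this, ← QuotientGroup.mk_zpow, hxi]
  intro n hn
  obtain ⟨t, b, hb, hnb⟩ := hdec n
  -- `a' = h^{-ut} n ∈ A`
  set m : ℤ := u * t with hm
  have ha' : (h ^ m)⁻¹ * n ∈ A := by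
    rw [← QuotientGroup.eq, QuotientGroup.mk_zpow, hm, zpow_mul, hmk, hnb, QuotientGroup.mk_mul,
      (QuotientGroup.eq_one_iff b).2 hb, mul_one, QuotientGroup.mk_zpow]
  set a' := (h ^ m)⁻¹ * n with ha'def
  have hhm : h ^ m ∈ H := H.zpow_mem hhH m
  have ha'n : a' ∈ normalizer (H : Set G) :=
    (normalizer (H : Set G)).mul_mem ((normalizer (H : Set G)).inv_mem (le_normalizer hhm)) hn
  suffices hs : a' ∈ H by
    have : n = h ^ m * a' := by rw [ha'def]; group
    rw [this]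
    exact H.mul_mem hhm hs
  have hinj : ∀ b1 ∈ A, ∀ b2 ∈ A, b1 * h * b1⁻¹ * h⁻¹ = b2 * h * b2⁻¹ * h⁻¹ → b1 = b2 := by
    intro b1 hb1 b2 hb2 he
    have h1 : b1 * h * b1⁻¹ = b2 * h * b2⁻¹ := mul_right_cancel he
    have h2 : h * (b2⁻¹ * b1) = (b2⁻¹ * b1) * h := by
      calc h * (b2⁻¹ * b1) = b2⁻¹ * (b2 * h * b2⁻¹) * b1 := by group
        _ = b2⁻¹ * (b1 * h * b1⁻¹) * b1 := by rw [h1]
        _ = (b2⁻¹ * b1) * h := by group
    have h3 := hCA _ (A.mul_mem (A.inv_mem hb2) hb1) h2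
    exact (inv_mul_eq_one.1 h3).symm
  let θ : (H ⊓ A : Subgroup G) → (H ⊓ A : Subgroup G) := fun b =>
    ⟨(b : G) * h * (b : G)⁻¹ * h⁻¹, mem_inf.2 ⟨H.mul_mem (H.mul_mem (H.mul_mem (mem_inf.1 b.2).1 hhH)
      (H.inv_mem (mem_inf.1 b.2).1)) (H.inv_mem hhH), by
      have e : (b : G) * h * (b : G)⁻¹ * h⁻¹ = (b : G) * (h * (b : G)⁻¹ * h⁻¹) := by group
      rw [e]
      exact A.mul_mem (mem_inf.1 b.2).2 (hAn.conj_mem _ (A.inv_mem (mem_inf.1 b.2).2) h)⟩⟩
  have hθinj : Function.Injective θ := by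
    intro b1 b2 he
    apply Subtype.ext
    exact hinj _ (mem_inf.1 b1.2).2 _ (mem_inf.1 b2.2).2 (congrArg Subtype.val he)
  have hθsurj := Finite.injective_iff_surjective.1 hθinj
  have hcmem : a' * h * a'⁻¹ * h⁻¹ ∈ H ⊓ A := by
    refine mem_inf.2 ⟨H.mul_mem ((mem_normalizer_iff.1 ha'n h).1 hhH) (H.inv_mem hhH), ?_⟩
    have e : a' * h * a'⁻¹ * h⁻¹ = a' * (h * a'⁻¹ * h⁻¹) := by group
    rw [e]
    exact A.mul_mem ha' (hAn.conj_mem _ (A.inv_mem ha') h)
  obtain ⟨b0, hb0⟩ := hθsurj ⟨_, hcmem⟩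
  have := hinj _ (mem_inf.1 b0.2).2 _ ha' (congrArg Subtype.val hb0)
  rw [← this]
  exact (mem_inf.1 b0.2).1

end Cfsg.Agent.H4
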