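import Mathlib
import Cfsg.Agent.H4.Subnormal2

set_option autoImplicit false

namespace Cfsg.Agent.H4

open Subgroup
open scoped Pointwise

theorem wielandt_normalizer_rel {G : Type*} [Group G] [Finite G] (V : Subgroup G)
    (S S₀ : Set (Subgroup G)) (hle : ∀ X ∈ S, X ≤ V)
    (hsn : ∀ X ∈ S, (X.subgroupOf V).IsSubnormal)
    (hconj : ∀ X ∈ S, ∀ v ∈ V, MulAut.conj v • X ∈ S) (h₀ : S₀ ⊂ S) :
    ∃ X ∈ S, X ∉ S₀ ∧ X ≤ Subgroup.normalizer ((sSup S₀ : Subgroup G) : Set G) := by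
  have hms : ∀ Y : Subgroup V, (Y.map V.subtype).subgroupOf V = Y :=
    fun Y => comap_map_eq_self_of_injective V.subtype_injective Y
  obtain ⟨Y, hY, hY0, hYn⟩ := wielandt_normalizer
    {Y : Subgroup V | Y.map V.subtype ∈ S} {Y : Subgroup V | Y.map V.subtype ∈ S₀}
    (fun Y hY => by have := hsn _ hY; rwa [hms] at this)
    (fun Y hY v => by
      have h1 := conj_smul_subgroupOf (map_subtype_le Y) v
      rw [hms] at h1
      have h2 : MulAut.conj (v : G) • (Y.map V.subtype) ≤ V := conj_smul_le_of_le (map_subtype_le Y) v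
      change (MulAut.conj v • Y).map V.subtype ∈ S
      rw [h1, map_subgroupOf_eq_of_le h2]
      exact hconj _ hY v v.2)
    (by
      refine ⟨fun Y hY => h₀.subset hY, fun hsub => ?_⟩
      obtain ⟨X, hX, hX0⟩ := Set.exists_of_ssubset h₀
      have h1 : (X.subgroupOf V).map V.subtype = X := map_subgroupOf_eq_of_le (hle X hX)
      have h2 : X.subgroupOf V ∈ {Y : Subgroup V | Y.map V.subtype ∈ S} := by
        change (X.subgroupOf V).map V.subtype ∈ S
        rw [h1]; exact hX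
      have h3 : (X.subgroupOf V).map V.subtype ∈ S₀ := hsub h2
      rw [h1] at h3
      exact hX0 h3)
  refine ⟨Y.map V.subtype, hY, hY0, ?_⟩
  have h1 : (sSup {Y : Subgroup V | Y.map V.subtype ∈ S₀}).map V.subtype = sSup S₀ := by
    apply le_antisymm
    · rw [map_le_iff_le_comap]
      apply sSup_le
      intro Z hZ
      rw [← map_le_iff_le_comap]
      exact le_sSup hZ
    · apply sSup_le
      intro X hX
      have h1 : (X.subgroupOf V).map V.subtype = X := map_subgroupOf_eq_of_le (hle X (h₀.subset hX))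
      rw [← h1]
      apply map_mono
      apply le_sSup
      change (X.subgroupOf V).map V.subtype ∈ S₀
      rw [h1]; exact hX
  rw [← h1]
  exact (map_mono hYn).trans (le_normalizer_map _)

theorem wielandt_zipper {G : Type*} [Group G] [Finite G] (A : Subgroup G) (U : Set (Subgroup G))
    (hU : U.Nonempty) (S : Subgroup G → Set (Subgroup G))
    (hS : ∀ V B : Subgroup G, B ∈ S V ↔ (∃ g : G, B = MulAut.conj g • A) ∧ B ≤ V ∧
      (B.subgroupOf V).IsSubnormal)
    (h2 : ∀ V ∈ U, ∀ W ∈ U, ∀ B ∈ S W, B ≤ V → B ∈ S V)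
    (h3 : ∀ V ∈ U, ∀ W ∈ U, ∃ X ∈ U,
      Subgroup.normalizer ((sSup (S V ∩ S W) : Subgroup G) : Set G) ≤ X) :
    ∃ M ∈ U, ∀ V ∈ U, V ≤ M := by
  have hUfin : U.Finite := Set.toFinite U
  have hconjS : ∀ W B : Subgroup G, B ∈ S W → ∀ w ∈ W, MulAut.conj w • B ∈ S W := by
    intro W B hB w hw
    rw [hS] at hB ⊢
    obtain ⟨⟨g, rfl⟩, hle, hsn⟩ := hB
    refine ⟨⟨w * g, by rw [map_mul, mul_smul]⟩, conj_smul_le_of_le hle ⟨w, hw⟩, ?_⟩
    have := conj_smul_subgroupOf hle ⟨w, hw⟩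
    rw [← this]
    exact hsn.smul _
  have key : ∀ U₁ U₂ : Subgroup G, Maximal (· ∈ U) U₁ → Maximal (· ∈ U) U₂ → U₁ = U₂ := by
    by_contra hcon
    push Not at hcon
    obtain ⟨a, b, ha, hb, hab⟩ := hcon
    obtain ⟨⟨U₁, U₂⟩, ⟨hU₁, hU₂, hne⟩, hmax⟩ := Set.exists_max_image
      {P : Subgroup G × Subgroup G | Maximal (· ∈ U) P.1 ∧ Maximal (· ∈ U) P.2 ∧ P.1 ≠ P.2}
      (fun P => (S P.1 ∩ S P.2).ncard) (Set.toFinite _) ⟨(a, b), ha, hb, hab⟩
    simp only at hU₁ hU₂ hne hmax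
    obtain ⟨X, hXU, hX⟩ := h3 U₁ hU₁.1 U₂ hU₂.1
    obtain ⟨U₃, hXU₃, hU₃⟩ := hUfin.exists_le_maximal hXU
    have hN3 : Subgroup.normalizer ((sSup (S U₁ ∩ S U₂) : Subgroup G) : Set G) ≤ U₃ := hX.trans hXU₃
    have hS3 : S U₁ ∩ S U₂ ⊆ S U₃ := by
      intro B hB
      apply h2 U₃ hU₃.1 U₁ hU₁.1 B hB.1
      exact (le_sSup hB).trans (le_normalizer.trans hN3)
    have claim : ∀ W : Subgroup G, Maximal (· ∈ U) W → S U₁ ∩ S U₂ ⊆ S W → W = U₃ := by
      intro W hW hsub
      by_contra hne3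
      have h4 := hmax (W, U₃) ⟨hW, hU₃, hne3⟩
      simp only at h4
      have h5 : S U₁ ∩ S U₂ = S W ∩ S U₃ :=
        Set.eq_of_subset_of_ncard_le (Set.subset_inter hsub hS3) h4 (Set.toFinite _)
      by_cases h6 : S U₁ ∩ S U₂ = S W
      · apply hne3
        have h7 : W ≤ U₃ := by
          refine le_trans ?_ hN3
          have key : ∀ x ∈ W, MulAut.conj x • sSup (S U₁ ∩ S U₂) ≤ sSup (S U₁ ∩ S U₂) := by
            intro x hx
            rw [pointwise_smul_subset_iff]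
            apply sSup_le
            intro Y hY
            rw [← pointwise_smul_subset_iff]
            apply le_sSup
            rw [h6] at hY ⊢
            exact hconjS W Y hY x hx
          intro x hx
          exact mem_normalizer_of_conj_smul_le (key x hx) (key x⁻¹ (inv_mem hx))
        exact le_antisymm h7 (hW.2 hU₃.1 h7)
      · have h7 : S U₁ ∩ S U₂ ⊂ S W := lt_of_le_of_ne hsub h6
        obtain ⟨Y, hY, hY0, hYn⟩ := wielandt_normalizer_rel W (S W) (S U₁ ∩ S U₂)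
          (fun X hX => ((hS W X).mp hX).2.1) (fun X hX => ((hS W X).mp hX).2.2)
          (fun X hX v hv => hconjS W X hX v hv) h7
        apply hY0
        rw [h5]
        exact ⟨hY, h2 U₃ hU₃.1 W hW.1 Y hY (hYn.trans hN3)⟩
    exact hne ((claim U₁ hU₁ Set.inter_subset_left).trans (claim U₂ hU₂ Set.inter_subset_right).symm)
  obtain ⟨V₀, hV₀⟩ := hU
  obtain ⟨M, -, hM⟩ := hUfin.exists_le_maximal hV₀
  refine ⟨M, hM.1, fun V hV => ?_⟩
  obtain ⟨M', hVM', hM'⟩ := hUfin.exists_le_maximal hV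
  rw [key M M' hM hM']
  exact hVM'

end Cfsg.Agent.H4
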