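import Mathlib
import Cfsg.Agent.H20.ZStarCons

set_option autoImplicit false
set_option linter.style.haveILetI false

namespace Cfsg.Agent.H4

open Cfsg.Agent.H20 in
theorem four_false {G : Type*} [Group G] [Finite G] (x : G)
    (h3 : Nat.card {u : ↥(Subgroup.centralizer ({x} : Set G)) // orderOf u = 2} ≤ 3)
    (a b c d : G) (ha : orderOf a = 2) (hb : orderOf b = 2) (hc : orderOf c = 2)
    (hd : orderOf d = 2)
    (ha' : Commute a x) (hb' : Commute b x) (hc' : Commute c x) (hd' : Commute d x)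
    (hab : a ≠ b) (hac : a ≠ c) (had : a ≠ d) (hbc : b ≠ c) (hbd : b ≠ d) (hcd : c ≠ d) :
    False := by
  classical
  have mem : ∀ g : G, Commute g x → g ∈ Subgroup.centralizer ({x} : Set G) := by
    intro g hg
    rw [Subgroup.mem_centralizer_singleton_iff]
    exact hg.eq
  let mk : ∀ g : G, orderOf g = 2 → Commute g x →
      {u : ↥(Subgroup.centralizer ({x} : Set G)) // orderOf u = 2} :=
    fun g h1 h2 => ⟨⟨g, mem g h2⟩, by rw [Subgroup.orderOf_mk]; exact h1⟩
  haveI : Fintype {u : ↥(Subgroup.centralizer ({x} : Set G)) // orderOf u = 2} :=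
    Fintype.ofFinite _
  let s : Finset {u : ↥(Subgroup.centralizer ({x} : Set G)) // orderOf u = 2} :=
    {mk a ha ha', mk b hb hb', mk c hc hc', mk d hd hd'}
  have hs : s.card = 4 := by
    simp only [s]
    rw [Finset.card_insert_of_notMem, Finset.card_insert_of_notMem,
      Finset.card_insert_of_notMem, Finset.card_singleton]
    · simp [mk, Subtype.ext_iff, hcd]
    · simp [mk, Subtype.ext_iff, hbc, hbd]
    · simp [mk, Subtype.ext_iff, hab, hac, had]
  have h4 := Finset.card_le_univ s
  rw [← Nat.card_eq_fintype_card] at h4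
  omega

/-- every 2-element (here involution) is conjugate into a given Sylow 2-subgroup -/
theorem exists_conj_mem_sylow_of_involution {G : Type*} [Group G] [Finite G] (S : Sylow 2 G)
    (a : G) (ha : orderOf a = 2) : ∃ k : G, k * a * k⁻¹ ∈ S := by
  haveI : Fact (Nat.Prime 2) := ⟨Nat.prime_two⟩
  have hp : IsPGroup 2 (Subgroup.zpowers a) :=
    IsPGroup.of_card (n := 1) (by rw [Nat.card_zpowers, ha]; rfl)
  obtain ⟨S', hS'⟩ := hp.exists_le_sylow
  obtain ⟨k, hk⟩ := MulAction.exists_smul_eq G S' S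
  refine ⟨k, ?_⟩
  have h1 : a ∈ S' := hS' (Subgroup.mem_zpowers a)
  rw [← hk]
  have : k * a * k⁻¹ ∈ ((k • S' : Sylow 2 G) : Subgroup G) := by
    rw [Sylow.coe_subgroup_smul]
    exact ⟨a, h1, rfl⟩
  exact this

end Cfsg.Agent.H4
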